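import Cfsg.Agent.Lib.Helper32.BG10Basic
import Cfsg.Agent.Lib.Helper87.U95J1

/-!
# B&G Section 10, piece Q12C (for S1415): the Hall `τ₃(M)`-subgroup of a complement `E` of `M_σ`
is cyclic, lies in `E'` and is normal in `E`
-/

set_option autoImplicit false

open Cfsg Cfsg.Agent.Lib.Helper32 Cfsg.Agent.Lib.Helper32.BG10

namespace Cfsg.Agent.Lib.Helper8.BG10

universe u

variable {G : Type u} [Group G] [Finite G]

/-- a subgroup all of whose Sylow subgroups lie in `K` lies in `K` -/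
theorem q12c_le_of_sylSet_le {X K : Subgroup G}
    (h : ∀ p : ℕ, p.Prime → ∀ R ∈ sylSet p X, R ≤ K) : X ≤ K := by
  have h1 : (⊤ : Subgroup ↥X).map X.subtype = X := by
    rw [← MonoidHom.range_eq_map, Subgroup.range_subtype]
  have h2 : (⊤ : Subgroup ↥X).map X.subtype ≤ K := by
    rw [← Cfsg.Agent.Lib.Helper66.iSup_sylow_eq_top ↥X, Subgroup.map_iSup]
    apply iSup_le
    intro p
    rw [Subgroup.map_iSup]
    apply iSup_le
    intro hp
    rw [Subgroup.map_iSup]
    apply iSup_le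
    intro S
    have : Fact p.Prime := ⟨hp⟩
    exact h p hp _ (mem_sylSet_of_sylow S)
  rw [h1] at h2
  exact h2

omit [Finite G] in
/-- the order of `M = A B` with `A ∩ B = 1` -/
theorem q12c_card_of_complIn {A B M : Subgroup G} (h : IsComplIn A B M) :
    Nat.card M = Nat.card A * Nat.card B := by
  obtain ⟨hA, hB, hAB, hprod⟩ := h
  rw [← Nat.card_prod]
  symm
  apply Nat.card_congr
  refine Equiv.ofBijective
    (fun x : ↥A × ↥B => (⟨x.1.1 * x.2.1, M.mul_mem (hA x.1.2) (hB x.2.2)⟩ : ↥M)) ⟨?_, ?_⟩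
  · rintro ⟨⟨a, ha⟩, ⟨b, hb⟩⟩ ⟨⟨a', ha'⟩, ⟨b', hb'⟩⟩ hx
    have hx' : a * b = a' * b' := congrArg Subtype.val hx
    have h1 : a'⁻¹ * a = b' * b⁻¹ := by
      calc a'⁻¹ * a = a'⁻¹ * (a * b) * b⁻¹ := by group
        _ = a'⁻¹ * (a' * b') * b⁻¹ := by rw [hx']
        _ = b' * b⁻¹ := by group
    have h2 : a'⁻¹ * a ∈ A ⊓ B :=
      ⟨A.mul_mem (A.inv_mem ha') ha, h1 ▸ B.mul_mem hb' (B.inv_mem hb)⟩
    rw [hAB, Subgroup.mem_bot] at h2
    have h3 : a' = a := inv_mul_eq_one.mp h2
    subst h3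
    have h4 : b = b' := mul_left_cancel hx'
    subst h4
    rfl
  · rintro ⟨m, hm⟩
    obtain ⟨a, ha, b, hb, rfl⟩ := hprod m hm
    exact ⟨(⟨a, ha⟩, ⟨b, hb⟩), rfl⟩

theorem bg10_12c (hG : IsMinSimpleOddOrder G) {M : Subgroup G} (hM : IsCoatom M)
    {E : Subgroup G} (hE : IsComplIn E (sigmaCore M) M) (hnil : Group.IsNilpotent ↥⁅E, E⁆)
    (E₃ : Subgroup G) (h3 : IsPiHallOf (tau3 M) E₃ E) :
    IsCyclic E₃ ∧ E₃ ≤ ⁅E, E⁆ ∧ E ≤ Subgroup.normalizer (E₃ : Set G) := by
  obtain ⟨hE3E, h3pi, h3idx⟩ := h3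
  have hEM : E ≤ M := hE.1
  have hcard : Nat.card M = Nat.card E * Nat.card (sigmaCore M) := q12c_card_of_complIn hE
  have hMsN : M ≤ Subgroup.normalizer ((sigmaCore M : Subgroup G) : Set G) :=
    le_normalizer_map_subtype M (piCore (sigma M) ↥M)
  have hMsPi : ∀ q : ℕ, q.Prime → q ∣ Nat.card (sigmaCore M) → q ∈ sigma M := by
    intro q hq hdvd
    have h1 : Nat.card (sigmaCore M) = Nat.card (piCore (sigma M) ↥M) :=
      Cfsg.Agent.Lib.Helper30.card_map_subtype _
    rw [h1] at hdvd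
    exact Cfsg.Agent.Lib.Helper66.isPi_piCore (G := ↥M) (sigma M) q hq hdvd
  have hMsup : M ≤ sigmaCore M ⊔ E := by
    intro m hm
    obtain ⟨a, ha, b, hb, rfl⟩ := hE.2.2.2 m hm
    exact Subgroup.mul_mem _ (Subgroup.mem_sup_right ha) (Subgroup.mem_sup_left hb)
  have hEnorm : E ≤ Subgroup.normalizer ((⁅E, E⁆ : Subgroup G) : Set G) := by
    have h1 := le_normalizer_map_subtype E (commutator ↥E)
    rwa [Subgroup.map_subtype_commutator] at h1
  have hDE : ⁅E, E⁆ ≤ E := Subgroup.commutator_le_self E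
  have hc1 : Nat.card E₃ * E₃.relIndex E = Nat.card E := by
    have h1 := Subgroup.relIndex_mul_relIndex ⊥ E₃ E bot_le hE3E
    rwa [Subgroup.relIndex_bot_left, Subgroup.relIndex_bot_left] at h1
  have hri0 : E₃.relIndex E ≠ 0 := by
    intro h0
    rw [h0, Nat.mul_zero] at hc1
    exact Nat.card_pos.ne' hc1.symm
  -- the main claim on the Sylow subgroups of `E₃`
  have key : ∀ p : ℕ, p.Prime → ∀ R ∈ sylSet p E₃,
      IsCyclic ↥R ∧ R ≤ ⁅E, E⁆ ∧ ∀ e ∈ E, cj e R ≤ E₃ := by
    intro p hp R hR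
    haveI : Fact p.Prime := ⟨hp⟩
    by_cases hdvd : p ∣ Nat.card E₃
    · obtain ⟨-, hpσ, hpD, hpr⟩ := h3pi p hp hdvd
      have hp2 : p ≠ 2 := by
        rintro rfl
        have h1 : 2 ∣ Nat.card G := hdvd.trans (Subgroup.card_subgroup_dvd_card E₃)
        exact (Nat.not_even_iff_odd.mpr hG.1) (even_iff_two_dvd.mpr h1)
      have hRp : IsPGroup p R := isPGroup_of_mem_sylSet hR
      have hRE : R ≤ E := hR.1.trans hE3E
      have hRM : R ≤ M := hRE.trans hEM
      have hpMs : ¬ p ∣ Nat.card (sigmaCore M) := fun h => hpσ (hMsPi p hp h)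
      have hpidx : ¬ p ∣ E₃.relIndex E := h3idx p hp (h3pi p hp hdvd)
      -- (1) `R` is a Sylow `p`-subgroup of `M`
      have hfac : (Nat.card M).factorization p = (Nat.card E₃).factorization p := by
        rw [hcard, ← hc1, Nat.factorization_mul (Nat.mul_ne_zero Nat.card_pos.ne' hri0)
          Nat.card_pos.ne', Nat.factorization_mul Nat.card_pos.ne' hri0]
        simp [Nat.factorization_eq_zero_of_not_dvd hpidx,
          Nat.factorization_eq_zero_of_not_dvd hpMs]
      have hRsylM : R ∈ sylSet p M := by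
        refine ⟨hRM, ?_⟩
        rw [hR.2, hfac]
      -- (2) `R` is cyclic
      have hRcyc : IsCyclic ↥R := by
        by_contra hnc
        have h1 := not_rankLE_one_of_not_cyclic hp2 hRp hnc
        obtain ⟨q, A, hq, hAR, hAc, hAe, hAcard⟩ := exists_elemAb_of_not_rankLE R 1 h1
        have hqp : q = p := by
          obtain ⟨k, hk⟩ := IsPGroup.iff_card.mp hRp
          have h2 : q ∣ p ^ k := by
            rw [← hk]
            refine Dvd.dvd.trans ?_ (Subgroup.card_dvd_of_le hAR)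
            rw [hAcard]
            exact dvd_pow_self q (by norm_num)
          exact (Nat.prime_dvd_prime_iff_eq hq hp).mp (hq.dvd_of_dvd_pow h2)
        rw [hqp] at hAe hAcard
        refine not_prankLE_of_le (hAR.trans hRM) hAc hAe ?_ hpr
        rw [hAcard]
        exact Nat.pow_lt_pow_right hp.one_lt (by norm_num)
      -- (3) `R ≤ M'`
      have hRD : R ≤ ⁅M, M⁆ := by
        obtain ⟨S, hS⟩ := exists_sylow_of_mem_sylSet hRsylM
        haveI : IsCyclic ↥(S : Subgroup ↥M) := by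
          have e1 := (S : Subgroup ↥M).equivMapOfInjective M.subtype M.subtype_injective
          rw [hS] at e1
          exact isCyclic_of_surjective e1.symm.toMonoidHom e1.symm.surjective
        have hcomm : Nat.card (commutator ↥M) = Nat.card ↥⁅M, M⁆ := by
          rw [← Subgroup.map_subtype_commutator M]
          exact (Cfsg.Agent.Lib.Helper30.card_map_subtype _).symm
        have hidx : ¬ p ∣ (commutator ↥M).index := by
          rcases Sylow.not_dvd_card_commutator_or_not_dvd_index_commutator S with h | h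
          · exact absurd (by rw [hcomm]; exact hpD) h
          · exact h
        have hS' := sylow_le_of_index_coprime p S (commutator ↥M)
          ((Nat.Prime.coprime_iff_not_dvd hp).mpr hidx).symm
        rw [← hS, ← Subgroup.map_subtype_commutator M]
        exact Subgroup.map_mono hS'
      -- (4) `R ≤ E'`
      have hRDE : R ≤ ⁅E, E⁆ :=
        Cfsg.Agent.Lib.Helper87.U95.comm_factor (X := sigmaCore M) (H := M) (Y := E) (P := R)
          ((Nat.Prime.coprime_iff_not_dvd hp).mpr hpMs).symm hMsN hEM hMsup hRp hRE hRD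
      refine ⟨hRcyc, hRDE, ?_⟩
      -- (7) `E` normalizes `R`
      intro e he
      have hRsylD : R ∈ sylSet p ⁅E, E⁆ := by
        obtain ⟨R', hR', hRR'⟩ := exists_sylSet_ge hRp hRDE
        have h1 := sylSet_eq_of_le hRsylM (isPGroup_of_mem_sylSet hR')
          (hR'.1.trans (hDE.trans hEM)) hRR'
        rw [← h1]
        exact hR'
      have hcjR : cj e R ∈ sylSet p ⁅E, E⁆ := cj_mem_sylSet (hEnorm he) hRsylD
      obtain ⟨n, hn, hnR⟩ := sylSet_conj hRsylD hcjR
      obtain ⟨S', hS'⟩ := exists_sylow_of_mem_sylSet hRsylD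
      have hnorm : ⁅E, E⁆ ≤ Subgroup.normalizer (R : Set G) := by
        have h1 := le_normalizer_map_subtype ⁅E, E⁆ (S' : Subgroup ↥⁅E, E⁆)
        rwa [hS'] at h1
      rw [← hnR, cj_eq_self_iff.mpr (hnorm hn)]
      exact hR.1
    · have h1 : Nat.card R = 1 := by
        rw [hR.2, Nat.factorization_eq_zero_of_not_dvd hdvd, pow_zero]
      have h2 : R = ⊥ := Subgroup.card_eq_one.mp h1
      rw [h2]
      refine ⟨inferInstance, bot_le, ?_⟩
      intro e he
      have h4 : cj e (⊥ : Subgroup G) = ⊥ := Subgroup.map_bot _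
      rw [h4]
      exact bot_le
  have h5 : E₃ ≤ ⁅E, E⁆ := q12c_le_of_sylSet_le (fun p hp R hR => (key p hp R hR).2.1)
  refine ⟨?_, h5, ?_⟩
  · -- (6) `E₃` is cyclic
    haveI : Group.IsNilpotent ↥E₃ := by
      haveI := hnil
      exact Group.nilpotent_of_mulEquiv (Subgroup.subgroupOfEquivOfLe h5)
    haveI : IsZGroup ↥E₃ := by
      refine ⟨fun p hp S => ?_⟩
      haveI : Fact p.Prime := ⟨hp⟩
      haveI := (key p hp _ (mem_sylSet_of_sylow S)).1
      have e1 := (S : Subgroup ↥E₃).equivMapOfInjective E₃.subtype E₃.subtype_injective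
      exact isCyclic_of_surjective e1.symm.toMonoidHom e1.symm.surjective
    infer_instance
  · -- (7) `E` normalizes `E₃`
    intro e he
    have h6 : E₃ ≤ cj e⁻¹ E₃ := by
      apply q12c_le_of_sylSet_le
      intro p hp R hR
      have h7 := cj_mono e⁻¹ ((key p hp R hR).2.2 e he)
      rwa [cj_inv_cj] at h7
    have h8 : E₃ = cj e⁻¹ E₃ := Subgroup.eq_of_le_of_card_ge h6 (by rw [card_cj])
    have h9 : e⁻¹ ∈ Subgroup.normalizer (E₃ : Set G) := cj_eq_self_iff.mp h8.symm
    have h10 := Subgroup.inv_mem _ h9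
    rwa [inv_inv] at h10

end Cfsg.Agent.Lib.Helper8.BG10
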