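import Mathlib
import Cfsg.Agent.Lib.Helper18.SLMDefs

/-! Project SLM (S2332, architect helper18), piece COMM1: a commutator of two elements preserving a
line acts trivially on that line. -/

set_option autoImplicit false

namespace Cfsg.Agent.Lib.Helper18.SLM

open Matrix

universe u

variable {F : Type u} [Field F] [Fintype F]

-- piece COMM1
theorem comm_trivial {G : Type*} [Group G] {V : Type*} [AddCommGroup V] [Module ℂ V]
    (ρ : Representation ℂ G V) (L : Submodule ℂ V) (hL : Module.finrank ℂ L = 1) (a b : G)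
    (ha : ∀ v ∈ L, ρ a v ∈ L) (hb : ∀ v ∈ L, ρ b v ∈ L) :
    ∀ v ∈ L, ρ (a * b * a⁻¹ * b⁻¹) v = v := by
  obtain ⟨e, he0, hspan⟩ := finrank_eq_one_iff'.1 hL
  have he0' : (e : V) ≠ 0 := fun h => he0 (Subtype.ext h)
  have key : ∀ g : G, (∀ v ∈ L, ρ g v ∈ L) →
      ∃ c : ℂ, c ≠ 0 ∧ ρ g (e : V) = c • (e : V) ∧ ρ g⁻¹ (e : V) = c⁻¹ • (e : V) := by
    intro g hg
    obtain ⟨c, hc⟩ := hspan ⟨ρ g e, hg e e.2⟩
    have hc' : ρ g (e : V) = c • (e : V) := by
      have := congrArg Subtype.val hc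
      exact this.symm
    have hinv : ρ g⁻¹ (ρ g (e : V)) = (e : V) := by
      have h1 : ρ g⁻¹ * ρ g = 1 := by rw [← map_mul, inv_mul_cancel, map_one]
      have h2 := congrArg (fun f : Module.End ℂ V => f (e : V)) h1
      simpa using h2
    have hc0 : c ≠ 0 := by
      rintro rfl
      rw [zero_smul] at hc'
      rw [hc', map_zero] at hinv
      exact he0' hinv.symm
    refine ⟨c, hc0, hc', ?_⟩
    rw [hc', map_smul] at hinv
    calc ρ g⁻¹ (e : V) = c⁻¹ • (c • ρ g⁻¹ (e : V)) := by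
          rw [smul_smul, inv_mul_cancel₀ hc0, one_smul]
      _ = c⁻¹ • (e : V) := by rw [hinv]
  obtain ⟨α, hα0, hα, hα'⟩ := key a ha
  obtain ⟨β, hβ0, hβ, hβ'⟩ := key b hb
  have h2 : ρ a⁻¹ (β⁻¹ • (e : V)) = β⁻¹ • α⁻¹ • (e : V) := by rw [map_smul, hα']
  have h3 : ρ b (β⁻¹ • α⁻¹ • (e : V)) = β⁻¹ • α⁻¹ • β • (e : V) := by
    rw [map_smul, map_smul, hβ]
  have h4 : ρ a (β⁻¹ • α⁻¹ • β • (e : V)) = β⁻¹ • α⁻¹ • β • α • (e : V) := by
    rw [map_smul, map_smul, map_smul, hα]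
  have hcoef : β⁻¹ • α⁻¹ • β • α • (e : V) = (e : V) := by
    rw [smul_smul, smul_smul, smul_smul]
    have h5 : β⁻¹ * α⁻¹ * β * α = 1 := by field_simp
    rw [h5, one_smul]
  have he : ρ (a * b * a⁻¹ * b⁻¹) (e : V) = (e : V) := by
    have h0 : ρ (a * b * a⁻¹ * b⁻¹) (e : V) = ρ a (ρ b (ρ a⁻¹ (ρ b⁻¹ (e : V)))) := by
      simp [map_mul]
    rw [h0, hβ', h2, h3, h4, hcoef]
  intro v hv
  obtain ⟨c, hc⟩ := hspan ⟨v, hv⟩
  have hv' : v = c • (e : V) := by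
    have := congrArg Subtype.val hc
    simpa using this.symm
  rw [hv', map_smul, he]

end Cfsg.Agent.Lib.Helper18.SLM
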