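import Cfsg.Agent.Lib.Helper3.BG12Defs
import Cfsg.Agent.Lib.Helper87.U95J1

/-!
# B&G Section 12, piece PNPC (helper3): a subgroup `N` with a normal `p`-complement `K`:
`K` is normalized by `N_G(N)`, and `N = K R`, `R ∩ N' ≤ R'` for every Sylow `p`-subgroup `R` of `N`
-/

set_option autoImplicit false

open Cfsg Cfsg.Agent.Lib.Helper32 Cfsg.Agent.Lib.Helper32.BG10 Cfsg.Agent.Lib.Helper3.BG12

namespace Cfsg.Agent.Lib.Helper8.BG12

universe u

variable {G : Type u} [Group G] [Finite G]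

theorem exists_npc_sub {p : ℕ} [Fact p.Prime] {N : Subgroup G} (h : HasNormalPComplement p ↥N) :
    ∃ K : Subgroup G, K ≤ N ∧ (Nat.card K).Coprime p ∧
      Subgroup.normalizer (N : Set G) ≤ Subgroup.normalizer (K : Set G) ∧
      ∀ R : Subgroup G, R ∈ sylSet p N → (K ⊔ R = N ∧ R ⊓ ⁅N, N⁆ ≤ ⁅R, R⁆) := by
  have hp : p.Prime := Fact.out
  obtain ⟨P, K₀, hK₀n, hcompl⟩ := h
  haveI := hK₀n
  obtain ⟨k, hk⟩ : ∃ k : ℕ, k = (Nat.card ↥N).factorization p := ⟨_, rfl⟩
  have hPcard : Nat.card (P : Subgroup ↥N) = p ^ k := by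
    rw [hk]
    exact P.card_eq_multiplicity
  have hmul : Nat.card K₀ * p ^ k = Nat.card ↥N := by
    rw [← hPcard]
    exact hcompl.card_mul
  have hK₀cop : (Nat.card K₀).Coprime p := by
    rw [Nat.coprime_comm, Nat.Prime.coprime_iff_not_dvd hp]
    intro hdvd
    have h0 : p ^ k * p ∣ p ^ k * Nat.card K₀ := Nat.mul_dvd_mul_left _ hdvd
    have h1 : p ^ ((Nat.card ↥N).factorization p + 1) ∣ Nat.card ↥N := by
      rw [← hk, ← hmul, pow_succ, mul_comm (Nat.card ↥K₀)]
      exact h0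
    exact Nat.pow_succ_factorization_not_dvd Nat.card_pos.ne' hp h1
  have hidx : K₀.index = p ^ k := by
    rw [← hPcard]
    exact hcompl.symm.index_eq_card
  have hKcard : Nat.card ↥(K₀.map N.subtype) = Nat.card K₀ :=
    Cfsg.Agent.Lib.Helper30.card_map_subtype K₀
  have hKN : K₀.map N.subtype ≤ N := by
    rintro x ⟨y, -, rfl⟩
    exact y.2
  have hKcop : (Nat.card ↥(K₀.map N.subtype)).Coprime p := by
    rw [hKcard]
    exact hK₀cop
  -- the elements of `K` are the elements of `N` of order prime to `p`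
  have key : ∀ x ∈ N, x ^ Nat.card ↥(K₀.map N.subtype) = 1 → x ∈ K₀.map N.subtype := by
    intro x hx hpow
    have h1 : (⟨x, hx⟩ : ↥N) ∈ K₀ := by
      rw [← QuotientGroup.eq_one_iff (N := K₀)]
      have h4 : (⟨x, hx⟩ : ↥N) ^ Nat.card ↥(K₀.map N.subtype) = 1 :=
        Subtype.ext (by simpa using hpow)
      have h5 : ((⟨x, hx⟩ : ↥N) : ↥N ⧸ K₀) ^ Nat.card ↥(K₀.map N.subtype) = 1 := by
        rw [← QuotientGroup.mk_pow, h4]
        rfl
      have h6 : orderOf ((⟨x, hx⟩ : ↥N) : ↥N ⧸ K₀) ∣ Nat.card ↥(K₀.map N.subtype) :=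
        orderOf_dvd_of_pow_eq_one h5
      have h7 : orderOf ((⟨x, hx⟩ : ↥N) : ↥N ⧸ K₀) ∣ p ^ k := by
        rw [← hidx, Subgroup.index_eq_card]
        exact orderOf_dvd_natCard _
      have h8 : orderOf ((⟨x, hx⟩ : ↥N) : ↥N ⧸ K₀) = 1 :=
        Nat.eq_one_of_dvd_coprimes (Nat.Coprime.pow_right k hKcop) h6 h7
      exact orderOf_eq_one_iff.mp h8
    exact ⟨⟨x, hx⟩, h1, rfl⟩
  have hnorm : Subgroup.normalizer (N : Set G) ≤
      Subgroup.normalizer ((K₀.map N.subtype : Subgroup G) : Set G) := by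
    intro g hg
    have h1 : cj g (K₀.map N.subtype) ≤ K₀.map N.subtype := by
      intro y hy
      rw [mem_cj] at hy
      have hzN : g⁻¹ * y * g ∈ N := hKN hy
      have hyN : y ∈ N := by
        have h2 := (Subgroup.mem_normalizer_iff.mp hg (g⁻¹ * y * g)).mp hzN
        have e : g * (g⁻¹ * y * g) * g⁻¹ = y := by group
        rwa [e] at h2
      apply key y hyN
      have hz : (g⁻¹ * y * g) ^ Nat.card ↥(K₀.map N.subtype) = 1 := by
        have h3 : (⟨g⁻¹ * y * g, hy⟩ : ↥(K₀.map N.subtype)) ^ Nat.card ↥(K₀.map N.subtype) = 1 :=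
          pow_card_eq_one'
        have h4 := congrArg Subtype.val h3
        rw [Subgroup.coe_pow, Subgroup.coe_one] at h4
        exact h4
      have e : y ^ Nat.card ↥(K₀.map N.subtype) =
          g * (g⁻¹ * y * g) ^ Nat.card ↥(K₀.map N.subtype) * g⁻¹ := by
        rw [← conj_pow]
        congr 1
        group
      rw [e, hz]
      group
    have h2 : cj g (K₀.map N.subtype) = K₀.map N.subtype :=
      Subgroup.eq_of_le_of_card_ge h1 (by rw [card_cj])
    exact cj_eq_self_iff.mp h2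
  have hNK : N ≤ Subgroup.normalizer ((K₀.map N.subtype : Subgroup G) : Set G) :=
    le_normalizer_map_subtype N K₀
  refine ⟨K₀.map N.subtype, hKN, hKcop, hnorm, ?_⟩
  intro R hR
  have hRN : R ≤ N := hR.1
  have hRcard : Nat.card R = p ^ k := by
    rw [hk]
    exact hR.2
  have hRp : IsPGroup p R := isPGroup_of_mem_sylSet hR
  have hsup : K₀.map N.subtype ⊔ R = N := by
    apply Subgroup.eq_of_le_of_card_ge (sup_le hKN hRN)
    have h1 : Nat.card ↥(K₀.map N.subtype) * Nat.card R ∣ Nat.card ↥(K₀.map N.subtype ⊔ R) :=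
      Nat.Coprime.mul_dvd_of_dvd_of_dvd
        (by rw [hRcard]; exact Nat.Coprime.pow_right k hKcop)
        (Subgroup.card_dvd_of_le le_sup_left) (Subgroup.card_dvd_of_le le_sup_right)
    rw [hKcard, hRcard, hmul] at h1
    exact Nat.le_of_dvd Nat.card_pos h1
  refine ⟨hsup, ?_⟩
  exact Cfsg.Agent.Lib.Helper87.U95.comm_factor (X := K₀.map N.subtype) (H := N) (Y := R)
    (P := R ⊓ ⁅N, N⁆) hKcop hNK hRN (le_of_eq hsup.symm) (hRp.to_le inf_le_left) inf_le_left
    inf_le_right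

end Cfsg.Agent.Lib.Helper8.BG12
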