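import Cfsg.Agent.Lib.Helper32.BG10Basic

/-!
# B&G 10.5 (S1408), piece P5 of helper32's Section 10 project (helper8)

`p ∉ σ(M)`, `r_p(M) = 2`: `p` is not ideal and the elementary abelian subgroups of order `p²`
of `M` are maximal elementary abelian in `G` (modulo the Uniqueness Theorem `UT G`).
-/

set_option autoImplicit false

open Cfsg Cfsg.Agent.Lib.Helper32 Cfsg.Agent.Lib.Helper32.BG10

namespace Cfsg.Agent.Lib.Helper8.BG10

universe u

variable {G : Type u} [Group G] [Finite G]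

omit [Finite G] in
theorem p5_comm {p : ℕ} {A : Subgroup G} (h : IsElementaryAbelian p A) :
    ∀ a ∈ A, ∀ b ∈ A, a * b = b * a := fun a ha b hb =>
  congrArg Subtype.val (h.1.is_comm.comm ⟨a, ha⟩ ⟨b, hb⟩)

omit [Finite G] in
theorem p5_ea {p : ℕ} {A : Subgroup G} (hc : ∀ a ∈ A, ∀ b ∈ A, a * b = b * a)
    (hp : ∀ a ∈ A, a ^ p = 1) : IsElementaryAbelian p A :=
  ⟨⟨⟨fun a b => Subtype.ext (hc a.1 a.2 b.1 b.2)⟩⟩, hp⟩

omit [Finite G] in
theorem p5_pgroup {p : ℕ} {A : Subgroup G} (hp : ∀ a ∈ A, a ^ p = 1) : IsPGroup p A :=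
  fun g => ⟨1, by rw [pow_one]; exact Subtype.ext (hp g.1 g.2)⟩

/-- maximality of the elementary abelian subgroups of order `p²` of `M` -/
theorem p5_max (hG : IsMinSimpleOddOrder G) (hUT : UT G) {M : Subgroup G} (hM : IsCoatom M)
    {p : ℕ} [Fact p.Prime] (hr2 : PRankLE p 2 ↥M) {A : Subgroup G} (hAM : A ≤ M)
    (hA : IsElementaryAbelian p A) (hAc : Nat.card A = p ^ 2) {B : Subgroup G}
    (hB : IsElementaryAbelian p B) (hAB : A ≤ B) : B = A := by
  have hp := (Fact.out : p.Prime)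
  by_contra hne
  have hAcomm := p5_comm hA
  have hBcomm := p5_comm hB
  have hcardB : p ^ 2 < Nat.card B := by
    by_contra h
    push Not at h
    exact hne (Subgroup.eq_of_le_of_card_ge hAB (by rw [hAc]; exact h)).symm
  have hBC : B ≤ Subgroup.centralizer (A : Set G) := by
    intro b hb
    rw [Subgroup.mem_centralizer_iff]
    intro a ha
    exact hBcomm a (hAB ha) b hb
  have h3 : ¬ PRankLE p 2 ↥(Subgroup.centralizer (A : Set G)) :=
    not_prankLE_of_le hBC hBcomm hB.2 hcardB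
  have h2c := (not_rankLE_of_not_prankLE hp h3).2
  have hA1 : ¬ RankLE 1 ↥A := by
    intro h
    refine not_prankLE_of_le (le_refl A) hAcomm hA.2 ?_ (h p hp)
    rw [hAc]
    exact Nat.pow_lt_pow_right hp.one_lt (by norm_num)
  have hAtop : A ≠ ⊤ := minSimple_pgroup_ne_top hG (p5_pgroup hA.2)
  obtain ⟨M', hM', hAM', hU'⟩ := uniqIn_of_inUniqueMaximal (hUT A hAtop hA1 (Or.inr h2c))
  have hMM' : M = M' := hU' M hM hAM
  have hU : UniqIn M A := by rw [hMM']; exact hU'
  have hAbot : A ≠ ⊥ := by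
    intro h
    have h1 : Nat.card A = 1 := by rw [h]; exact Subgroup.card_bot
    rw [hAc] at h1
    have := Nat.one_lt_pow (n := 2) (by norm_num) hp.one_lt
    omega
  obtain ⟨a, ha1⟩ := (Subgroup.ne_bot_iff_exists_ne_one.mp hAbot)
  have hCtop : Subgroup.centralizer (A : Set G) ≠ ⊤ := by
    intro h
    apply minSimple_centralizer_singleton_ne_top hG (e := (a : G))
      (fun h1 => ha1 (Subtype.ext h1))
    rw [eq_top_iff, ← h]
    exact Subgroup.centralizer_le (Set.singleton_subset_iff.mpr a.2)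
  have hAC : A ≤ Subgroup.centralizer (A : Set G) := by
    intro b hb
    rw [Subgroup.mem_centralizer_iff]
    intro a ha
    exact hAcomm a ha b hb
  have hCM : Subgroup.centralizer (A : Set G) ≤ M := le_of_uniqIn hU hAC hCtop
  exact not_prankLE_of_le (hBC.trans hCM) hBcomm hB.2 hcardB hr2

/-- B&G 10.5 -/
theorem bg10_5 (hG : IsMinSimpleOddOrder G) (hUT : UT G) : H5 G := by
  intro M hM p _ _ hr2 hr1
  have hp := (Fact.out : p.Prime)
  refine ⟨?_, fun A hAM hA hAc B hB hAB => p5_max hG hUT hM hr2 hAM hA hAc hB hAB⟩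
  rintro ⟨-, -, hext⟩
  obtain ⟨E, hEM, hEc, hEp, hEcard⟩ := exists_of_not_prankLE hr1
  have hEcard2 : Nat.card E ≤ p ^ 2 := by
    by_contra h
    push Not at h
    exact not_prankLE_of_le hEM hEc hEp h hr2
  obtain ⟨k, hk⟩ := IsPGroup.iff_card.mp (p5_pgroup hEp)
  have hk2 : k = 2 := by
    rw [hk] at hEcard hEcard2
    have h1 : 1 < k := (Nat.pow_lt_pow_iff_right hp.one_lt).mp hEcard
    have h2 : k ≤ 2 := (Nat.pow_le_pow_iff_right hp.one_lt).mp hEcard2
    omega
  have hEea : IsElementaryAbelian p E := p5_ea hEc hEp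
  have hEc2 : Nat.card E = p ^ 2 := by rw [hk, hk2]
  obtain ⟨S, hES⟩ := (p5_pgroup hEp).exists_le_sylow
  obtain ⟨B, -, hBea, hEB⟩ := hext S E hES hEea hEc2
  exact hEB.ne' (p5_max hG hUT hM hr2 hEM hEea hEc2 hBea hEB.le)

end Cfsg.Agent.Lib.Helper8.BG10
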