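import Cfsg.Agent.Lib.Helper32.BG10Basic
import Cfsg.Agent.Lib.Helper8.BG10P5

/-!
# B&G 10.6 (S1409), piece P6 of helper32's Section 10 project (helper8)

`p ∉ σ(M)`, `|X| = p`, `N(X) ≤ M`: then `r_p(M) = 2`, `p` is not ideal and `X` lies in an
elementary abelian subgroup of order `p²` (modulo `UT G` and `H5 G`).
-/

set_option autoImplicit false

open Cfsg Cfsg.Agent.Lib.Helper32 Cfsg.Agent.Lib.Helper32.BG10

namespace Cfsg.Agent.Lib.Helper8.BG10

universe u

variable {G : Type u} [Group G] [Finite G]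

omit [Finite G] in
/-- the closure of two commuting elements of order dividing `p` is commutative of exponent `p` -/
theorem p6_pair {p : ℕ} {x y : G} (hxy : x * y = y * x) (hx : x ^ p = 1) (hy : y ^ p = 1) :
    (∀ a ∈ Subgroup.closure ({x, y} : Set G), ∀ b ∈ Subgroup.closure ({x, y} : Set G),
      a * b = b * a) ∧
    (∀ a ∈ Subgroup.closure ({x, y} : Set G), a ^ p = 1) := by
  have hc : ∀ a ∈ ({x, y} : Set G), ∀ b ∈ ({x, y} : Set G), a * b = b * a := by
    intro a ha b hb
    rcases ha with rfl | rfl <;> rcases hb with rfl | rfl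
    · rfl
    · exact hxy
    · exact hxy.symm
    · rfl
  have hcomm := Subgroup.isMulCommutative_closure hc
  have hcc : ∀ a ∈ Subgroup.closure ({x, y} : Set G),
      ∀ b ∈ Subgroup.closure ({x, y} : Set G), a * b = b * a :=
    fun a ha b hb => congrArg Subtype.val (hcomm.is_comm.comm ⟨a, ha⟩ ⟨b, hb⟩)
  refine ⟨hcc, fun a ha => ?_⟩
  induction ha using Subgroup.closure_induction with
  | mem a ha =>
    rcases ha with rfl | rfl
    · exact hx
    · exact hy
  | one => exact one_pow p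
  | mul a b ha hb iha ihb =>
    rw [(show Commute a b from hcc a ha b hb).mul_pow, iha, ihb, one_mul]
  | inv a ha iha => rw [inv_pow, iha, inv_one]

/-- a non-identity element of a subgroup of prime order generates it -/
theorem p6_zp {p : ℕ} [Fact p.Prime] {X : Subgroup G} (hX : Nat.card X = p) {x : G}
    (hx : x ∈ X) (hx1 : x ≠ 1) : Subgroup.zpowers x = X := by
  have hp := (Fact.out : p.Prime)
  have hle : Subgroup.zpowers x ≤ X := Subgroup.zpowers_le.mpr hx
  refine Subgroup.eq_of_le_of_card_ge hle ?_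
  rw [hX, Nat.card_zpowers]
  have hdvd : orderOf x ∣ p := by
    have h := orderOf_dvd_natCard (⟨x, hx⟩ : X)
    rw [hX, Subgroup.orderOf_mk] at h
    exact h
  rcases (Nat.dvd_prime hp).mp hdvd with h | h
  · exact absurd (orderOf_eq_one_iff.mp h) hx1
  · exact h.ge

/-- with `p`-rank at most one, an element of order dividing `p` commuting with an element `z`
of order `p` is a power of `z` -/
theorem p6_mem_zpowers {p : ℕ} [Fact p.Prime] {M : Subgroup G} (hr1 : PRankLE p 1 ↥M)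
    {y z : G} (hyM : y ∈ M) (hzM : z ∈ M) (hyz : y * z = z * y) (hy : y ^ p = 1)
    (hz : z ^ p = 1) (hz1 : z ≠ 1) : y ∈ Subgroup.zpowers z := by
  obtain ⟨hKc, hKp⟩ := p6_pair hyz hy hz
  have hKM : Subgroup.closure ({y, z} : Set G) ≤ M := by
    rw [Subgroup.closure_le]
    intro a ha
    rcases ha with rfl | rfl
    · exact hyM
    · exact hzM
  have hcard : Nat.card (Subgroup.closure ({y, z} : Set G)) ≤ p ^ 1 := by
    by_contra h
    push Not at h
    exact not_prankLE_of_le hKM hKc hKp h hr1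
  have hzK : Subgroup.zpowers z ≤ Subgroup.closure ({y, z} : Set G) :=
    Subgroup.zpowers_le.mpr (Subgroup.subset_closure (Set.mem_insert_of_mem _ rfl))
  have hzc : Nat.card (Subgroup.zpowers z) = p := by
    rw [Nat.card_zpowers]; exact orderOf_eq_prime hz hz1
  have heq : Subgroup.zpowers z = Subgroup.closure ({y, z} : Set G) :=
    Subgroup.eq_of_le_of_card_ge hzK (by rw [hzc]; rw [pow_one] at hcard; exact hcard)
  rw [heq]
  exact Subgroup.subset_closure (Set.mem_insert _ _)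

/-- B&G 10.6 -/
theorem bg10_6 (hG : IsMinSimpleOddOrder G) (hUT : UT G) (h5 : H5 G) : H6 G := by
  intro M hM p _ hpσ X hXc hNX
  have hp := (Fact.out : p.Prime)
  have hXM : X ≤ M := Subgroup.le_normalizer.trans hNX
  have hXp : IsPGroup p X := IsPGroup.of_card (n := 1) (by rw [hXc, pow_one])
  have hXbot : X ≠ ⊥ := by
    intro h
    rw [h, Subgroup.card_bot] at hXc
    exact hp.one_lt.ne hXc
  obtain ⟨Q, hQ, hXQ⟩ := exists_sylSet_ge hXp hXM
  have hQM : Q ≤ M := hQ.1
  have hQp := isPGroup_of_mem_sylSet hQ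
  have hQbot : Q ≠ ⊥ := fun h => hXbot (le_bot_iff.mp (h ▸ hXQ))
  have hNQ : ¬ Subgroup.normalizer (Q : Set G) ≤ M :=
    fun h => hpσ (mem_sigma_of_normalizer_le hQ hQbot h)
  obtain ⟨x, hxX, hx1⟩ : ∃ x ∈ X, x ≠ 1 := by
    obtain ⟨x, hx⟩ := Subgroup.ne_bot_iff_exists_ne_one.mp hXbot
    exact ⟨x.1, x.2, fun h => hx (Subtype.ext h)⟩
  have hXz : Subgroup.zpowers x = X := p6_zp hXc hxX hx1
  have hxp : x ^ p = 1 := by
    have h := pow_card_eq_one' (G := X) (x := ⟨x, hxX⟩)
    rw [hXc] at h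
    exact congrArg Subtype.val h
  have hxQ : x ∈ Q := hXQ hxX
  -- a central element of order `p` of `Q`
  obtain ⟨z, hzQ, hzc, hzp, hz1⟩ :
      ∃ z ∈ Q, (∀ q ∈ Q, q * z = z * q) ∧ z ^ p = 1 ∧ z ≠ 1 := by
    haveI : Nontrivial ↥Q := (Subgroup.nontrivial_iff_ne_bot Q).mpr hQbot
    haveI : Nontrivial ↥(Subgroup.center ↥Q) := hQp.center_nontrivial
    have hZp : IsPGroup p ↥(Subgroup.center ↥Q) := hQp.to_subgroup _
    obtain ⟨k, hk⟩ := IsPGroup.iff_card.mp hZp
    have hk0 : k ≠ 0 := by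
      rintro rfl
      rw [pow_zero] at hk
      have := Finite.one_lt_card (α := ↥(Subgroup.center ↥Q))
      omega
    have hdvd : p ∣ Nat.card ↥(Subgroup.center ↥Q) := hk ▸ dvd_pow_self p hk0
    obtain ⟨c, hc⟩ := exists_prime_orderOf_dvd_card' p hdvd
    refine ⟨((c : ↥Q) : G), (c : ↥Q).2, ?_, ?_, ?_⟩
    · intro q hq
      have h := Subgroup.mem_center_iff.mp c.2 ⟨q, hq⟩
      exact congrArg Subtype.val h
    · have h1 : c ^ p = 1 := by rw [← hc]; exact pow_orderOf_eq_one c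
      have h2 := congrArg (fun t : ↥(Subgroup.center ↥Q) => ((t : ↥Q) : G)) h1
      simpa using h2
    · intro h1
      have hc1 : c = 1 := Subtype.ext (Subtype.ext h1)
      rw [hc1, orderOf_one] at hc
      exact hp.one_lt.ne hc
  -- (1)
  have hr2 : PRankLE p 2 ↥M := by
    by_contra h
    exact hpσ (alpha_sub_sigma hG hUT hM ⟨hp, h⟩)
  -- (2)
  have hr1 : ¬ PRankLE p 1 ↥M := by
    intro hr1
    apply hNQ
    intro g hg
    apply hNX
    rw [← cj_eq_self_iff]
    have hgx : g * x * g⁻¹ ∈ Q := (Subgroup.mem_normalizer_iff.mp hg x).mp hxQ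
    have h1 : x ∈ Subgroup.zpowers z :=
      p6_mem_zpowers hr1 (hQM hxQ) (hQM hzQ) (hzc x hxQ) hxp hzp hz1
    have h2 : g * x * g⁻¹ ∈ Subgroup.zpowers z :=
      p6_mem_zpowers hr1 (hQM hgx) (hQM hzQ) (hzc _ hgx)
        (by rw [conj_pow, hxp, mul_one, mul_inv_cancel]) hzp hz1
    have hzc' : Nat.card (Subgroup.zpowers z) = p := by
      rw [Nat.card_zpowers]; exact orderOf_eq_prime hzp hz1
    have hXeq : X = Subgroup.zpowers z := by
      rw [← hXz]
      exact Subgroup.eq_of_le_of_card_ge (Subgroup.zpowers_le.mpr h1) (by rw [hzc', hXz, hXc])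
    have hle : cj g X ≤ X := by
      intro a ha
      rw [mem_cj, ← hXz] at ha
      obtain ⟨n, hn⟩ := Subgroup.mem_zpowers_iff.mp ha
      have ha' : a = (g * x * g⁻¹) ^ n := by
        rw [conj_zpow, hn]; group
      rw [ha', hXeq]
      exact Subgroup.zpow_mem _ h2 n
    exact Subgroup.eq_of_le_of_card_ge hle (by rw [card_cj])
  -- (3)
  have hni : ¬ IsIdealPrime p G := (h5 M hM p hpσ hr2 hr1).1
  refine ⟨⟨hr2, hr1⟩, hni, ?_⟩
  -- (4)
  obtain ⟨y, hyQ, hyp, hyX, hxy⟩ : ∃ y ∈ Q, y ^ p = 1 ∧ y ∉ X ∧ x * y = y * x := by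
    by_cases hzX : z ∈ X
    · have hXeq : Subgroup.zpowers z = X := p6_zp hXc hzX hz1
      have hr1Q : ¬ PRankLE p 1 ↥Q := fun h => hr1 (prankLE_of_sylSet hQ 1 h)
      obtain ⟨E, hEQ, hEc, hEp, hEcard⟩ := exists_of_not_prankLE hr1Q
      obtain ⟨e, heE, heX⟩ : ∃ e ∈ E, e ∉ X := by
        by_contra hcon
        push Not at hcon
        have hEX : E ≤ X := hcon
        have h := Subgroup.card_le_of_le hEX
        rw [hXc] at h
        rw [pow_one] at hEcard
        omega
      refine ⟨e, hEQ heE, hEp e heE, heX, ?_⟩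
      rw [← hXeq] at hxX
      obtain ⟨n, hn⟩ := Subgroup.mem_zpowers_iff.mp hxX
      rw [← hn]
      exact ((show Commute z e from (hzc e (hEQ heE)).symm).zpow_left n).eq
    · exact ⟨z, hzQ, hzp, hzX, hzc x hxQ⟩
  obtain ⟨hKc, hKp⟩ := p6_pair hxy hxp hyp
  have hXA : X ≤ Subgroup.closure ({x, y} : Set G) := by
    rw [← hXz]
    exact Subgroup.zpowers_le.mpr (Subgroup.subset_closure (Set.mem_insert _ _))
  have hyA : y ∈ Subgroup.closure ({x, y} : Set G) :=
    Subgroup.subset_closure (Set.mem_insert_of_mem _ rfl)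
  have hAM : Subgroup.closure ({x, y} : Set G) ≤ M := by
    rw [Subgroup.closure_le]
    intro a ha
    rcases ha with rfl | rfl
    · exact hQM hxQ
    · exact hQM hyQ
  have hA2 : Nat.card (Subgroup.closure ({x, y} : Set G)) ≤ p ^ 2 := by
    by_contra h
    push Not at h
    exact not_prankLE_of_le hAM hKc hKp h hr2
  have hA1 : p < Nat.card (Subgroup.closure ({x, y} : Set G)) := by
    by_contra h
    push Not at h
    have heq := Subgroup.eq_of_le_of_card_ge hXA (by rw [hXc]; exact h)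
    exact hyX (heq ▸ hyA)
  obtain ⟨k, hk⟩ := IsPGroup.iff_card.mp (p5_pgroup hKp)
  have hk2 : k = 2 := by
    rw [hk] at hA1 hA2
    have h1 : 1 < k := (Nat.pow_lt_pow_iff_right hp.one_lt).mp (by rwa [pow_one])
    have h2 : k ≤ 2 := (Nat.pow_le_pow_iff_right hp.one_lt).mp hA2
    omega
  exact ⟨Subgroup.closure ({x, y} : Set G), p5_ea hKc hKp, by rw [hk, hk2], hXA⟩

end Cfsg.Agent.Lib.Helper8.BG10
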