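import Mathlib

/-!
# Project QB (helper48, S2359): piece NTA (`nt_a`), helper8

`q ≡ 3 (mod 8)`, `r` a prime dividing `(q - 1) / 2`: then `r` is odd, `r ∤ q`, `r ∤ q ^ 3 + 1`
(as `q ^ 3 + 1 = (q - 1) (q ^ 2 + q + 1) + 2`), so the `r`-parts of `q - 1` and of
`q ^ 3 (q - 1) (q ^ 3 + 1)` agree.
-/

set_option autoImplicit false

namespace Cfsg.Agent.Lib.Helper48.QB

-- QB-NTA
theorem nt_a (q r : ℕ) (hq8 : q % 8 = 3) (hr : r.Prime) (hdvd : r ∣ (q - 1) / 2) :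
    (q - 1).factorization r = (q ^ 3 * (q - 1) * (q ^ 3 + 1)).factorization r ∧ r ≠ 2 := by
  have hr2 : r ≠ 2 := by
    rintro rfl
    omega
  have hq1 : r ∣ q - 1 := dvd_trans hdvd (Nat.div_dvd_of_dvd (by omega))
  have hq3 : 3 ≤ q := by omega
  have hnq : ¬ r ∣ q := by
    intro h
    have h1 : r ∣ q - (q - 1) := Nat.dvd_sub h hq1
    have h2 : q - (q - 1) = 1 := by omega
    rw [h2] at h1
    exact hr.one_lt.ne' (Nat.dvd_one.mp h1)
  have hnq3 : ¬ r ∣ q ^ 3 := fun h => hnq (hr.dvd_of_dvd_pow h)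
  have hnq31 : ¬ r ∣ q ^ 3 + 1 := by
    intro h
    have h1 : r ∣ (q - 1) * (q ^ 2 + q + 1) := Dvd.dvd.mul_right hq1 _
    have h2 : q ^ 3 + 1 = (q - 1) * (q ^ 2 + q + 1) + 2 := by
      obtain ⟨t, rfl⟩ : ∃ t, q = t + 1 := ⟨q - 1, by omega⟩
      simp only [Nat.add_sub_cancel]
      ring
    rw [h2] at h
    have h3 : r ∣ 2 := (Nat.dvd_add_right h1).mp h
    have h4 := (Nat.prime_dvd_prime_iff_eq hr Nat.prime_two).mp h3
    exact hr2 h4
  refine ⟨?_, hr2⟩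
  have h0 : q ^ 3 ≠ 0 := pow_ne_zero 3 (by omega)
  have h1 : q - 1 ≠ 0 := by omega
  have h2 : q ^ 3 + 1 ≠ 0 := by omega
  rw [Nat.factorization_mul (mul_ne_zero h0 h1) h2, Nat.factorization_mul h0 h1]
  simp only [Finsupp.coe_add, Pi.add_apply]
  rw [Nat.factorization_eq_zero_of_not_dvd hnq3, Nat.factorization_eq_zero_of_not_dvd hnq31]
  omega

end Cfsg.Agent.Lib.Helper48.QB
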