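import Mathlib

set_option autoImplicit false

namespace Cfsg.Agent.Lib.Helper8.OUAL3

/-- the homomorphism `ZMod n →+ Additive G` attached to `g` with `g ^ n = 1`. -/
noncomputable def zl {G : Type*} [Group G] (n : ℕ) (g : G) (hg : g ^ n = 1) :
    ZMod n →+ Additive G :=
  ZMod.lift n ⟨zmultiplesHom (Additive G) (Additive.ofMul g), by
    change ((n : ℤ) • Additive.ofMul g) = 0
    rw [natCast_zsmul, ← ofMul_pow, hg]; rfl⟩

theorem zl_coe {G : Type*} [Group G] (n : ℕ) (g : G) (hg : g ^ n = 1) (a : ℤ) :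
    (zl n g hg (a : ZMod n)).toMul = g ^ a := by
  unfold zl
  rw [ZMod.lift_coe]
  change (a • Additive.ofMul g).toMul = g ^ a
  rw [← ofMul_zpow]; rfl

theorem out_klein_cyclic {A R : Type*} [Group A] [Group R] (N : Subgroup A) [N.Normal]
    (ρ : A →* R) (K : Subgroup A) (hK : ρ.ker = K) (f : ℕ) (hf : 1 ≤ f)
    (hR : Nat.card R = f) (hN : N ≤ K) (hidx : N.relIndex K = 4)
    (hexp : ∀ k ∈ K, k * k ∈ N)
    (hcen : ∀ (β : A), ∀ k ∈ K, β * k * β⁻¹ * k⁻¹ ∈ N)
    (φ : A) (hφ : ∀ r : R, r ∈ Subgroup.zpowers (ρ φ)) (hφf : φ ^ f ∉ N) :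
    Nonempty (A ⧸ N ≃* Multiplicative (ZMod 2 × ZMod (2 * f))) := by
  classical
  haveI : Finite R := Nat.finite_of_card_ne_zero (by omega)
  have hord : orderOf (ρ φ) = f := by rw [orderOf_eq_card_of_forall_mem_zpowers hφ, hR]
  have hsurj : Function.Surjective ρ := by
    intro r
    obtain ⟨k, hk⟩ := hφ r
    exact ⟨φ ^ k, by rw [map_zpow]; exact hk⟩
  have hKidx : K.index = f := by
    rw [← hK, Subgroup.index_ker, ← hR]
    exact Nat.card_congr (Equiv.ofBijective (fun x : ρ.range => (x : R))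
      ⟨Subtype.val_injective, fun r => ⟨⟨r, hsurj r⟩, rfl⟩⟩)
  have hNidx : N.index = 4 * f := by
    rw [← Subgroup.relIndex_mul_index hN, hidx, hKidx]
  have hcardQ : Nat.card (A ⧸ N) = 4 * f := hNidx
  haveI : Finite (A ⧸ N) := Nat.finite_of_card_ne_zero (by omega)
  -- membership of powers of φ in K
  have hmemK : ∀ j : ℤ, φ ^ j ∈ K ↔ (f : ℤ) ∣ j := by
    intro j
    rw [← hK, MonoidHom.mem_ker, map_zpow, ← hord, orderOf_dvd_iff_zpow_eq_one]
  have hφfK : φ ^ f ∈ K := by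
    have := (hmemK (f : ℤ)).2 dvd_rfl
    rwa [zpow_natCast] at this
  set x : A ⧸ N := (φ : A ⧸ N) with hx
  set z : A ⧸ N := ((φ ^ f : A) : A ⧸ N) with hz
  have hz1 : z ≠ 1 := by
    rw [hz, Ne, QuotientGroup.eq_one_iff]; exact hφf
  have hsq : ∀ k ∈ K, ((k : A) : A ⧸ N) ^ 2 = 1 := by
    intro k hk
    rw [pow_two, ← QuotientGroup.mk_mul, QuotientGroup.eq_one_iff]
    exact hexp k hk
  have hcomm : ∀ (b : A) (k : A), k ∈ K → ((b : A) : A ⧸ N) * (k : A ⧸ N) = (k : A ⧸ N) * b := by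
    intro b k hk
    have h1 := hcen b k hk
    rw [← QuotientGroup.eq_one_iff] at h1
    simp only [QuotientGroup.mk_mul, QuotientGroup.mk_inv] at h1
    have h2 : ((b : A) : A ⧸ N) * (k : A ⧸ N) * (b : A ⧸ N)⁻¹ = k := by
      rw [mul_inv_eq_one] at h1; exact h1
    rw [mul_inv_eq_iff_eq_mul] at h2; exact h2
  have hz2 : z ^ 2 = 1 := hsq _ hφfK
  have hzx : z = x ^ f := by rw [hz, hx, QuotientGroup.mk_pow]
  have hx2f : x ^ (2 * f) = 1 := by rw [mul_comm, pow_mul, ← hzx, hz2]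
  -- a third element of K / N
  have hy : ∃ k ∈ K, ((k : A) : A ⧸ N) ≠ 1 ∧ ((k : A) : A ⧸ N) ≠ z := by
    by_contra hcon
    push_neg at hcon
    have hcard : Nat.card (↥K ⧸ N.subgroupOf K) = 4 := hidx
    haveI : Finite (↥K ⧸ N.subgroupOf K) := Nat.finite_of_card_ne_zero (by omega)
    let w : ↥K := ⟨φ ^ f, hφfK⟩
    have hs : Function.Surjective (fun b : Bool =>
        if b then (1 : ↥K ⧸ N.subgroupOf K) else ((w : ↥K) : ↥K ⧸ N.subgroupOf K)) := by
      intro q
      induction q using QuotientGroup.induction_on with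
      | H k =>
        by_cases h1 : ((k : A) : A ⧸ N) = 1
        · refine ⟨true, ?_⟩
          simp only [if_true]
          symm
          rw [QuotientGroup.eq_one_iff, Subgroup.mem_subgroupOf]
          exact (QuotientGroup.eq_one_iff _).1 h1
        · refine ⟨false, ?_⟩
          have h2 := hcon k k.2 h1
          simp only [Bool.false_eq_true, if_false]
          rw [QuotientGroup.eq, Subgroup.mem_subgroupOf]
          rw [hz, QuotientGroup.eq] at h2
          have h3 := N.inv_mem h2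
          rw [mul_inv_rev, inv_inv] at h3
          simpa using h3
    have := Nat.card_le_card_of_surjective _ hs
    rw [hcard] at this
    simp at this
  obtain ⟨k0, hk0, hy1, hyz⟩ := hy
  set y : A ⧸ N := (k0 : A ⧸ N) with hydef
  have hy2 : y ^ 2 = 1 := hsq k0 hk0
  -- the homomorphism
  have hcomm' : ∀ (m : ZMod 2) (n : ZMod (2 * f)),
      AddCommute (zl 2 y hy2 m) (zl (2 * f) x hx2f n) := by
    intro m n
    obtain ⟨a, rfl⟩ := ZMod.intCast_surjective m
    obtain ⟨b, rfl⟩ := ZMod.intCast_surjective n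
    have h1 : ∀ (u : A ⧸ N), u * y = y * u := by
      intro u
      induction u using QuotientGroup.induction_on with
      | H b => exact hcomm b k0 hk0
    have h2 : Commute (y ^ a) (x ^ b) := Commute.zpow_zpow ((h1 x).symm : Commute y x) a b
    have e1 := zl_coe 2 y hy2 a
    have e2 := zl_coe (2 * f) x hx2f b
    change Additive.ofMul ((zl 2 y hy2 (a : ZMod 2)).toMul * (zl (2 * f) x hx2f (b : ZMod (2 * f))).toMul)
      = Additive.ofMul ((zl (2 * f) x hx2f (b : ZMod (2 * f))).toMul * (zl 2 y hy2 (a : ZMod 2)).toMul)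
    rw [e1, e2, h2.eq]
  let Φ0 : ZMod 2 × ZMod (2 * f) →+ Additive (A ⧸ N) :=
    AddMonoidHom.noncommCoprod (zl 2 y hy2) (zl (2 * f) x hx2f) hcomm'
  have hΦ0 : ∀ (a b : ℤ), (Φ0 ((a : ZMod 2), (b : ZMod (2 * f)))).toMul = y ^ a * x ^ b := by
    intro a b
    change ((zl 2 y hy2 (a : ZMod 2)).toMul * (zl (2 * f) x hx2f (b : ZMod (2 * f))).toMul) = _
    rw [zl_coe, zl_coe]
  have hinj0 : Function.Injective Φ0 := by
    rw [injective_iff_map_eq_zero]
    rintro ⟨m, n⟩ hmn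
    obtain ⟨a, rfl⟩ := ZMod.intCast_surjective m
    obtain ⟨b, rfl⟩ := ZMod.intCast_surjective n
    have h1 : y ^ a * x ^ b = 1 := by
      rw [← hΦ0, hmn]; rfl
    -- x ^ b ∈ image of K
    have h2 : φ ^ b ∈ K := by
      have h3 : x ^ b = ((k0 ^ (-a) : A) : A ⧸ N) := by
        rw [QuotientGroup.mk_zpow, ← hydef, zpow_neg]
        exact (eq_inv_of_mul_eq_one_right h1)
      rw [hx, ← QuotientGroup.mk_zpow, QuotientGroup.eq] at h3
      have h4 : (φ ^ b)⁻¹ * k0 ^ (-a) ∈ K := hN h3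
      have h5 : k0 ^ (-a) ∈ K := K.zpow_mem hk0 _
      have h6 := K.mul_mem h5 (K.inv_mem h4)
      simpa using h6
    obtain ⟨c, rfl⟩ := (hmemK b).1 h2
    have h3 : x ^ ((f : ℤ) * c) = z ^ c := by
      rw [zpow_mul, zpow_natCast, ← hzx]
    rw [h3] at h1
    have hya : y ^ a = y ^ (a % 2) := by
      conv_lhs => rw [← Int.emod_add_mul_ediv a 2]
      rw [zpow_add, zpow_mul]
      have : y ^ (2 : ℤ) = 1 := by exact_mod_cast hy2
      rw [this, one_zpow, mul_one]
    have hzc : z ^ c = z ^ (c % 2) := by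
      conv_lhs => rw [← Int.emod_add_mul_ediv c 2]
      rw [zpow_add, zpow_mul]
      have : z ^ (2 : ℤ) = 1 := by exact_mod_cast hz2
      rw [this, one_zpow, mul_one]
    rw [hya, hzc] at h1
    have ha2 : a % 2 = 0 ∨ a % 2 = 1 := by omega
    have hc2 : c % 2 = 0 ∨ c % 2 = 1 := by omega
    have key : a % 2 = 0 ∧ c % 2 = 0 := by
      rcases ha2 with ha | ha <;> rcases hc2 with hc | hc
      · exact ⟨ha, hc⟩
      · exfalso; rw [ha, hc] at h1; simp at h1; exact hz1 h1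
      · exfalso; rw [ha, hc] at h1; simp at h1; exact hy1 h1
      · exfalso; rw [ha, hc] at h1; simp at h1
        apply hyz
        have hzi : z⁻¹ = z := by
          rw [inv_eq_iff_mul_eq_one, ← pow_two]; exact hz2
        rw [← hzi]; exact eq_inv_of_mul_eq_one_left h1
    rw [Prod.mk_eq_zero]
    refine ⟨?_, ?_⟩
    · rw [ZMod.intCast_zmod_eq_zero_iff_dvd]
      exact Int.dvd_of_emod_eq_zero key.1
    · rw [ZMod.intCast_zmod_eq_zero_iff_dvd]
      obtain ⟨d, hd⟩ := Int.dvd_of_emod_eq_zero key.2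
      exact ⟨d, by rw [hd]; push_cast; ring⟩
  have hf0 : NeZero (2 * f) := ⟨by omega⟩
  have hcard2 : Nat.card (ZMod 2 × ZMod (2 * f)) = 4 * f := by
    rw [Nat.card_prod, Nat.card_zmod, Nat.card_zmod]; ring
  have hbij : Function.Bijective Φ0 := by
    apply hinj0.bijective_of_nat_card_le
    rw [hcard2]
    exact le_of_eq hcardQ
  let e : ZMod 2 × ZMod (2 * f) ≃+ Additive (A ⧸ N) := AddEquiv.ofBijective Φ0 hbij
  exact ⟨(AddEquiv.toMultiplicativeLeft e).symm⟩

end Cfsg.Agent.Lib.Helper8.OUAL3
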