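import Mathlib
import Cfsg.Agent.Lib.Helper59.XS0

/-!
# S3054 / S3055 piece AUT (helper8 for helper59): `exists_shear`

A group of order `p²` and exponent `p` has, for `z ≠ 1` and `x ∉ ⟨z⟩`, an automorphism of
order `p` fixing `x` and mapping `z` to `z x`.
-/

set_option autoImplicit false

namespace Cfsg.Agent.Lib.Helper8.XSAUT

/-- the commutative version: the shear `a ↦ a * c a` for a square-zero endomorphism `c` with
`c z = x`, `c x = 1` -/
theorem exists_shear_mod {A : Type*} [CommGroup A] {p : ℕ} [Fact p.Prime]
    [Module (ZMod p) (Additive A)]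
    (hexp : ∀ a : A, a ^ p = 1) {z x : A}
    (hz : z ≠ 1) (hx : x ∉ Subgroup.zpowers z) :
    ∃ φ : MulAut A, orderOf φ = p ∧ φ x = x ∧ φ z = z * x := by
  have hV : ∀ v : Additive A, p • v = 0 := fun v =>
    (ofMul_pow p (Additive.toMul v)).symm.trans (by rw [hexp]; rfl)
  have hzx : (Additive.ofMul z : Additive A) ∉
      Submodule.span (ZMod p) ({Additive.ofMul x} : Set (Additive A)) := by
    intro hmem
    obtain ⟨a, ha⟩ := Submodule.mem_span_singleton.mp hmem
    have ha0 : a ≠ 0 := by
      rintro rfl
      rw [zero_smul] at ha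
      exact hz (Additive.ofMul.injective ha.symm)
    apply hx
    have h1 : Additive.ofMul x = a⁻¹ • Additive.ofMul z := by
      rw [← ha, smul_smul, inv_mul_cancel₀ ha0, one_smul]
    have h2 : a⁻¹ • Additive.ofMul z = (a⁻¹).val • Additive.ofMul z := by
      rw [← Nat.cast_smul_eq_nsmul (ZMod p), ZMod.natCast_zmod_val]
    rw [h2, ← ofMul_pow] at h1
    have h3 : x = z ^ (a⁻¹).val := Additive.ofMul.injective h1
    rw [h3]
    exact Subgroup.pow_mem _ (Subgroup.mem_zpowers z) _
  obtain ⟨lam, hlz, hlx⟩ := Submodule.exists_le_ker_of_notMem hzx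
  have hlx' : lam (Additive.ofMul x) = 0 := hlx (Submodule.mem_span_singleton_self _)
  let c : Additive A →ₗ[ZMod p] Additive A :=
    ((lam (Additive.ofMul z))⁻¹ • lam).smulRight (Additive.ofMul x)
  have hc : ∀ v, c v = ((lam (Additive.ofMul z))⁻¹ * lam v) • Additive.ofMul x := fun v => rfl
  have hcz : c (Additive.ofMul z) = Additive.ofMul x := by
    rw [hc, inv_mul_cancel₀ hlz, one_smul]
  have hcx : c (Additive.ofMul x) = 0 := by rw [hc, hlx', mul_zero, zero_smul]
  have hcc : ∀ v, c (c v) = 0 := fun v => by
    rw [hc v, map_smul, hcx, smul_zero]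
  let φ : MulAut A :=
    { toFun := fun a => Additive.toMul (Additive.ofMul a + c (Additive.ofMul a))
      invFun := fun a => Additive.toMul (Additive.ofMul a - c (Additive.ofMul a))
      left_inv := fun a => by
        show Additive.toMul (Additive.ofMul (Additive.toMul
          (Additive.ofMul a + c (Additive.ofMul a))) - c (Additive.ofMul (Additive.toMul
          (Additive.ofMul a + c (Additive.ofMul a))))) = a
        rw [ofMul_toMul, map_add c, hcc, add_zero, add_sub_cancel_right]; rfl
      right_inv := fun a => by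
        show Additive.toMul (Additive.ofMul (Additive.toMul
          (Additive.ofMul a - c (Additive.ofMul a))) + c (Additive.ofMul (Additive.toMul
          (Additive.ofMul a - c (Additive.ofMul a))))) = a
        rw [ofMul_toMul, map_sub c, hcc, sub_zero, sub_add_cancel]; rfl
      map_mul' := fun a b => by
        show Additive.toMul (Additive.ofMul (a * b) + c (Additive.ofMul (a * b))) =
          Additive.toMul (Additive.ofMul a + c (Additive.ofMul a)) *
            Additive.toMul (Additive.ofMul b + c (Additive.ofMul b))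
        rw [ofMul_mul, map_add c, ← toMul_add, add_add_add_comm] }
  have hφ : ∀ a, φ a = Additive.toMul (Additive.ofMul a + c (Additive.ofMul a)) := fun a => rfl
  have hpow : ∀ (k : ℕ) (a : A),
      (φ ^ k) a = Additive.toMul (Additive.ofMul a + k • c (Additive.ofMul a)) := by
    intro k
    induction k with
    | zero => intro a; rw [pow_zero, zero_smul, add_zero]; rfl
    | succ k ih =>
      intro a
      rw [pow_succ, MulAut.mul_apply, ih (φ a), hφ a, ofMul_toMul, map_add c, hcc, add_zero,
        succ_nsmul', add_assoc]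
  refine ⟨φ, ?_, ?_, ?_⟩
  · refine orderOf_eq_prime ?_ ?_
    · ext a
      rw [hpow, hV, add_zero]; rfl
    · intro h1
      have h2 : φ z = z := by rw [h1]; rfl
      rw [hφ, hcz] at h2
      have h3 : z * x = z := h2
      apply hx
      rw [mul_eq_left.mp h3]
      exact Subgroup.one_mem _
  · rw [hφ, hcx, add_zero]; rfl
  · rw [hφ, hcz]; rfl

/-- the commutative version -/
theorem exists_shear_comm {A : Type*} [CommGroup A] {p : ℕ} [Fact p.Prime]
    (hexp : ∀ a : A, a ^ p = 1) {z x : A}
    (hz : z ≠ 1) (hx : x ∉ Subgroup.zpowers z) :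
    ∃ φ : MulAut A, orderOf φ = p ∧ φ x = x ∧ φ z = z * x :=
  @exists_shear_mod A _ p _
    (AddCommGroup.zmodModule (fun v : Additive A =>
      (ofMul_pow p (Additive.toMul v)).symm.trans (by rw [hexp]; rfl))) hexp z x hz hx

end Cfsg.Agent.Lib.Helper8.XSAUT

namespace Cfsg.Agent.Lib.Helper59.XS

/-- Piece AUT : a shear automorphism of order `p` of an elementary abelian group of
order `p²` -/
theorem exists_shear {A : Type*} [Group A] [Finite A] {p : ℕ} [Fact p.Prime]
    (hcard : Nat.card A = p ^ 2) (hexp : ∀ a : A, a ^ p = 1) {z x : A}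
    (hz : z ≠ 1) (hx : x ∉ Subgroup.zpowers z) :
    ∃ φ : MulAut A, orderOf φ = p ∧ φ x = x ∧ φ z = z * x := by
  letI : CommGroup A :=
    { ‹Group A› with mul_comm := IsPGroup.commutative_of_card_eq_prime_sq hcard }
  exact Cfsg.Agent.Lib.Helper8.XSAUT.exists_shear_comm hexp hz hx

end Cfsg.Agent.Lib.Helper59.XS
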