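import Mathlib
import Cfsg.Agent.Lib.Helper6.PM3Defs

/-!
# S2930, piece PE2 (helper8, for helper6)

An even permutation (a product of four transpositions) stabilising a partition into 3-sets,
swapping two given blocks and moving only points of three given blocks.
-/

set_option autoImplicit false

namespace Cfsg.Agent.Lib.Helper6.PM3

open scoped Pointwise
open MulAction

/-- the model permutation of `Fin 3 × Fin 3`: swap the rows `0` and `1`, and swap two points of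
the row `2` -/
def pe2_model : Equiv.Perm (Fin 3 × Fin 3) :=
  Equiv.swap (0, 0) (1, 0) * Equiv.swap (0, 1) (1, 1) * Equiv.swap (0, 2) (1, 2) *
    Equiv.swap (2, 0) (2, 1)

theorem pe2_model_sign : Equiv.Perm.sign pe2_model = 1 := by
  unfold pe2_model
  rw [Equiv.Perm.sign_mul, Equiv.Perm.sign_mul, Equiv.Perm.sign_mul,
    Equiv.Perm.sign_swap (by decide), Equiv.Perm.sign_swap (by decide),
    Equiv.Perm.sign_swap (by decide), Equiv.Perm.sign_swap (by decide)]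
  rfl

theorem pe2_model_zero : ∀ j : Fin 3, pe2_model (0, j) = (1, j) := by decide

theorem pe2_model_one : ∀ j : Fin 3, pe2_model (1, j) = (0, j) := by decide

theorem pe2_model_two : ∀ j : Fin 3, (pe2_model (2, j)).1 = 2 := by decide

/-- three pairwise disjoint 3-sets: an even permutation swapping the first two, preserving the
third and fixing every other point -/
theorem pe2_aux (n : ℕ) (B : Fin 3 → Set (Fin n))
    (hdisj : ∀ i i' : Fin 3, i ≠ i' → Disjoint (B i) (B i'))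
    (hcard : ∀ i : Fin 3, (B i).ncard = 3) :
    ∃ σ : Equiv.Perm (Fin n), Equiv.Perm.sign σ = 1 ∧ σ '' (B 0) = B 1 ∧ σ '' (B 1) = B 0 ∧
      σ '' (B 2) = B 2 ∧ ∀ x : Fin n, (∀ i, x ∉ B i) → σ x = x := by
  classical
  have hc : ∀ i : Fin 3, Nat.card ↥(B i) = 3 := fun i => by
    rw [Nat.card_coe_set_eq]
    exact hcard i
  obtain ⟨f0, hf0mem, hf0surj, hf0inj⟩ : ∃ f0 : Fin 3 × Fin 3 → Fin n,
      (∀ i j, f0 (i, j) ∈ B i) ∧ (∀ i, ∀ x ∈ B i, ∃ j, f0 (i, j) = x) ∧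
      (∀ i j j', f0 (i, j) = f0 (i, j') → j = j') := by
    refine ⟨fun q => (((Finite.equivFinOfCardEq (hc q.1)).symm q.2 : ↥(B q.1)) : Fin n),
      fun i j => ((Finite.equivFinOfCardEq (hc i)).symm j).2, fun i x hx => ?_, fun i j j' h => ?_⟩
    · refine ⟨Finite.equivFinOfCardEq (hc i) ⟨x, hx⟩, ?_⟩
      show (((Finite.equivFinOfCardEq (hc i)).symm (Finite.equivFinOfCardEq (hc i) ⟨x, hx⟩) :
        ↥(B i)) : Fin n) = x
      rw [Equiv.symm_apply_apply]
    · exact (Finite.equivFinOfCardEq (hc i)).symm.injective (Subtype.ext h)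
  have hinj : Function.Injective f0 := by
    rintro ⟨i, j⟩ ⟨i', j'⟩ h
    have hi : i = i' := by
      by_contra hne
      exact Set.disjoint_left.1 (hdisj i i' hne) (hf0mem i j) (h ▸ hf0mem i' j')
    subst hi
    rw [hf0inj i j j' h]
  obtain ⟨f, hf⟩ : ∃ f : Fin 3 × Fin 3 ↪ Fin n, ∀ q, f q = f0 q := ⟨⟨f0, hinj⟩, fun _ => rfl⟩
  have hσ : ∀ q, (pe2_model.viaFintypeEmbedding f) (f q) = f (pe2_model q) :=
    fun q => Equiv.Perm.viaFintypeEmbedding_apply_image _ _ q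
  have hfix : ∀ x : Fin n, (∀ i, x ∉ B i) → (pe2_model.viaFintypeEmbedding f) x = x := by
    intro x hx
    apply Equiv.Perm.viaFintypeEmbedding_apply_notMem_range
    rintro ⟨⟨i, j⟩, rfl⟩
    apply hx i
    rw [hf]
    exact hf0mem i j
  refine ⟨pe2_model.viaFintypeEmbedding f, ?_, ?_, ?_, ?_, hfix⟩
  · rw [Equiv.Perm.viaFintypeEmbedding_sign, pe2_model_sign]
  · ext y
    constructor
    · rintro ⟨x, hx, rfl⟩
      obtain ⟨j, rfl⟩ := hf0surj 0 x hx
      rw [← hf, hσ, pe2_model_zero, hf]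
      exact hf0mem 1 j
    · intro hy
      obtain ⟨j, rfl⟩ := hf0surj 1 y hy
      refine ⟨f0 (0, j), hf0mem 0 j, ?_⟩
      rw [← hf, hσ, pe2_model_zero, hf]
  · ext y
    constructor
    · rintro ⟨x, hx, rfl⟩
      obtain ⟨j, rfl⟩ := hf0surj 1 x hx
      rw [← hf, hσ, pe2_model_one, hf]
      exact hf0mem 0 j
    · intro hy
      obtain ⟨j, rfl⟩ := hf0surj 0 y hy
      refine ⟨f0 (1, j), hf0mem 1 j, ?_⟩
      rw [← hf, hσ, pe2_model_one, hf]
  · apply Set.eq_of_subset_of_ncard_le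
    · rintro _ ⟨x, hx, rfl⟩
      obtain ⟨j, rfl⟩ := hf0surj 2 x hx
      rw [← hf, hσ, hf]
      have h2 := pe2_model_two j
      have e : pe2_model (2, j) = (2, (pe2_model (2, j)).2) := Prod.ext h2 rfl
      rw [e]
      exact hf0mem 2 _
    · rw [Set.ncard_image_of_injective _ (Equiv.injective _)]
    · exact Set.toFinite _

theorem exists_swap_blocks (n : ℕ) (𝔅 : Set (Set (Fin n))) (hB : IsPartition 𝔅)
    (hB3 : ∀ B ∈ 𝔅, B.ncard = 3) (b₁ b₂ b₃ : Set (Fin n)) (h1 : b₁ ∈ 𝔅) (h2 : b₂ ∈ 𝔅)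
    (h3 : b₃ ∈ 𝔅) (h12 : b₁ ≠ b₂) (h13 : b₁ ≠ b₃) (h23 : b₂ ≠ b₃) :
    ∃ g ∈ stabilizer (alternatingGroup (Fin n)) 𝔅, g • b₁ = b₂ ∧
      ∀ x : Fin n, x ∉ b₁ → x ∉ b₂ → x ∉ b₃ → g • x = x := by
  have hdisj : ∀ i i' : Fin 3, i ≠ i' →
      Disjoint ((![b₁, b₂, b₃] : Fin 3 → Set (Fin n)) i) ((![b₁, b₂, b₃] : Fin 3 → Set (Fin n)) i') := by
    intro i i' hne
    fin_cases i <;> fin_cases i' <;>
      first
      | exact absurd rfl hne
      | exact hB.1 b₁ h1 b₂ h2 h12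
      | exact hB.1 b₁ h1 b₃ h3 h13
      | exact hB.1 b₂ h2 b₁ h1 (Ne.symm h12)
      | exact hB.1 b₂ h2 b₃ h3 h23
      | exact hB.1 b₃ h3 b₁ h1 (Ne.symm h13)
      | exact hB.1 b₃ h3 b₂ h2 (Ne.symm h23)
  have hcard : ∀ i : Fin 3, ((![b₁, b₂, b₃] : Fin 3 → Set (Fin n)) i).ncard = 3 := by
    intro i
    fin_cases i
    · exact hB3 b₁ h1
    · exact hB3 b₂ h2
    · exact hB3 b₃ h3
  obtain ⟨σ, hsign, h01, h10, h22, hfix⟩ := pe2_aux n ![b₁, b₂, b₃] hdisj hcard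
  have h01' : σ '' b₁ = b₂ := h01
  have h10' : σ '' b₂ = b₁ := h10
  have h22' : σ '' b₃ = b₃ := h22
  have hfix' : ∀ x : Fin n, x ∉ b₁ → x ∉ b₂ → x ∉ b₃ → σ x = x := by
    intro x hx1 hx2 hx3
    apply hfix
    intro i
    fin_cases i
    · exact hx1
    · exact hx2
    · exact hx3
  have hsmul : ∀ (g : alternatingGroup (Fin n)) (s : Set (Fin n)),
      g • s = (g : Equiv.Perm (Fin n)) '' s := fun g s => rfl
  refine ⟨⟨σ, Equiv.Perm.mem_alternatingGroup.2 hsign⟩, ?_, ?_, ?_⟩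
  · rw [mem_stabilizer_set_iff_smul_set_subset (Set.toFinite 𝔅)]
    rintro _ ⟨Bk, hBk, rfl⟩
    show (⟨σ, Equiv.Perm.mem_alternatingGroup.2 hsign⟩ : alternatingGroup (Fin n)) • Bk ∈ 𝔅
    rw [hsmul]
    show σ '' Bk ∈ 𝔅
    by_cases e1 : Bk = b₁
    · rw [e1, h01']
      exact h2
    by_cases e2 : Bk = b₂
    · rw [e2, h10']
      exact h1
    by_cases e3 : Bk = b₃
    · rw [e3, h22']
      exact h3
    have hid : σ '' Bk = Bk := by
      have hcongr : σ '' Bk = id '' Bk := by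
        apply Set.image_congr
        intro x hx
        exact hfix' x (Set.disjoint_left.1 (hB.1 Bk hBk b₁ h1 e1) hx)
          (Set.disjoint_left.1 (hB.1 Bk hBk b₂ h2 e2) hx)
          (Set.disjoint_left.1 (hB.1 Bk hBk b₃ h3 e3) hx)
      rw [hcongr, Set.image_id]
    rw [hid]
    exact hBk
  · rw [hsmul]
    exact h01'
  · intro x hx1 hx2 hx3
    exact hfix' x hx1 hx2 hx3

end Cfsg.Agent.Lib.Helper6.PM3
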