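import Mathlib
import Cfsg.Agent.Lib.Helper70.D11Defs
import Cfsg.Agent.S0732

set_option autoImplicit false

/-!
# S0679, piece PSL (helper8, for helper70)

A subgroup `G` of `Perm (Fin 11)` of order 660 containing `c0` whose normaliser of `⟨c0⟩` lies in the
group `⟨c0, m3⟩` of order 55 is isomorphic to `PSL(2,11)`: it acts faithfully and transitively on its
12 Sylow 11-subgroups, and the landed S0732 applies with `p = 11`, `d = 5`.
-/

namespace Cfsg.Agent.Lib.Helper8.D11

open Equiv Cfsg.Agent.Lib.Helper70.D11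

/-- In a group, a nontrivial element of a cyclic subgroup of prime order generates it. -/
theorem mem_zpowers_of_prime_order {H : Type*} [Group H] {c y : H} {p : ℕ} (hp : p.Prime)
    (hc : orderOf c = p) (hy : y ∈ Subgroup.zpowers c) (hy1 : y ≠ 1) : c ∈ Subgroup.zpowers y := by
  have hle : Subgroup.zpowers y ≤ Subgroup.zpowers c := Subgroup.zpowers_le.2 hy
  haveI : Finite (Subgroup.zpowers c) :=
    Nat.finite_of_card_ne_zero (by rw [Nat.card_zpowers, hc]; exact hp.ne_zero)
  have hcard : Nat.card (Subgroup.zpowers y) ∣ Nat.card (Subgroup.zpowers c) :=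
    Subgroup.card_dvd_of_le hle
  rw [Nat.card_zpowers, Nat.card_zpowers, hc] at hcard
  rcases (Nat.dvd_prime hp).1 hcard with h1 | h11
  · exact absurd (orderOf_eq_one_iff.1 h1) hy1
  · have h2 : Subgroup.zpowers y = Subgroup.zpowers c :=
      Subgroup.eq_of_le_of_card_ge hle (by rw [Nat.card_zpowers, Nat.card_zpowers, h11, hc])
    rw [h2]
    exact Subgroup.mem_zpowers c

theorem c0_pow_zero : ∀ y : Fin 11, (c0 ^ (y : ℕ)) 0 = y := by decide

theorem c0_pow_eleven : c0 ^ 11 = 1 := by
  apply Equiv.ext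
  decide

theorem c0_ne_one : c0 ≠ 1 := by
  intro h
  have := DFunLike.congr_fun h 0
  revert this
  decide

/-- A permutation commuting with `c0` is a power of `c0`. -/
theorem mem_zpowers_c0_of_comm (k : P11) (h : k * c0 = c0 * k) : k ∈ Subgroup.zpowers c0 := by
  have hpow : ∀ n : ℕ, k * c0 ^ n = c0 ^ n * k := fun n => (Commute.pow_right h n)
  have hk : c0 ^ ((k 0 : Fin 11) : ℕ) = k := by
    apply Equiv.ext
    intro x
    have h1 : (c0 ^ ((k 0 : Fin 11) : ℕ)) ((c0 ^ (x : ℕ)) 0) =
        (c0 ^ (x : ℕ)) ((c0 ^ ((k 0 : Fin 11) : ℕ)) 0) := by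
      have := (Commute.pow_pow (Commute.refl c0) ((k 0 : Fin 11) : ℕ) (x : ℕ))
      exact DFunLike.congr_fun this 0
    have h2 : k ((c0 ^ (x : ℕ)) 0) = (c0 ^ (x : ℕ)) (k 0) := DFunLike.congr_fun (hpow (x : ℕ)) 0
    rw [c0_pow_zero x] at h1 h2
    rw [h1, c0_pow_zero (k 0), h2]
  rw [← hk]
  exact Subgroup.pow_mem _ (Subgroup.mem_zpowers c0) _

theorem psl_of_card (G : Subgroup P11) (hc : c0 ∈ G) (hm : m3 ∈ G)
    (hN : ∀ g ∈ G, g * c0 * g⁻¹ ∈ Subgroup.zpowers c0 → g ∈ Subgroup.closure ({c0, m3} : Set P11))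
    (hF : Nat.card (Subgroup.closure ({c0, m3} : Set P11)) = 55)
    (hcard : Nat.card G = 660) :
    Nonempty (G ≃* Matrix.ProjectiveSpecialLinearGroup (Fin 2) (ZMod 11)) := by
  classical
  haveI : Fact (Nat.Prime 11) := ⟨by norm_num⟩
  have hp11 : Nat.Prime 11 := by norm_num
  -- the element `c` of `G`
  obtain ⟨c, hcdef⟩ : ∃ c : G, (c : P11) = c0 := ⟨⟨c0, hc⟩, rfl⟩
  have hc11 : orderOf c = 11 := by
    apply orderOf_eq_prime
    · apply Subtype.ext
      rw [Subgroup.coe_pow, hcdef, c0_pow_eleven]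
      rfl
    · intro h
      apply c0_ne_one
      rw [← hcdef, h]
      rfl
  -- transfer of membership in cyclic groups
  have hval : ∀ k : G, (k : P11) ∈ Subgroup.zpowers c0 ↔ k ∈ Subgroup.zpowers c := by
    intro k
    constructor
    · rintro ⟨i, hi⟩
      refine ⟨i, ?_⟩
      apply Subtype.ext
      rw [Subgroup.coe_zpow, hcdef]
      exact hi
    · rintro ⟨i, hi⟩
      refine ⟨i, ?_⟩
      have := congrArg (Subtype.val) hi
      rw [← this, ← hcdef]
      exact (Subgroup.coe_zpow _ _ _).symm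
  -- the Sylow subgroup
  have hPg : IsPGroup 11 (Subgroup.zpowers c) :=
    IsPGroup.of_card (n := 1) (by rw [Nat.card_zpowers, hc11]; rfl)
  obtain ⟨P, hP⟩ := hPg.exists_le_sylow
  have hPc : (P : Subgroup G) = Subgroup.zpowers c := by
    obtain ⟨n, hn⟩ := IsPGroup.iff_card.1 P.isPGroup'
    have hdvd : Nat.card (P : Subgroup G) ∣ 660 := hcard ▸ Subgroup.card_subgroup_dvd_card _
    have hge : Nat.card (Subgroup.zpowers c) ≤ Nat.card (P : Subgroup G) :=
      Nat.le_of_dvd Nat.card_pos (Subgroup.card_dvd_of_le hP)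
    rw [Nat.card_zpowers, hc11] at hge
    have hn1 : n = 1 := by
      rcases Nat.lt_or_ge n 2 with h | h
      · interval_cases n
        · rw [hn] at hge; norm_num at hge
        · rfl
      · exfalso
        have h121 : 11 ^ 2 ∣ 11 ^ n := Nat.pow_dvd_pow 11 h
        rw [← hn] at h121
        have := h121.trans hdvd
        norm_num at this
    refine (Subgroup.eq_of_le_of_card_ge hP ?_).symm
    rw [hn, hn1, Nat.card_zpowers, hc11]
    norm_num
  have hcardP : Nat.card (P : Subgroup G) = 11 := by rw [hPc, Nat.card_zpowers, hc11]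
  -- the normaliser
  have hPmem : ∀ x : G, x ∈ (P : Set G) ↔ x ∈ Subgroup.zpowers c := by
    intro x
    rw [← hPc]
    rfl
  have hconj : ∀ g : G, g ∈ Subgroup.normalizer (P : Set G) → g * c * g⁻¹ ∈ Subgroup.zpowers c := by
    intro g hg
    exact (hPmem _).1 ((Subgroup.mem_set_normalizer_iff.1 hg c).1
      ((hPmem c).2 (Subgroup.mem_zpowers c)))
  have hnorm : ∀ g : G, g ∈ Subgroup.normalizer (P : Set G) →
      (g : P11) ∈ Subgroup.closure ({c0, m3} : Set P11) := by
    intro g hg
    apply hN _ g.2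
    have h2 := (hval _).2 (hconj g hg)
    have e : ((g * c * g⁻¹ : G) : P11) = (g : P11) * c0 * (g : P11)⁻¹ := by
      rw [← hcdef]
      rfl
    rw [← e]
    exact h2
  have hNdvd : Nat.card (Subgroup.normalizer (P : Set G)) ∣ 55 := by
    have hle : (Subgroup.normalizer (P : Set G)).map G.subtype ≤
        Subgroup.closure ({c0, m3} : Set P11) := by
      rintro _ ⟨g, hg, rfl⟩
      exact hnorm g hg
    have := Subgroup.card_dvd_of_le hle
    rwa [Subgroup.card_map_of_injective G.subtype_injective, hF] at this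
  have hN11 : 11 ∣ Nat.card (Subgroup.normalizer (P : Set G)) := by
    have h := Subgroup.card_dvd_of_le (Subgroup.le_normalizer (H := (P : Subgroup G)))
    rw [hcardP] at h
    exact h
  have hsyl : Nat.card (Sylow 11 G) = 12 := by
    have h1 := Sylow.card_eq_index_normalizer P
    have h2 : Nat.card (Sylow 11 G) % 11 = 1 := card_sylow_modEq_one 11 G
    have h3 := Subgroup.index_mul_card (Subgroup.normalizer (P : Set G))
    rw [hcard, ← h1] at h3
    generalize Nat.card (Subgroup.normalizer (P : Set G)) = a at hNdvd hN11 h3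
    generalize Nat.card (Sylow 11 G) = n at h2 h3 ⊢
    have ha : a ≤ 55 := Nat.le_of_dvd (by norm_num) hNdvd
    have ha' : a = 11 ∨ a = 55 := by
      interval_cases a <;> omega
    rcases ha' with rfl | rfl <;> omega
  -- the action on the Sylow subgroups
  let φ : G →* Perm (Sylow 11 G) := MulAction.toPermHom G (Sylow 11 G)
  have hφ : ∀ (g : G) (Q : Sylow 11 G), φ g Q = g • Q := fun _ _ => rfl
  have hker : ∀ k : G, k ∈ φ.ker → ∀ Q : Sylow 11 G, k • Q = Q := by
    intro k hk Q
    rw [← hφ, MonoidHom.mem_ker.1 hk]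
    rfl
  -- `c` is not in the kernel
  have hcK : c ∉ φ.ker := by
    intro hck
    have hall : ∀ Q : Sylow 11 G, Q = P := by
      intro Q
      have hfix : Q ∈ MulAction.fixedPoints (Subgroup.zpowers c) (Sylow 11 G) := by
        rw [MulAction.mem_fixedPoints]
        intro h
        have hh : (h : G) ∈ MulAction.stabilizer G Q :=
          Subgroup.zpowers_le.2 (MulAction.mem_stabilizer_iff.2 (hker c hck Q)) h.2
        exact MulAction.mem_stabilizer_iff.1 hh
      have hle : (P : Subgroup G) ≤ Q := by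
        rw [hPc]
        exact hPg.sylow_mem_fixedPoints_iff.1 hfix
      exact Sylow.ext (P.is_maximal' Q.isPGroup' hle)
    haveI : Subsingleton (Sylow 11 G) := ⟨fun a b => (hall a).trans (hall b).symm⟩
    have := Nat.card_of_subsingleton P
    omega
  -- the kernel is trivial
  have hinj : Function.Injective φ := by
    rw [injective_iff_map_eq_one]
    intro k hk1
    have hk : k ∈ φ.ker := MonoidHom.mem_ker.2 hk1
    have hkN : k ∈ Subgroup.normalizer (P : Set G) :=
      Sylow.smul_eq_iff_mem_normalizer.1 (hker k hk P)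
    have hy1 : k * c * k⁻¹ * c⁻¹ ∈ Subgroup.zpowers c :=
      Subgroup.mul_mem _ (hconj k hkN) (Subgroup.inv_mem _ (Subgroup.mem_zpowers c))
    have hy2 : k * c * k⁻¹ * c⁻¹ ∈ φ.ker := by
      have h1 : c * k⁻¹ * c⁻¹ ∈ φ.ker := (MonoidHom.normal_ker φ).conj_mem _ (inv_mem hk) c
      have h2 := mul_mem hk h1
      have e : k * c * k⁻¹ * c⁻¹ = k * (c * k⁻¹ * c⁻¹) := by group
      rw [e]
      exact h2
    have hy : k * c * k⁻¹ * c⁻¹ = 1 := by
      by_contra hne
      exact hcK (Subgroup.zpowers_le.2 hy2 (mem_zpowers_of_prime_order hp11 hc11 hy1 hne))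
    have hcomm : k * c = c * k := by
      have e : k * c = (k * c * k⁻¹ * c⁻¹) * (c * k) := by group
      rw [e, hy, one_mul]
    have hcomm0 : (k : P11) * c0 = c0 * (k : P11) := by
      have := congrArg Subtype.val hcomm
      rw [← hcdef]
      exact this
    have hkz : k ∈ Subgroup.zpowers c := (hval k).1 (mem_zpowers_c0_of_comm _ hcomm0)
    by_contra hne
    exact hcK (Subgroup.zpowers_le.2 hk (mem_zpowers_of_prime_order hp11 hc11 hkz hne))
  -- the image
  have hcardR : Nat.card φ.range = (11 + 1) * 11 * 5 := by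
    rw [← Nat.card_congr (MonoidHom.ofInjective hinj).toEquiv, hcard]
  haveI : Finite (Sylow 11 G) := Nat.finite_of_card_ne_zero (by rw [hsyl]; norm_num)
  haveI : MulAction.IsPretransitive φ.range (Sylow 11 G) := by
    refine ⟨fun Q1 Q2 => ?_⟩
    obtain ⟨g, hg⟩ := MulAction.exists_smul_eq G Q1 Q2
    exact ⟨⟨φ g, g, rfl⟩, hg⟩
  letI : Fintype (Sylow 11 G) := Fintype.ofFinite _
  have hα : Fintype.card (Sylow 11 G) = 11 + 1 := by
    rw [← Nat.card_eq_fintype_card, hsyl]
  rcases Cfsg.Agent.S0732.result hp11 hα φ.range hcardR (by norm_num) with h | h | h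
  · exfalso
    omega
  · obtain ⟨-, ⟨e⟩⟩ := h
    exact ⟨(MonoidHom.ofInjective hinj).trans e⟩
  · exfalso
    obtain ⟨q, -, hq, -⟩ := h
    rcases Nat.lt_or_ge q 4 with h4 | h4
    · interval_cases q <;> omega
    · have := Nat.pow_le_pow_right (by norm_num : 0 < 2) h4
      omega

end Cfsg.Agent.Lib.Helper8.D11
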