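import Mathlib
import Cfsg.Prelude.Def_LocalEven

/-!
# S2930, piece PA (helper8, for helper6)

A `p`-minimal finite group has no proper normal subgroup containing a Sylow `p`-subgroup
(Frattini argument and the unique maximal overgroup of the Sylow subgroup).
-/

set_option autoImplicit false

namespace Cfsg.Agent.Lib.Helper6.PM3

open scoped Pointwise
open MulAction

theorem eq_top_of_sylow_le {X : Type*} [Group X] [Finite X] {p : ℕ} [Fact p.Prime]
    (hX : Cfsg.IsPMinimal p X) (L : Subgroup X) [L.Normal] (S : Sylow p X)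
    (hS : (S : Subgroup X) ≤ L) : L = ⊤ := by
  by_contra hL
  obtain ⟨hSn, hSu⟩ := hX S
  rcases eq_top_or_exists_le_coatom L with h | ⟨M₁, hM₁, hLM₁⟩
  · exact hL h
  have hN : Subgroup.normalizer ((S : Subgroup X) : Set X) ≠ ⊤ :=
    fun h => hSn (Subgroup.normalizer_eq_top_iff.1 h)
  rcases eq_top_or_exists_le_coatom (Subgroup.normalizer ((S : Subgroup X) : Set X)) with
    h | ⟨M₂, hM₂, hNM₂⟩
  · exact hN h
  have h12 : M₁ = M₂ :=
    hSu.unique ⟨hM₁, hS.trans hLM₁⟩ ⟨hM₂, Subgroup.le_normalizer.trans hNM₂⟩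
  have hF := Sylow.normalizer_sup_eq_top' S hS
  have hNM₁ : Subgroup.normalizer ((S : Subgroup X) : Set X) ≤ M₁ := by
    rw [h12]
    exact hNM₂
  have htop : (⊤ : Subgroup X) ≤ M₁ := by
    rw [← hF]
    exact sup_le hNM₁ hLM₁
  exact hM₁.1 (top_le_iff.1 htop)

end Cfsg.Agent.Lib.Helper6.PM3
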