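import Mathlib
import Cfsg.Agent.Lib.Helper65.RegUnipC

set_option autoImplicit false

namespace Cfsg.Agent.Lib.Helper8.RegUnipPR

open Matrix Cfsg.Agent.Lib.Helper65.RegUnip

section three

variable {F : Type*} [Field F]

/-- The Gram matrix of the three vectors / functionals. -/
def W3 (d al ga : F) : Matrix (Fin 3) (Fin 3) F := !![d - 1, 0, 0; al, d - 1, 0; ga, al, d - 1]

/-- Lower unitriangular matrices. -/
def Lt (a b c : F) : Matrix (Fin 3) (Fin 3) F := !![1, 0, 0; a, 1, 0; c, b, 1]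

def P3 (d al : F) : Matrix (Fin 3) (Fin 3) F := !![d, 0, 0; -al / d, 1 / d, 0; 0, 0, 1]

def P3i (d al : F) : Matrix (Fin 3) (Fin 3) F := !![1 / d, 0, 0; al / d, d, 0; 0, 0, 1]

def Q3 (d al ga : F) : Matrix (Fin 3) (Fin 3) F :=
  !![1, 0, 0; al, d, 0; -ga / d, -al / d, 1 / d]

def Q3i (d al ga : F) : Matrix (Fin 3) (Fin 3) F :=
  !![1, 0, 0; -al / d, 1 / d, 0; ga - al ^ 2 / d, al / d, d]

theorem Lt_zero : Lt (0 : F) 0 0 = 1 := by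
  ext i j
  fin_cases i <;> fin_cases j <;> simp [Lt]

theorem Lt_mul (a b c a' b' c' : F) :
    Lt a b c * Lt a' b' c' = Lt (a + a') (b + b') (c + c' + b * a') := by
  ext i j
  fin_cases i <;> fin_cases j <;> simp [Lt, Matrix.mul_apply, Fin.sum_univ_three] <;> ring

theorem P3_mul_P3i (d al : F) (hd : d ≠ 0) : P3 d al * P3i d al = 1 := by
  ext i j
  fin_cases i <;> fin_cases j <;> simp [P3, P3i, Matrix.mul_apply, Fin.sum_univ_three] <;>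
    field_simp <;> ring

theorem Q3_mul_Q3i (d al ga : F) (hd : d ≠ 0) : Q3 d al ga * Q3i d al ga = 1 := by
  ext i j
  fin_cases i <;> fin_cases j <;> simp [Q3, Q3i, Matrix.mul_apply, Fin.sum_univ_three] <;>
    field_simp <;> ring

theorem comm_PQ (d al ga : F) (hd : d ≠ 0) :
    P3 d al * Q3 d al ga * P3i d al * Q3i d al ga =
      Lt (-al * (d - 1) / d) (-al * (d - 1) / d ^ 2)
        ((ga * (d - 1) + al ^ 2 * (d - 2)) / d ^ 2) := by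
  ext i j
  fin_cases i <;> fin_cases j <;>
    simp [P3, P3i, Q3, Q3i, Lt, Matrix.mul_apply, Fin.sum_univ_three] <;>
    field_simp <;> ring

theorem P3_conj_Lt (d al a b c : F) (hd : d ≠ 0) :
    P3 d al * Lt a b c * P3i d al = Lt (a / d ^ 2) (b * d) ((c + b * al) / d) := by
  ext i j
  fin_cases i <;> fin_cases j <;>
    simp [P3, P3i, Lt, Matrix.mul_apply, Fin.sum_univ_three] <;>
    field_simp <;> ring

theorem G0_eq (d al ga : F) :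
    1 + Matrix.single (0 : Fin 3) (0 : Fin 3) (1 : F) * W3 d al ga = !![d, 0, 0; 0, 1, 0; 0, 0, 1] := by
  ext i j
  fin_cases i <;> fin_cases j <;>
    simp [W3, Matrix.mul_apply, Fin.sum_univ_three, Matrix.single_apply, Matrix.one_apply]

theorem G1_eq (d al ga : F) :
    1 + Matrix.single (1 : Fin 3) (1 : Fin 3) (1 : F) * W3 d al ga = !![1, 0, 0; al, d, 0; 0, 0, 1] := by
  ext i j
  fin_cases i <;> fin_cases j <;>
    simp [W3, Matrix.mul_apply, Fin.sum_univ_three, Matrix.single_apply, Matrix.one_apply]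

theorem G1i_eq (d al ga : F) (hd : d ≠ 0) :
    1 + Matrix.single (1 : Fin 3) (1 : Fin 3) (-d⁻¹ : F) * W3 d al ga =
      !![1, 0, 0; -al / d, 1 / d, 0; 0, 0, 1] := by
  ext i j
  fin_cases i <;> fin_cases j <;>
    simp [W3, Matrix.mul_apply, Fin.sum_univ_three, Matrix.single_apply, Matrix.one_apply] <;>
    field_simp <;> ring

theorem G2i_eq (d al ga : F) (hd : d ≠ 0) :
    1 + Matrix.single (2 : Fin 3) (2 : Fin 3) (-d⁻¹ : F) * W3 d al ga =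
      !![1, 0, 0; 0, 1, 0; -ga / d, -al / d, 1 / d] := by
  ext i j
  fin_cases i <;> fin_cases j <;>
    simp [W3, Matrix.mul_apply, Fin.sum_univ_three, Matrix.single_apply, Matrix.one_apply] <;>
    field_simp <;> ring

theorem P3_eq (d al ga : F) (hd : d ≠ 0) :
    (1 + Matrix.single (0 : Fin 3) (0 : Fin 3) (1 : F) * W3 d al ga) *
      (1 + Matrix.single (1 : Fin 3) (1 : Fin 3) (-d⁻¹ : F) * W3 d al ga) = P3 d al := by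
  rw [G0_eq, G1i_eq d al ga hd]
  ext i j
  fin_cases i <;> fin_cases j <;>
    simp [P3, Matrix.mul_apply, Fin.sum_univ_three]

theorem Q3_eq (d al ga : F) (hd : d ≠ 0) :
    (1 + Matrix.single (1 : Fin 3) (1 : Fin 3) (1 : F) * W3 d al ga) *
      (1 + Matrix.single (2 : Fin 3) (2 : Fin 3) (-d⁻¹ : F) * W3 d al ga) = Q3 d al ga := by
  rw [G1_eq, G2i_eq d al ga hd]
  ext i j
  fin_cases i <;> fin_cases j <;>
    simp [Q3, Matrix.mul_apply, Fin.sum_univ_three]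

theorem Lt_eq (d al ga s : F) (hd : d - 1 ≠ 0) :
    Lt 0 0 s = 1 + Matrix.single (2 : Fin 3) (0 : Fin 3) (s / (d - 1)) * W3 d al ga := by
  ext i j
  fin_cases i <;> fin_cases j <;>
    simp [Lt, W3, Matrix.mul_apply, Fin.sum_univ_three, Matrix.single_apply, Matrix.one_apply] <;>
    field_simp

theorem Lt_mul_inv (a b c : F) : Lt a b c * Lt (-a) (-b) (a * b - c) = 1 := by
  rw [Lt_mul, ← Lt_zero]
  congr 1 <;> ring

theorem Lt_comm (a b c a' b' c' : F) :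
    Lt a b c * Lt a' b' c' * Lt (-a) (-b) (a * b - c) * Lt (-a') (-b') (a' * b' - c') =
      Lt 0 0 (b * a' - b' * a) := by
  simp only [Lt_mul]
  congr 1 <;> ring

theorem det_W3 (d al ga : F) : (W3 d al ga).det = (d - 1) ^ 3 := by
  simp [W3, Matrix.det_fin_three]
  ring

end three

section hom

variable {ι : Type*} [Fintype ι] [DecidableEq ι] {F : Type*} [Field F]

/-- `A ↦ 1 + Z (A - 1) Wi W`. -/
def phiM (Z : Matrix ι (Fin 3) F) (W : Matrix (Fin 3) ι F) (Wi : Matrix (Fin 3) (Fin 3) F)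
    (A : Matrix (Fin 3) (Fin 3) F) : Matrix ι ι F := 1 + Z * ((A - 1) * Wi) * W

theorem phiM_one (Z : Matrix ι (Fin 3) F) (W : Matrix (Fin 3) ι F)
    (Wi : Matrix (Fin 3) (Fin 3) F) : phiM Z W Wi 1 = 1 := by
  simp [phiM]

theorem phiM_mul (Z : Matrix ι (Fin 3) F) (W : Matrix (Fin 3) ι F)
    (Wi : Matrix (Fin 3) (Fin 3) F) (h : Wi * (W * Z) = 1) (A B : Matrix (Fin 3) (Fin 3) F) :
    phiM Z W Wi A * phiM Z W Wi B = phiM Z W Wi (A * B) := by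
  have key : (A * B - 1) * Wi =
      (A - 1) * Wi + (B - 1) * Wi + (A - 1) * Wi * (W * Z) * ((B - 1) * Wi) := by
    rw [Matrix.mul_assoc (A - 1) Wi (W * Z), h, Matrix.mul_one, ← Matrix.mul_assoc,
      ← Matrix.add_mul, ← Matrix.add_mul]
    congr 1
    noncomm_ring
  unfold phiM
  rw [key]
  generalize (A - 1) * Wi = X
  generalize (B - 1) * Wi = Y
  simp only [Matrix.mul_add, Matrix.add_mul, Matrix.mul_one, Matrix.one_mul, Matrix.mul_assoc]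
  abel

theorem phiM_one_add (Z : Matrix ι (Fin 3) F) (W : Matrix (Fin 3) ι F)
    (Wi : Matrix (Fin 3) (Fin 3) F) (h : (W * Z) * Wi = 1) (M : Matrix (Fin 3) (Fin 3) F) :
    phiM Z W Wi (1 + M * (W * Z)) = 1 + Z * M * W := by
  unfold phiM
  rw [add_sub_cancel_left, Matrix.mul_assoc M, h, Matrix.mul_one]

/-- Membership of `phiM A` in `G`. -/
def InG3 (G : Subgroup (Matrix.SpecialLinearGroup ι F)) (Z : Matrix ι (Fin 3) F)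
    (W : Matrix (Fin 3) ι F) (Wi : Matrix (Fin 3) (Fin 3) F)
    (A : Matrix (Fin 3) (Fin 3) F) : Prop :=
  ∃ t ∈ G, (↑t : Matrix ι ι F) = phiM Z W Wi A

theorem InG3.mul {G : Subgroup (Matrix.SpecialLinearGroup ι F)} {Z : Matrix ι (Fin 3) F}
    {W : Matrix (Fin 3) ι F} {Wi : Matrix (Fin 3) (Fin 3) F} {A B : Matrix (Fin 3) (Fin 3) F}
    (h : Wi * (W * Z) = 1) (hA : InG3 G Z W Wi A) (hB : InG3 G Z W Wi B) :
    InG3 G Z W Wi (A * B) := by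
  obtain ⟨t, ht, e⟩ := hA
  obtain ⟨t', ht', e'⟩ := hB
  exact ⟨t * t', mul_mem ht ht', by
    rw [Matrix.SpecialLinearGroup.coe_mul, e, e', phiM_mul Z W Wi h]⟩

theorem InG3.inv {G : Subgroup (Matrix.SpecialLinearGroup ι F)} {Z : Matrix ι (Fin 3) F}
    {W : Matrix (Fin 3) ι F} {Wi : Matrix (Fin 3) (Fin 3) F} {A B : Matrix (Fin 3) (Fin 3) F}
    (h : Wi * (W * Z) = 1) (hAB : A * B = 1) (hA : InG3 G Z W Wi A) :
    InG3 G Z W Wi B := by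
  obtain ⟨t, ht, e⟩ := hA
  refine ⟨t⁻¹, inv_mem ht, ?_⟩
  have h1 : (↑t : Matrix ι ι F) * phiM Z W Wi B = 1 := by
    rw [e, phiM_mul Z W Wi h, hAB, phiM_one]
  calc (↑(t⁻¹) : Matrix ι ι F) = ↑(t⁻¹) * (↑t * phiM Z W Wi B) := by rw [h1, Matrix.mul_one]
    _ = phiM Z W Wi B := by rw [← Matrix.mul_assoc, sl_inv_mul', Matrix.one_mul]

/-- `ζ_k = A^k ζ`. -/
def zk (A : Matrix ι ι F) (ζ : ι → F) (k : ℕ) : ι → F := (A ^ k) *ᵥ ζ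

/-- `ψ_j = ψ A^{-j}`. -/
def pk (Ai : Matrix ι ι F) (ψ : ι → F) (j : ℕ) : ι → F := ψ ᵥ* (Ai ^ j)

theorem zk_zero (A : Matrix ι ι F) (ζ : ι → F) : zk A ζ 0 = ζ := by simp [zk]

theorem pk_zero (Ai : Matrix ι ι F) (ψ : ι → F) : pk Ai ψ 0 = ψ := by simp [pk]

theorem mulVec_zk (A : Matrix ι ι F) (ζ : ι → F) (k : ℕ) : A *ᵥ zk A ζ k = zk A ζ (k + 1) := by
  rw [zk, zk, mulVec_mulVec, ← pow_succ']

theorem pk_vecMul {A Ai : Matrix ι ι F} (h : Ai * A = 1) (ψ : ι → F) (j : ℕ) :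
    pk Ai ψ (j + 1) ᵥ* A = pk Ai ψ j := by
  rw [pk, pk, vecMul_vecMul, pow_succ, Matrix.mul_assoc, h, Matrix.mul_one]

theorem pk_vecMul_inv (Ai : Matrix ι ι F) (ψ : ι → F) (j : ℕ) :
    pk Ai ψ j ᵥ* Ai = pk Ai ψ (j + 1) := by
  rw [pk, pk, vecMul_vecMul, ← pow_succ]

theorem pk_dot_zk {A Ai : Matrix ι ι F} (h : Ai * A = 1) (ψ ζ : ι → F) (j k : ℕ) :
    pk Ai ψ (j + 1) ⬝ᵥ zk A ζ (k + 1) = pk Ai ψ j ⬝ᵥ zk A ζ k := by
  rw [← mulVec_zk, dotProduct_mulVec, pk_vecMul h]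

theorem pk_dot_zk_add {A Ai : Matrix ι ι F} (h : Ai * A = 1) (ψ ζ : ι → F) (j k : ℕ) :
    pk Ai ψ j ⬝ᵥ zk A ζ (j + k) = ψ ⬝ᵥ zk A ζ k := by
  induction j with
  | zero => rw [pk_zero, zero_add]
  | succ j ih =>
    rw [show j + 1 + k = (j + k) + 1 by omega, pk_dot_zk h, ih]

/-- Columns `ζ₀, ζ₁, ζ₂`. -/
def ZM (A : Matrix ι ι F) (ζ : ι → F) : Matrix ι (Fin 3) F :=
  Matrix.of fun x k => zk A ζ (k : ℕ) x

/-- Rows `ψ₀, ψ₁, ψ₂`. -/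
def WM (Ai : Matrix ι ι F) (ψ : ι → F) : Matrix (Fin 3) ι F :=
  Matrix.of fun k x => pk Ai ψ (k : ℕ) x

theorem WM_mul_ZM (A Ai : Matrix ι ι F) (ζ ψ : ι → F) (j k : Fin 3) :
    (WM Ai ψ * ZM A ζ) j k = pk Ai ψ (j : ℕ) ⬝ᵥ zk A ζ (k : ℕ) := rfl

theorem ZM_single_WM (A Ai : Matrix ι ι F) (ζ ψ : ι → F) (j k : Fin 3) (c : F) :
    ZM A ζ * Matrix.single j k c * WM Ai ψ =
      vecMulVec (zk A ζ (j : ℕ)) (c • pk Ai ψ (k : ℕ)) := by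
  rw [single_eq_vecMulVec', Matrix.mul_vecMulVec, Matrix.vecMulVec_mul]
  have e1 : ZM A ζ *ᵥ Pi.single j c = c • zk A ζ (j : ℕ) := by
    funext x
    simp [Matrix.mulVec, dotProduct, ZM, Pi.single_apply, mul_comm]
  have e2 : Pi.single k (1 : F) ᵥ* WM Ai ψ = pk Ai ψ (k : ℕ) := by
    funext x
    simp [Matrix.vecMul, dotProduct, WM, Pi.single_apply]
  rw [e1, e2, smul_vecMulVec, vecMulVec_smul]

theorem conj_tv {A Ai : Matrix ι ι F} (h : A * Ai = 1) (x y : ι → F) :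
    A * (1 + vecMulVec x y) * Ai = 1 + vecMulVec (A *ᵥ x) (y ᵥ* Ai) := by
  rw [Matrix.mul_add, Matrix.mul_one, Matrix.add_mul, h, mul_vecMulVec, vecMulVec_mul]

theorem zk_one (A : Matrix ι ι F) (ζ : ι → F) : zk A ζ 1 = A *ᵥ ζ := by rw [zk, pow_one]

theorem pk_one (Ai : Matrix ι ι F) (ψ : ι → F) : pk Ai ψ 1 = ψ ᵥ* Ai := by rw [pk, pow_one]

theorem conj_mul {A Ai : Matrix ι ι F} (h : Ai * A = 1) (X Y : Matrix ι ι F) :
    A * (X * Y) * Ai = (A * X * Ai) * (A * Y * Ai) := by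
  simp only [Matrix.mul_assoc]
  rw [← Matrix.mul_assoc Ai A, h, Matrix.one_mul]

end hom

section main

variable {ι : Type*} [Fintype ι] [DecidableEq ι] {F : Type*} [Field F]

/-- `α = ψ₁(ζ)`. -/
def al (a : Matrix.SpecialLinearGroup ι F) (ζ ψ : ι → F) : F := pk (↑(a⁻¹) : Matrix ι ι F) ψ 1 ⬝ᵥ ζ

/-- `γ = ψ₂(ζ)`. -/
def ga (a : Matrix.SpecialLinearGroup ι F) (ζ ψ : ι → F) : F := pk (↑(a⁻¹) : Matrix ι ι F) ψ 2 ⬝ᵥ ζ

/-- Membership in `G` of the image of a `3 × 3` matrix. -/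
abbrev I3 (G : Subgroup (Matrix.SpecialLinearGroup ι F)) (a : Matrix.SpecialLinearGroup ι F)
    (ζ ψ : ι → F) (δ : F) (M : Matrix (Fin 3) (Fin 3) F) : Prop :=
  InG3 G (ZM (↑a : Matrix ι ι F) ζ) (WM (↑(a⁻¹) : Matrix ι ι F) ψ) (W3 δ (al a ζ ψ) (ga a ζ ψ))⁻¹ M

/-- The data of the generation argument: `v = g a g⁻¹` with `g = 1 + ζ ψᵀ` of determinant `δ`. -/
structure Setup (G : Subgroup (Matrix.SpecialLinearGroup ι F))
    (a v : Matrix.SpecialLinearGroup ι F) (ζ ψ : ι → F) (δ : F) (N : ℕ) : Prop where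
  ha : a ∈ G
  hv : v ∈ G
  hδ0 : δ ≠ 0
  hδ1 : δ ≠ 1
  hv_coe : (↑v : Matrix ι ι F) =
    (1 + vecMulVec ζ ψ) * (↑a : Matrix ι ι F) * (1 + vecMulVec ζ ((-δ⁻¹) • ψ))
  hN : 2 ≤ N
  c0 : ψ ⬝ᵥ ζ = δ - 1
  cm : ∀ m, 1 ≤ m → m ≤ N → ψ ⬝ᵥ zk (↑a : Matrix ι ι F) ζ m = 0
  hν : ψ ⬝ᵥ zk (↑a : Matrix ι ι F) ζ (N + 1) ≠ 0
  hα : al a ζ ψ ≠ 0
  hgen : ∀ x : F, x ≠ 0 → ∃ k : ℕ, δ ^ k = x
  h3 : δ ^ 3 ≠ 1 ∨ (2 : F) = 0

namespace Setup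

variable {G : Subgroup (Matrix.SpecialLinearGroup ι F)}
  {a v : Matrix.SpecialLinearGroup ι F} {ζ ψ : ι → F} {δ : F} {N : ℕ}

theorem pair (_S : Setup G a v ζ ψ δ N) (j k : ℕ) :
    pk (↑(a⁻¹) : Matrix ι ι F) ψ j ⬝ᵥ zk (↑a : Matrix ι ι F) ζ (j + k) = ψ ⬝ᵥ zk (↑a : Matrix ι ι F) ζ k :=
  pk_dot_zk_add (sl_inv_mul' a) ψ ζ j k

theorem pair_self (S : Setup G a v ζ ψ δ N) (j : ℕ) :
    pk (↑(a⁻¹) : Matrix ι ι F) ψ j ⬝ᵥ zk (↑a : Matrix ι ι F) ζ j = δ - 1 := by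
  have h := S.pair j 0
  rw [add_zero, zk_zero, S.c0] at h
  exact h

theorem pair_zero (S : Setup G a v ζ ψ δ N) (j m : ℕ) (h1 : 1 ≤ m) (h2 : m ≤ N) :
    pk (↑(a⁻¹) : Matrix ι ι F) ψ j ⬝ᵥ zk (↑a : Matrix ι ι F) ζ (j + m) = 0 := by
  rw [S.pair, S.cm m h1 h2]

theorem gram (S : Setup G a v ζ ψ δ N) :
    WM (↑(a⁻¹) : Matrix ι ι F) ψ * ZM (↑a : Matrix ι ι F) ζ = W3 δ (al a ζ ψ) (ga a ζ ψ) := by
  have hN := S.hN
  have h00 : pk (↑(a⁻¹) : Matrix ι ι F) ψ 0 ⬝ᵥ zk (↑a : Matrix ι ι F) ζ 0 = δ - 1 := S.pair_self 0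
  have h11 : pk (↑(a⁻¹) : Matrix ι ι F) ψ 1 ⬝ᵥ zk (↑a : Matrix ι ι F) ζ 1 = δ - 1 := S.pair_self 1
  have h22 : pk (↑(a⁻¹) : Matrix ι ι F) ψ 2 ⬝ᵥ zk (↑a : Matrix ι ι F) ζ 2 = δ - 1 := S.pair_self 2
  have h01 : pk (↑(a⁻¹) : Matrix ι ι F) ψ 0 ⬝ᵥ zk (↑a : Matrix ι ι F) ζ 1 = 0 := S.pair_zero 0 1 le_rfl (by omega)
  have h02 : pk (↑(a⁻¹) : Matrix ι ι F) ψ 0 ⬝ᵥ zk (↑a : Matrix ι ι F) ζ 2 = 0 := S.pair_zero 0 2 (by omega) (by omega)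
  have h12 : pk (↑(a⁻¹) : Matrix ι ι F) ψ 1 ⬝ᵥ zk (↑a : Matrix ι ι F) ζ 2 = 0 := S.pair_zero 1 1 le_rfl (by omega)
  have h10 : pk (↑(a⁻¹) : Matrix ι ι F) ψ 1 ⬝ᵥ zk (↑a : Matrix ι ι F) ζ 0 = al a ζ ψ := by rw [zk_zero]; rfl
  have h20 : pk (↑(a⁻¹) : Matrix ι ι F) ψ 2 ⬝ᵥ zk (↑a : Matrix ι ι F) ζ 0 = ga a ζ ψ := by rw [zk_zero]; rfl
  have h21 : pk (↑(a⁻¹) : Matrix ι ι F) ψ 2 ⬝ᵥ zk (↑a : Matrix ι ι F) ζ 1 = al a ζ ψ := by
    rw [pk_dot_zk (sl_inv_mul' a), zk_zero]; rfl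
  ext j k
  fin_cases j <;> fin_cases k <;>
    simp [-Matrix.SpecialLinearGroup.coe_inv, WM_mul_ZM, W3, h00, h01, h02, h10, h11, h12, h20, h21, h22]

theorem isUnit_det (S : Setup G a v ζ ψ δ N) : IsUnit (W3 δ (al a ζ ψ) (ga a ζ ψ)).det := by
  rw [det_W3]
  exact (pow_ne_zero 3 (sub_ne_zero.mpr S.hδ1)).isUnit

theorem inv_gram (S : Setup G a v ζ ψ δ N) :
    (W3 δ (al a ζ ψ) (ga a ζ ψ))⁻¹ * (WM (↑(a⁻¹) : Matrix ι ι F) ψ * ZM (↑a : Matrix ι ι F) ζ) = 1 := by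
  rw [S.gram]
  exact Matrix.nonsing_inv_mul _ S.isUnit_det

theorem gram_inv (S : Setup G a v ζ ψ δ N) :
    (WM (↑(a⁻¹) : Matrix ι ι F) ψ * ZM (↑a : Matrix ι ι F) ζ) * (W3 δ (al a ζ ψ) (ga a ζ ψ))⁻¹ = 1 := by
  rw [S.gram]
  exact Matrix.mul_nonsing_inv _ S.isUnit_det

theorem I3_mul (S : Setup G a v ζ ψ δ N) {M M' : Matrix (Fin 3) (Fin 3) F}
    (h : I3 G a ζ ψ δ M) (h' : I3 G a ζ ψ δ M') : I3 G a ζ ψ δ (M * M') :=
  InG3.mul S.inv_gram h h'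

theorem I3_inv (S : Setup G a v ζ ψ δ N) {M M' : Matrix (Fin 3) (Fin 3) F}
    (hMM' : M * M' = 1) (h : I3 G a ζ ψ δ M) : I3 G a ζ ψ δ M' :=
  InG3.inv S.inv_gram hMM' h

theorem phi_single (S : Setup G a v ζ ψ δ N) (j k : Fin 3) (c : F) :
    phiM (ZM (↑a : Matrix ι ι F) ζ) (WM (↑(a⁻¹) : Matrix ι ι F) ψ) (W3 δ (al a ζ ψ) (ga a ζ ψ))⁻¹
      (1 + Matrix.single j k c * W3 δ (al a ζ ψ) (ga a ζ ψ)) =
      1 + vecMulVec (zk (↑a : Matrix ι ι F) ζ (j : ℕ)) (c • pk (↑(a⁻¹) : Matrix ι ι F) ψ (k : ℕ)) := by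
  have e : 1 + Matrix.single j k c * W3 δ (al a ζ ψ) (ga a ζ ψ) =
      1 + Matrix.single j k c * (WM (↑(a⁻¹) : Matrix ι ι F) ψ * ZM (↑a : Matrix ι ι F) ζ) := by rw [S.gram]
  rw [e, phiM_one_add _ _ _ S.gram_inv, ZM_single_WM]

theorem P_coe (S : Setup G a v ζ ψ δ N) :
    (↑(v * a⁻¹) : Matrix ι ι F) =
      (1 + vecMulVec ζ ψ) * (1 + vecMulVec (zk (↑a : Matrix ι ι F) ζ 1) ((-δ⁻¹) • pk (↑(a⁻¹) : Matrix ι ι F) ψ 1)) := by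
  rw [Matrix.SpecialLinearGroup.coe_mul, S.hv_coe, Matrix.mul_assoc, Matrix.mul_assoc,
    ← Matrix.mul_assoc (↑a : Matrix ι ι F), conj_tv (sl_mul_inv' a), smul_vecMul, ← zk_one, ← pk_one]

theorem Q_coe (S : Setup G a v ζ ψ δ N) :
    (↑(a * (v * a⁻¹) * a⁻¹) : Matrix ι ι F) =
      (1 + vecMulVec (zk (↑a : Matrix ι ι F) ζ 1) (pk (↑(a⁻¹) : Matrix ι ι F) ψ 1)) *
        (1 + vecMulVec (zk (↑a : Matrix ι ι F) ζ 2) ((-δ⁻¹) • pk (↑(a⁻¹) : Matrix ι ι F) ψ 2)) := by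
  rw [Matrix.SpecialLinearGroup.coe_mul, Matrix.SpecialLinearGroup.coe_mul, S.P_coe,
    conj_mul (sl_inv_mul' a), conj_tv (sl_mul_inv' a), conj_tv (sl_mul_inv' a), mulVec_zk,
    smul_vecMul, pk_vecMul_inv, ← zk_one, ← pk_one]

theorem I3_P (S : Setup G a v ζ ψ δ N) : I3 G a ζ ψ δ (P3 δ (al a ζ ψ)) := by
  refine ⟨v * a⁻¹, mul_mem S.hv (inv_mem S.ha), ?_⟩
  rw [S.P_coe, ← P3_eq δ (al a ζ ψ) (ga a ζ ψ) S.hδ0, ← phiM_mul _ _ _ S.inv_gram,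
    S.phi_single, S.phi_single]
  simp [-Matrix.SpecialLinearGroup.coe_inv, zk_zero, pk_zero]

theorem I3_Q (S : Setup G a v ζ ψ δ N) : I3 G a ζ ψ δ (Q3 δ (al a ζ ψ) (ga a ζ ψ)) := by
  refine ⟨a * (v * a⁻¹) * a⁻¹,
    mul_mem (mul_mem S.ha (mul_mem S.hv (inv_mem S.ha))) (inv_mem S.ha), ?_⟩
  rw [S.Q_coe, ← Q3_eq δ (al a ζ ψ) (ga a ζ ψ) S.hδ0, ← phiM_mul _ _ _ S.inv_gram,
    S.phi_single, S.phi_single]
  simp [-Matrix.SpecialLinearGroup.coe_inv]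

theorem exists_tv (S : Setup G a v ζ ψ δ N) :
    ∃ s : F, s ≠ 0 ∧ TvIn G (zk (↑a : Matrix ι ι F) ζ 2) (s • ψ) := by
  have hP := S.I3_P
  have hQ := S.I3_Q
  have hPi := S.I3_inv (P3_mul_P3i δ (al a ζ ψ) S.hδ0) hP
  have hQi := S.I3_inv (Q3_mul_Q3i δ (al a ζ ψ) (ga a ζ ψ) S.hδ0) hQ
  have hy := S.I3_mul (S.I3_mul (S.I3_mul hP hQ) hPi) hQi
  rw [comm_PQ δ _ _ S.hδ0] at hy
  have hd1 : δ - 1 ≠ 0 := sub_ne_zero.mpr S.hδ1
  have hδ0 := S.hδ0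
  have hα := S.hα
  generalize hcc : (ga a ζ ψ * (δ - 1) + al a ζ ψ ^ 2 * (δ - 2)) / δ ^ 2 = cc at hy
  have haa0 : -al a ζ ψ * (δ - 1) / δ ≠ 0 :=
    div_ne_zero (mul_ne_zero (neg_ne_zero.mpr hα) hd1) hδ0
  have hbb0 : -al a ζ ψ * (δ - 1) / δ ^ 2 ≠ 0 :=
    div_ne_zero (mul_ne_zero (neg_ne_zero.mpr hα) hd1) (pow_ne_zero 2 hδ0)
  generalize -al a ζ ψ * (δ - 1) / δ = aa at hy haa0
  generalize -al a ζ ψ * (δ - 1) / δ ^ 2 = bb at hy hbb0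
  have key : ∃ s : F, s ≠ 0 ∧ I3 G a ζ ψ δ (Lt 0 0 s) := by
    rcases S.h3 with h3 | h2
    · have hz := S.I3_mul (S.I3_mul hP hy) hPi
      rw [P3_conj_Lt δ _ _ _ _ S.hδ0] at hz
      have hyi := S.I3_inv (Lt_mul_inv aa bb cc) hy
      have hzi := S.I3_inv (Lt_mul_inv _ _ _) hz
      have ht := S.I3_mul (S.I3_mul (S.I3_mul hy hz) hyi) hzi
      rw [Lt_comm] at ht
      refine ⟨_, ?_, ht⟩
      have e : bb * (aa / δ ^ 2) - bb * δ * aa = aa * bb * (1 - δ ^ 3) / δ ^ 2 := by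
        field_simp
      rw [e]
      exact div_ne_zero (mul_ne_zero (mul_ne_zero haa0 hbb0) (sub_ne_zero.mpr (Ne.symm h3)))
        (pow_ne_zero 2 hδ0)
    · have ht := S.I3_mul hy hy
      rw [Lt_mul] at ht
      have e1 : aa + aa = 0 := by linear_combination aa * h2
      have e2 : bb + bb = 0 := by linear_combination bb * h2
      have e3 : cc + cc + bb * aa = bb * aa := by linear_combination cc * h2
      rw [e1, e2, e3] at ht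
      exact ⟨_, mul_ne_zero hbb0 haa0, ht⟩
  obtain ⟨s, hs, t, ht, e⟩ := key
  refine ⟨s / (δ - 1), div_ne_zero hs hd1, t, ht, ?_⟩
  rw [e, Lt_eq δ (al a ζ ψ) (ga a ζ ψ) s hd1, S.phi_single]
  simp [-Matrix.SpecialLinearGroup.coe_inv, pk_zero]

theorem P_mem (S : Setup G a v ζ ψ δ N) : v * a⁻¹ ∈ G := mul_mem S.hv (inv_mem S.ha)

theorem P_mulVec (S : Setup G a v ζ ψ δ N) (m : ℕ) (h1 : 2 ≤ m) (h2 : m ≤ N) :
    (↑(v * a⁻¹) : Matrix ι ι F) *ᵥ zk (↑a : Matrix ι ι F) ζ m = zk (↑a : Matrix ι ι F) ζ m := by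
  have e1 : pk (↑(a⁻¹) : Matrix ι ι F) ψ 1 ⬝ᵥ zk (↑a : Matrix ι ι F) ζ m = 0 := by
    have h := S.pair_zero 1 (m - 1) (by omega) (by omega)
    rwa [show 1 + (m - 1) = m by omega] at h
  have e2 : ψ ⬝ᵥ zk (↑a : Matrix ι ι F) ζ m = 0 := S.cm m (by omega) h2
  rw [S.P_coe, ← mulVec_mulVec, tvM_mulVec, tvM_mulVec, smul_dotProduct, e1, smul_zero, zero_smul,
    add_zero, e2, zero_smul, add_zero]

theorem psi_vecMul_P (S : Setup G a v ζ ψ δ N) :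
    ψ ᵥ* (↑(v * a⁻¹) : Matrix ι ι F) = δ • ψ := by
  have e1 : ψ ⬝ᵥ zk (↑a : Matrix ι ι F) ζ 1 = 0 := S.cm 1 le_rfl (by have := S.hN; omega)
  rw [S.P_coe, ← vecMul_vecMul, vecMul_tvM, vecMul_tvM, S.c0, add_dotProduct, smul_dotProduct,
    e1, smul_zero, add_zero, zero_smul, add_zero]
  module

theorem pk1_vecMul_P (S : Setup G a v ζ ψ δ N) :
    pk (↑(a⁻¹) : Matrix ι ι F) ψ 1 ᵥ* (↑(v * a⁻¹) : Matrix ι ι F) =
      δ⁻¹ • pk (↑(a⁻¹) : Matrix ι ι F) ψ 1 + (al a ζ ψ) • ψ := by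
  have e1 : ψ ⬝ᵥ zk (↑a : Matrix ι ι F) ζ 1 = 0 := S.cm 1 le_rfl (by have := S.hN; omega)
  have e2 : pk (↑(a⁻¹) : Matrix ι ι F) ψ 1 ⬝ᵥ zk (↑a : Matrix ι ι F) ζ 1 = δ - 1 := S.pair_self 1
  have e3 : pk (↑(a⁻¹) : Matrix ι ι F) ψ 1 ⬝ᵥ ζ = al a ζ ψ := rfl
  rw [S.P_coe, ← vecMul_vecMul, vecMul_tvM, vecMul_tvM, e3, add_dotProduct, smul_dotProduct,
    e1, e2, smul_zero, add_zero]
  have hδ := S.hδ0
  have e4 : (δ - 1) * (-δ⁻¹) = δ⁻¹ - 1 := by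
    field_simp
    ring
  rw [smul_smul, e4]
  module

theorem R02 (S : Setup G a v ζ ψ δ N) (s : F) : TvIn G (zk (↑a : Matrix ι ι F) ζ 2) (s • ψ) := by
  obtain ⟨s₁, hs₁, h₁⟩ := S.exists_tv
  have hpow : ∀ k : ℕ, TvIn G (zk (↑a : Matrix ι ι F) ζ 2) ((s₁ * δ ^ k) • ψ) := by
    intro k
    induction k with
    | zero => rwa [pow_zero, mul_one]
    | succ k ih =>
      have h2 : TvIn G ((↑(v * a⁻¹) : Matrix ι ι F) *ᵥ zk (↑a : Matrix ι ι F) ζ 2) ((s₁ * δ ^ k) • ψ) := by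
        rw [S.P_mulVec 2 le_rfl S.hN]
        exact ih
      have h3 := TvIn.conj_inv S.P_mem h2
      rw [smul_vecMul, S.psi_vecMul_P, smul_smul, mul_assoc, ← pow_succ] at h3
      exact h3
  by_cases hs : s = 0
  · rw [hs, zero_smul]
    exact tvIn_zero_right G _
  · obtain ⟨k, hk⟩ := S.hgen (s / s₁) (div_ne_zero hs hs₁)
    have h := hpow k
    rw [hk, mul_div_cancel₀ _ hs₁] at h
    exact h

theorem shift_up (S : Setup G a v ζ ψ δ N) (j k : ℕ) (s : F)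
    (h : TvIn G (zk (↑a : Matrix ι ι F) ζ k) (s • pk (↑(a⁻¹) : Matrix ι ι F) ψ j)) :
    TvIn G (zk (↑a : Matrix ι ι F) ζ (k + 1)) (s • pk (↑(a⁻¹) : Matrix ι ι F) ψ (j + 1)) := by
  rw [← mulVec_zk]
  apply TvIn.conj S.ha
  rw [smul_vecMul, pk_vecMul (sl_inv_mul' a)]
  exact h

theorem shift_down (S : Setup G a v ζ ψ δ N) (j k : ℕ) (s : F)
    (h : TvIn G (zk (↑a : Matrix ι ι F) ζ (k + 1)) (s • pk (↑(a⁻¹) : Matrix ι ι F) ψ (j + 1))) :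
    TvIn G (zk (↑a : Matrix ι ι F) ζ k) (s • pk (↑(a⁻¹) : Matrix ι ι F) ψ j) := by
  rw [← mulVec_zk] at h
  have h2 := TvIn.conj_inv S.ha h
  rwa [smul_vecMul, pk_vecMul (sl_inv_mul' a)] at h2

theorem R0_ge2 (S : Setup G a v ζ ψ δ N) :
    ∀ m, 2 ≤ m → m ≤ N → ∀ s : F, TvIn G (zk (↑a : Matrix ι ι F) ζ m) (s • ψ) := by
  intro m h1
  induction m, h1 using Nat.le_induction with
  | base =>
    intro _ s
    exact S.R02 s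
  | succ m hm ih =>
    intro hmN s
    have ih' := ih (by omega)
    have h1 : ∀ s : F, TvIn G (zk (↑a : Matrix ι ι F) ζ (m + 1)) (s • pk (↑(a⁻¹) : Matrix ι ι F) ψ 1) := by
      intro s
      exact S.shift_up 0 m s (by rw [pk_zero]; exact ih' s)
    have h2 : TvIn G ((↑(v * a⁻¹) : Matrix ι ι F) *ᵥ zk (↑a : Matrix ι ι F) ζ (m + 1))
        ((s / al a ζ ψ) • pk (↑(a⁻¹) : Matrix ι ι F) ψ 1) := by
      rw [S.P_mulVec (m + 1) (by omega) hmN]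
      exact h1 _
    have h3 := TvIn.conj_inv S.P_mem h2
    rw [smul_vecMul, S.pk1_vecMul_P, smul_add, smul_smul, smul_smul] at h3
    have h4 := h3.sub_axis (h1 (s / al a ζ ψ * δ⁻¹))
    rw [add_sub_cancel_left, div_mul_cancel₀ _ S.hα] at h4
    exact h4

theorem R01 (S : Setup G a v ζ ψ δ N) (s : F) : TvIn G (zk (↑a : Matrix ι ι F) ζ 1) (s • ψ) := by
  have hN := S.hN
  have h1 : ∀ s : F, TvIn G (zk (↑a : Matrix ι ι F) ζ (N + 1)) (s • pk (↑(a⁻¹) : Matrix ι ι F) ψ 1) := fun s =>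
    S.shift_up 0 N s (by rw [pk_zero]; exact S.R0_ge2 N hN le_rfl s)
  have h2 : TvIn G (zk (↑a : Matrix ι ι F) ζ 2) ((1 : F) • ψ) := S.R02 1
  have e0 : pk (↑(a⁻¹) : Matrix ι ι F) ψ 1 ⬝ᵥ zk (↑a : Matrix ι ι F) ζ 2 = 0 := S.pair_zero 1 1 le_rfl (by omega)
  have h3 := TvIn.comm (h1 (-s / (ψ ⬝ᵥ zk (↑a : Matrix ι ι F) ζ (N + 1)))) h2
    (by rw [smul_dotProduct, e0, smul_zero])
  rw [one_smul, smul_smul] at h3
  have hν := S.hν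
  have e : -(ψ ⬝ᵥ zk (↑a : Matrix ι ι F) ζ (N + 1)) * (-s / (ψ ⬝ᵥ zk (↑a : Matrix ι ι F) ζ (N + 1))) = s := by
    field_simp
  rw [e] at h3
  have h4 := S.shift_down 0 1 s h3
  rwa [pk_zero] at h4

/-- All transvections `T(ζ_m, s ψ)`, `1 ≤ m ≤ N`, lie in `G`. -/
theorem R (S : Setup G a v ζ ψ δ N) (m : ℕ) (h1 : 1 ≤ m) (h2 : m ≤ N) (s : F) :
    TvIn G (zk (↑a : Matrix ι ι F) ζ m) (s • ψ) := by
  rcases Nat.lt_or_ge m 2 with h | h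
  · have hm : m = 1 := by omega
    subst hm
    exact S.R01 s
  · exact S.R0_ge2 m h h2 s

/-- The transvections with centre `ψ(ζ_{N+2}) ζ_{N+1} - ψ(ζ_{N+1}) ζ_{N+2}` lie in `G`. -/
theorem Ry (S : Setup G a v ζ ψ δ N) (s : F) :
    TvIn G ((ψ ⬝ᵥ zk (↑a : Matrix ι ι F) ζ (N + 2)) • zk (↑a : Matrix ι ι F) ζ (N + 1) -
      (ψ ⬝ᵥ zk (↑a : Matrix ι ι F) ζ (N + 1)) • zk (↑a : Matrix ι ι F) ζ (N + 2)) (s • ψ) := by
  have hN := S.hN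
  have h1 : ∀ s : F, TvIn G (zk (↑a : Matrix ι ι F) ζ (N + 1)) (s • pk (↑(a⁻¹) : Matrix ι ι F) ψ 2) := by
    intro s
    obtain ⟨N', hN'⟩ : ∃ N', N = N' + 1 := ⟨N - 1, by omega⟩
    have h := S.R N' (by omega) (by omega) s
    have h' := S.shift_up 1 (N' + 1) s (S.shift_up 0 N' s (by rw [pk_zero]; exact h))
    rw [hN']
    exact h'
  have h2 : ∀ s : F, TvIn G (zk (↑a : Matrix ι ι F) ζ (N + 2)) (s • pk (↑(a⁻¹) : Matrix ι ι F) ψ 2) := fun s =>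
    S.shift_up 1 (N + 1) s (S.shift_up 0 N s (by rw [pk_zero]; exact S.R N (by omega) le_rfl s))
  generalize hx : ψ ⬝ᵥ zk (↑a : Matrix ι ι F) ζ (N + 2) = x
  generalize hx' : ψ ⬝ᵥ zk (↑a : Matrix ι ι F) ζ (N + 1) = x'
  have h3 : TvIn G (x • zk (↑a : Matrix ι ι F) ζ (N + 1) - x' • zk (↑a : Matrix ι ι F) ζ (N + 2))
      ((1 : F) • pk (↑(a⁻¹) : Matrix ι ι F) ψ 2) := by
    apply TvIn.sub_centre
    · rw [tvIn_smul_comm, smul_smul]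
      exact h1 _
    · rw [tvIn_smul_comm, smul_smul]
      exact h2 _
  have h4 := S.R02 (-s / (δ - 1))
  have e0 : ((-s / (δ - 1)) • ψ) ⬝ᵥ (x • zk (↑a : Matrix ι ι F) ζ (N + 1) - x' • zk (↑a : Matrix ι ι F) ζ (N + 2)) = 0 := by
    rw [smul_dotProduct, dotProduct_sub, dotProduct_smul, dotProduct_smul, hx', hx]
    simp only [smul_eq_mul]
    ring
  have h5 := TvIn.comm h4 h3 e0
  rw [one_smul, S.pair_self 2, smul_smul] at h5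
  have hd1 : δ - 1 ≠ 0 := sub_ne_zero.mpr S.hδ1
  have e : -(δ - 1) * (-s / (δ - 1)) = s := by
    field_simp
  rwa [e] at h5

end Setup

end main

end Cfsg.Agent.Lib.Helper8.RegUnipPR
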