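import Mathlib
import Cfsg.Agent.Lib.Helper8.RegUnipPR1

set_option autoImplicit false

namespace Cfsg.Agent.Lib.Helper8.RegUnipPR

open Matrix Cfsg.Agent.Lib.Helper65.RegUnip

section tri

variable {F : Type*} [Field F] {n : ℕ}

/-- A subspace containing a triangular family is everything. -/
theorem tri_top (C : Submodule F (Fin n → F))
    (h : ∀ (k : ℕ) (hk : k < n), ∃ w ∈ C, w ⟨k, hk⟩ ≠ 0 ∧ ∀ i : Fin n, (i : ℕ) < k → w i = 0) :
    C = ⊤ := by
  have key : ∀ d : ℕ, d ≤ n → ∀ x : Fin n → F, (∀ i : Fin n, (i : ℕ) + d < n → x i = 0) →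
      x ∈ C := by
    intro d
    induction d with
    | zero =>
      intro _ x hx
      have h0 : x = 0 := by
        funext i
        exact hx i (by have := i.2; omega)
      rw [h0]
      exact C.zero_mem
    | succ d ih =>
      intro hd x hx
      have hk : n - (d + 1) < n := by omega
      obtain ⟨w, hwC, hwk, hw⟩ := h (n - (d + 1)) hk
      have h1 : x - (x ⟨n - (d + 1), hk⟩ / w ⟨n - (d + 1), hk⟩) • w ∈ C := by
        apply ih (by omega)
        intro i hi
        rw [Pi.sub_apply, Pi.smul_apply, smul_eq_mul]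
        rcases Nat.lt_or_ge (i : ℕ) (n - (d + 1)) with h2 | h2
        · rw [hx i (by omega), hw i h2, mul_zero, sub_zero]
        · have h3 : i = ⟨n - (d + 1), hk⟩ := Fin.ext (by simp; omega)
          rw [h3]
          field_simp
          ring
      have h2 := C.add_mem h1 (C.smul_mem (x ⟨n - (d + 1), hk⟩ / w ⟨n - (d + 1), hk⟩) hwC)
      rwa [sub_add_cancel] at h2
  rw [eq_top_iff]
  intro x _
  exact key n le_rfl x (fun i hi => by omega)

end tri

section cen

variable {ι : Type*} [Fintype ι] [DecidableEq ι] {F : Type*} [Field F]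

/-- The centres `x` such that all `T(x, s ψ)` lie in `G`. -/
def CenSub (G : Subgroup (Matrix.SpecialLinearGroup ι F)) (ψ : ι → F) :
    Submodule F (ι → F) where
  carrier := {x | ∀ s : F, TvIn G x (s • ψ)}
  add_mem' := fun h1 h2 s => (h1 s).add_centre (h2 s)
  zero_mem' := fun s => tvIn_zero_left G _
  smul_mem' := fun c x h s => by
    show TvIn G (c • x) (s • ψ)
    rw [tvIn_smul_comm, smul_smul]
    exact h _

theorem mem_CenSub {G : Subgroup (Matrix.SpecialLinearGroup ι F)} {ψ x : ι → F} :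
    x ∈ CenSub G ψ ↔ ∀ s : F, TvIn G x (s • ψ) := Iff.rfl

/-- If the centres together with a vector `ζ` with `ψ(ζ) ≠ 0` span, then `ψ` is a full axis. -/
theorem mem_Ax_of_CenSub {G : Subgroup (Matrix.SpecialLinearGroup ι F)} {ψ ζ : ι → F}
    (hζ : ψ ⬝ᵥ ζ ≠ 0) (h : CenSub G ψ ⊔ Submodule.span F {ζ} = ⊤) : ψ ∈ Ax G := by
  rw [mem_Ax]
  intro w hw
  have hw' : w ∈ CenSub G ψ ⊔ Submodule.span F {ζ} := by rw [h]; trivial
  obtain ⟨x, hx, z, hz, rfl⟩ := Submodule.mem_sup.mp hw'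
  obtain ⟨c, rfl⟩ := Submodule.mem_span_singleton.mp hz
  have h1 := (hx 1).dot
  rw [one_smul] at h1
  rw [dotProduct_add, h1, zero_add, dotProduct_smul, smul_eq_mul] at hw
  have hc : c = 0 := by
    rcases mul_eq_zero.mp hw with h2 | h2
    · exact h2
    · exact absurd h2 hζ
  rw [hc, zero_smul, add_zero]
  have h2 := hx 1
  rwa [one_smul] at h2

end cen

section conc

variable {F : Type*} [Field F] {N : ℕ}

theorem zkU_low (m : ℕ) : ∀ i : Fin (N + 2), (i : ℕ) + m + 1 < N + 2 →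
    zk (Um (N + 2) F) (bv (N + 1)) m i = 0 := by
  induction m with
  | zero =>
    intro i hi
    rw [zk_zero, bv_apply, if_neg (by omega)]
  | succ m ih =>
    intro i hi
    rw [← mulVec_zk, Um_mulVec, Pi.add_apply, Nm_mulVec, dif_pos (by omega), ih i (by omega),
      ih _ (by simp; omega), add_zero]

theorem zkU_diag (m : ℕ) : ∀ i : Fin (N + 2), (i : ℕ) + m + 1 = N + 2 →
    zk (Um (N + 2) F) (bv (N + 1)) m i = 1 := by
  induction m with
  | zero =>
    intro i hi
    rw [zk_zero, bv_apply, if_pos (by omega)]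
  | succ m ih =>
    intro i hi
    rw [← mulVec_zk, Um_mulVec, Pi.add_apply, Nm_mulVec, dif_pos (by omega),
      zkU_low m i (by omega), ih _ (by simp; omega), zero_add]

theorem alt_dot_zk_succ (m : ℕ) :
    (alt : Fin (N + 2) → F) ⬝ᵥ zk (Um (N + 2) F) (bv (N + 1)) (m + 1) =
      zk (Um (N + 2) F) (bv (N + 1)) m ⟨0, by omega⟩ := by
  rw [← mulVec_zk, dotProduct_mulVec, alt_vecMul_Um, bv_dot 0 (by omega)]

theorem psi_dot_zk_succ (κ ν : F) (m : ℕ) :
    (κ • (alt : Fin (N + 2) → F) + ν • bv 0) ⬝ᵥ zk (Um (N + 2) F) (bv (N + 1)) (m + 1) =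
      κ * zk (Um (N + 2) F) (bv (N + 1)) m ⟨0, by omega⟩ +
        ν * zk (Um (N + 2) F) (bv (N + 1)) (m + 1) ⟨0, by omega⟩ := by
  rw [add_dotProduct, smul_dotProduct, smul_dotProduct, alt_dot_zk_succ, bv_dot 0 (by omega),
    smul_eq_mul, smul_eq_mul]

theorem psi_dot_zeta (κ ν : F) :
    (κ • (alt : Fin (N + 2) → F) + ν • bv 0) ⬝ᵥ (bv (N + 1) : Fin (N + 2) → F) =
      κ * (-1) ^ (N + 1) := by
  rw [add_dotProduct, smul_dotProduct, smul_dotProduct, bv_dot_ne 0 (N + 1) (by omega),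
    dot_bv (N + 1) (by omega), smul_zero, add_zero, smul_eq_mul]
  rfl

theorem neg_one_pow_mul_self (k : ℕ) : ((-1 : F) ^ k) * ((-1) ^ k) = 1 := by
  rw [← mul_pow]
  simp

theorem vecMul_Nm_pow_low {n : ℕ} (w : Fin n → F) (k : ℕ) (j : Fin n) (h : (j : ℕ) < k) :
    (w ᵥ* (Nm n F) ^ k) j = 0 := by
  rw [Nm_pow]
  show ∑ i, w i * (Matrix.of fun i j : Fin n => if (j : ℕ) = (i : ℕ) + k then (1 : F) else 0) i j
    = 0
  apply Finset.sum_eq_zero
  intro i _
  rw [Matrix.of_apply, if_neg (by omega), mul_zero]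

theorem vecMul_Nm_pow_diag {n : ℕ} (w : Fin n → F) (k : ℕ) (hk : k < n) :
    (w ᵥ* (Nm n F) ^ k) ⟨k, hk⟩ = w ⟨0, by omega⟩ := by
  rw [Nm_pow]
  show ∑ i, w i * (Matrix.of fun i j : Fin n => if (j : ℕ) = (i : ℕ) + k then (1 : F) else 0) i
    ⟨k, hk⟩ = _
  rw [Finset.sum_eq_single ⟨0, by omega⟩]
  · rw [Matrix.of_apply, if_pos (by simp), mul_one]
  · intro b _ hb
    have hb' : (b : ℕ) ≠ 0 := fun h => hb (Fin.ext h)
    rw [Matrix.of_apply, if_neg (by simp; omega), mul_zero]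
  · intro h
    exact absurd (Finset.mem_univ _) h

theorem conj_sub_one_pow {n : ℕ} {g gi M : Matrix (Fin n) (Fin n) F} (h1 : g * gi = 1)
    (h2 : gi * g = 1) (k : ℕ) : (g * M * gi - 1) ^ k = g * (M - 1) ^ k * gi := by
  have e : g * M * gi - 1 = g * (M - 1) * gi := by
    rw [Matrix.mul_sub, Matrix.sub_mul, Matrix.mul_one, h1]
  rw [e]
  induction k with
  | zero => rw [pow_zero, pow_zero, Matrix.mul_one, h1]
  | succ k ih =>
    rw [pow_succ, ih, pow_succ]
    simp only [Matrix.mul_assoc]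
    rw [← Matrix.mul_assoc gi g, h2, Matrix.one_mul]

theorem conj_regular {n : ℕ} {g gi M : Matrix (Fin n) (Fin n) F} (h1 : g * gi = 1)
    (h2 : gi * g = 1) (hM : IsNilpotent (M - 1)) (hM' : (M - 1) ^ (n - 1) ≠ 0) :
    IsNilpotent (g * M * gi - 1) ∧ (g * M * gi - 1) ^ (n - 1) ≠ 0 := by
  constructor
  · obtain ⟨k, hk⟩ := hM
    exact ⟨k, by rw [conj_sub_one_pow h1 h2, hk, Matrix.mul_zero, Matrix.zero_mul]⟩
  · intro h
    rw [conj_sub_one_pow h1 h2] at h
    apply hM'
    have e : (M - 1) ^ (n - 1) = gi * (g * (M - 1) ^ (n - 1) * gi) * g := by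
      simp only [Matrix.mul_assoc]
      rw [h2, Matrix.mul_one, ← Matrix.mul_assoc, h2, Matrix.one_mul]
    rw [e, h, Matrix.mul_zero, Matrix.zero_mul]

theorem refl_mul_inv {ι : Type*} [Fintype ι] [DecidableEq ι] (ζ ψ : ι → F) (δ : F) (hδ : δ ≠ 0)
    (h : ψ ⬝ᵥ ζ = δ - 1) :
    (1 + vecMulVec ζ ψ) * (1 + vecMulVec ζ ((-δ⁻¹) • ψ)) = 1 := by
  rw [Matrix.mul_add, Matrix.mul_one, Matrix.add_mul, Matrix.one_mul, vecMulVec_mul_vecMulVec, h]
  simp only [vecMulVec_smul, smul_smul]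
  have e : (δ - 1) * (-δ⁻¹) = -1 + δ⁻¹ := by
    field_simp
    ring
  rw [e]
  module

/-- `κ = (δ - 1) (-1)^(n-1)`. -/
def kap (N : ℕ) (δ : F) : F := (δ - 1) * (-1) ^ (N + 1)

/-- The functional `ψ = κ (1,-1,1,…) + ν e₁ᵀ`. -/
def psiV (N : ℕ) (δ ν : F) : Fin (N + 2) → F := kap N δ • alt + ν • bv 0

theorem psiV_dot_zeta (N : ℕ) (δ ν : F) :
    psiV N δ ν ⬝ᵥ (bv (N + 1) : Fin (N + 2) → F) = δ - 1 := by
  unfold psiV
  rw [psi_dot_zeta, kap, mul_assoc, neg_one_pow_mul_self, mul_one]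

/-- The second generator `v = g u g⁻¹`, `g = 1 + ζ ψᵀ`. -/
def vS (N : ℕ) (δ ν : F) (hδ : δ ≠ 0) : Matrix.SpecialLinearGroup (Fin (N + 2)) F :=
  ⟨(1 + vecMulVec (bv (N + 1)) (psiV N δ ν)) * Um (N + 2) F *
      (1 + vecMulVec (bv (N + 1)) ((-δ⁻¹) • psiV N δ ν)), by
    rw [det_mul, det_mul, det_Um, mul_one, ← det_mul,
      refl_mul_inv _ _ δ hδ (psiV_dot_zeta N δ ν), det_one]⟩

theorem al_psiV (N : ℕ) (δ ν : F) :
    al (US (N + 2) F) (bv (N + 1)) (psiV N δ ν) =
      kap N δ * al (US (N + 2) F) (bv (N + 1)) (alt : Fin (N + 2) → F) + ν * (-1) ^ (N + 1) := by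
  have e : (bv 0 : Fin (N + 2) → F) ᵥ*
      (↑((US (N + 2) F)⁻¹) : Matrix (Fin (N + 2)) (Fin (N + 2)) F) = alt := by
    rw [← alt_vecMul_Um, vecMul_vecMul, ← US_coe, sl_mul_inv', vecMul_one]
  unfold al psiV
  rw [pk_one, pk_one, add_vecMul, smul_vecMul, smul_vecMul, add_dotProduct, smul_dotProduct,
    smul_dotProduct, smul_eq_mul, smul_eq_mul, e, dot_bv (N + 1) (by omega),
    dot_bv (N + 1) (by omega)]
  rfl

theorem psiV_zero (N : ℕ) (δ ν : F) : psiV N δ ν ⟨0, by omega⟩ = kap N δ + ν := by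
  show kap N δ * (-1) ^ (0 : ℕ) + ν * (if (0 : ℕ) = 0 then 1 else 0) = kap N δ + ν
  rw [pow_zero, mul_one, if_pos rfl, mul_one]

theorem closure_eq_top (hN : 2 ≤ N) (δ ν : F) (hδ0 : δ ≠ 0) (hδ1 : δ ≠ 1)
    (hgen : ∀ x : F, x ≠ 0 → ∃ k : ℕ, δ ^ k = x) (h3 : δ ^ 3 ≠ 1 ∨ (2 : F) = 0)
    (hν : ν ≠ 0) (hκν : kap N δ + ν ≠ 0)
    (hα : al (US (N + 2) F) (bv (N + 1)) (psiV N δ ν) ≠ 0) :
    Subgroup.closure ({US (N + 2) F, vS N δ ν hδ0} :
      Set (Matrix.SpecialLinearGroup (Fin (N + 2)) F)) = ⊤ := by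
  have hκ0 : kap N δ ≠ 0 := by
    unfold kap
    exact mul_ne_zero (sub_ne_zero.mpr hδ1) (pow_ne_zero _ (neg_ne_zero.mpr one_ne_zero))
  generalize hG : Subgroup.closure ({US (N + 2) F, vS N δ ν hδ0} :
      Set (Matrix.SpecialLinearGroup (Fin (N + 2)) F)) = G
  have S : Setup G (US (N + 2) F) (vS N δ ν hδ0) (bv (N + 1)) (psiV N δ ν) δ N :=
    { ha := by
        rw [← hG]
        exact Subgroup.subset_closure (by simp)
      hv := by
        rw [← hG]
        exact Subgroup.subset_closure (by simp)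
      hδ0 := hδ0
      hδ1 := hδ1
      hv_coe := rfl
      hN := hN
      c0 := psiV_dot_zeta N δ ν
      cm := by
        intro m h1 h2
        obtain ⟨m', rfl⟩ : ∃ m', m = m' + 1 := ⟨m - 1, by omega⟩
        rw [US_coe]
        unfold psiV
        rw [psi_dot_zk_succ, zkU_low m' _ (by simp; omega), zkU_low (m' + 1) _ (by simp; omega),
          mul_zero, mul_zero, add_zero]
      hν := by
        rw [US_coe]
        unfold psiV
        rw [psi_dot_zk_succ, zkU_low N _ (by simp), zkU_diag (N + 1) _ (by simp), mul_zero,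
          zero_add, mul_one]
        exact hν
      hα := hα
      hgen := hgen
      h3 := h3 }
  have hψAx : psiV N δ ν ∈ Ax G := by
    apply mem_Ax_of_CenSub (ζ := bv (N + 1))
    · rw [psiV_dot_zeta]
      exact sub_ne_zero.mpr hδ1
    · apply tri_top
      intro k hk
      rcases Nat.eq_zero_or_pos k with h0 | h0
      · subst h0
        refine ⟨_, Submodule.mem_sup_left (mem_CenSub.mpr S.Ry), ?_,
          fun i hi => absurd hi (Nat.not_lt_zero _)⟩
        rw [Pi.sub_apply, Pi.smul_apply, Pi.smul_apply, US_coe]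
        unfold psiV
        rw [psi_dot_zk_succ, psi_dot_zk_succ, zkU_low N _ (by simp),
          zkU_diag (N + 1) _ (by simp)]
        simp only [smul_eq_mul]
        intro h
        apply hκ0
        linear_combination h
      · by_cases hkN : k = N + 1
        · subst hkN
          refine ⟨bv (N + 1), Submodule.mem_sup_right (Submodule.mem_span_singleton_self _),
            ?_, ?_⟩
          · rw [bv_apply, if_pos rfl]
            exact one_ne_zero
          · intro i hi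
            rw [bv_apply, if_neg (by omega)]
        · refine ⟨zk (↑(US (N + 2) F) : Matrix (Fin (N + 2)) (Fin (N + 2)) F) (bv (N + 1))
            (N + 1 - k),
            Submodule.mem_sup_left (mem_CenSub.mpr (S.R (N + 1 - k) (by omega) (by omega))),
            ?_, ?_⟩
          · rw [US_coe, zkU_diag _ _ (by simp; omega)]
            exact one_ne_zero
          · intro i hi
            rw [US_coe, zkU_low _ _ (by omega)]
  have hNmAx : ∀ k : ℕ, psiV N δ ν ᵥ* (Nm (N + 2) F) ^ k ∈ Ax G := by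
    intro k
    induction k with
    | zero =>
      rw [pow_zero, vecMul_one]
      exact hψAx
    | succ k ih =>
      have h1 := Ax_vecMul S.ha ih
      rw [US_coe, vecMul_Um] at h1
      have h2 := (Ax G).sub_mem h1 ih
      rw [add_sub_cancel_left, vecMul_vecMul, ← pow_succ] at h2
      exact h2
  apply eq_top_of_Ax
  apply tri_top
  intro k hk
  refine ⟨_, hNmAx k, ?_, ?_⟩
  · rw [vecMul_Nm_pow_diag, psiV_zero]
    exact hκν
  · intro i hi
    exact vecMul_Nm_pow_low _ _ _ hi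

end conc

/-- Two regular unipotent elements generating `SL_n(F)`, for `n ≥ 4` and `|F| ≥ 4`. -/
theorem two_regular_unipotents {F : Type*} [Field F] [Fintype F] (n : ℕ) (hn : 4 ≤ n)
    (hq : 4 ≤ Fintype.card F) :
    ∃ u v : Matrix.SpecialLinearGroup (Fin n) F,
      (IsNilpotent ((u : Matrix (Fin n) (Fin n) F) - 1) ∧
        ((u : Matrix (Fin n) (Fin n) F) - 1) ^ (n - 1) ≠ 0) ∧
      (IsNilpotent ((v : Matrix (Fin n) (Fin n) F) - 1) ∧
        ((v : Matrix (Fin n) (Fin n) F) - 1) ^ (n - 1) ≠ 0) ∧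
      Subgroup.closure ({u, v} : Set _) = ⊤ := by
  obtain ⟨N, rfl⟩ : ∃ N, n = N + 2 := ⟨n - 2, by omega⟩
  have hN : 2 ≤ N := by omega
  classical
  obtain ⟨g, hg⟩ := IsCyclic.exists_monoid_generator (α := Fˣ)
  have hgen : ∀ x : F, x ≠ 0 → ∃ k : ℕ, (g : F) ^ k = x := by
    intro x hx
    obtain ⟨k, hk⟩ := (Submonoid.mem_powers_iff _ _).mp (hg (Units.mk0 x hx))
    exact ⟨k, by rw [← Units.val_pow_eq_pow_val, hk]; rfl⟩
  have hδ0 : (g : F) ≠ 0 := g.ne_zero
  have hδ1 : (g : F) ≠ 1 := by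
    intro h1
    have hall : ∀ x : F, x = 0 ∨ x = 1 := by
      intro x
      by_cases hx : x = 0
      · exact Or.inl hx
      · obtain ⟨k, hk⟩ := hgen x hx
        rw [h1, one_pow] at hk
        exact Or.inr hk.symm
    have hsub : (Finset.univ : Finset F) ⊆ {0, 1} := by
      intro x _
      rcases hall x with h | h <;> simp [h]
    have h4 := Finset.card_le_card hsub
    have h5 : ({0, 1} : Finset F).card ≤ 2 := Finset.card_le_two
    rw [Finset.card_univ] at h4
    omega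
  have h3 : (g : F) ^ 3 ≠ 1 ∨ (2 : F) = 0 := by
    by_cases h : (g : F) ^ 3 = 1
    · right
      have hall : ∀ x : F, x = 0 ∨ x = 1 ∨ x = (g : F) ∨ x = (g : F) ^ 2 := by
        intro x
        by_cases hx : x = 0
        · exact Or.inl hx
        · obtain ⟨k, hk⟩ := hgen x hx
          rw [pow_eq_pow_mod k h] at hk
          have hk3 : k % 3 < 3 := Nat.mod_lt _ (by norm_num)
          interval_cases (k % 3)
          · right; left
            rw [← hk, pow_zero]
          · right; right; left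
            rw [← hk, pow_one]
          · right; right; right
            rw [← hk]
      have hsub : (Finset.univ : Finset F) ⊆ {0, 1, (g : F), (g : F) ^ 2} := by
        intro x _
        rcases hall x with h | h | h | h <;> simp [h]
      have h4 := Finset.card_le_card hsub
      have h5 : ({0, 1, (g : F), (g : F) ^ 2} : Finset F).card ≤ 4 := Finset.card_le_four
      rw [Finset.card_univ] at h4
      have h6 : Fintype.card F = 4 := by omega
      have h7 : ((Fintype.card F : ℕ) : F) = 0 := Nat.cast_card_eq_zero F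
      rw [h6] at h7
      have h8 : (2 : F) * 2 = 0 := by
        rw [← h7]
        norm_num
      exact mul_self_eq_zero.mp h8
    · exact Or.inl h
  obtain ⟨ν, hν⟩ : ∃ ν : F, ν ∉ ({0, -kap N (g : F),
      -(kap N (g : F) * al (US (N + 2) F) (bv (N + 1)) (alt : Fin (N + 2) → F) *
        (-1) ^ (N + 1))} : Finset F) := by
    by_contra hne
    push Not at hne
    have hsub : (Finset.univ : Finset F) ⊆ {0, -kap N (g : F),
      -(kap N (g : F) * al (US (N + 2) F) (bv (N + 1)) (alt : Fin (N + 2) → F) *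
        (-1) ^ (N + 1))} := fun x _ => hne x
    have h4 := Finset.card_le_card hsub
    have h5 := Finset.card_le_three (a := (0 : F)) (b := -kap N (g : F))
      (c := -(kap N (g : F) * al (US (N + 2) F) (bv (N + 1)) (alt : Fin (N + 2) → F) *
        (-1) ^ (N + 1)))
    rw [Finset.card_univ] at h4
    omega
  simp only [Finset.mem_insert, Finset.mem_singleton, not_or] at hν
  obtain ⟨hν0, hν1, hν2⟩ := hν
  have hκν : kap N (g : F) + ν ≠ 0 := fun h => hν1 (by linear_combination h)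
  have hα : al (US (N + 2) F) (bv (N + 1)) (psiV N (g : F) ν) ≠ 0 := by
    rw [al_psiV]
    intro h
    apply hν2
    have hY := neg_one_pow_mul_self (F := F) (N + 1)
    linear_combination (-1) ^ (N + 1) * h - ν * hY
  refine ⟨US (N + 2) F, vS N (g : F) ν hδ0, ⟨?_, ?_⟩, ?_,
    closure_eq_top hN (g : F) ν hδ0 hδ1 hgen h3 hν0 hκν hα⟩
  · rw [US_coe]
    exact isNilpotent_Um_sub_one
  · rw [US_coe]
    exact Um_sub_one_pow_ne_zero (by omega)
  · exact conj_regular (refl_mul_inv _ _ (g : F) hδ0 (psiV_dot_zeta N (g : F) ν))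
      (mul_eq_one_comm.mp (refl_mul_inv _ _ (g : F) hδ0 (psiV_dot_zeta N (g : F) ν)))
      isNilpotent_Um_sub_one (Um_sub_one_pow_ne_zero (by omega))

end Cfsg.Agent.Lib.Helper8.RegUnipPR
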