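import Mathlib
import Cfsg.Agent.Lib.Helper8.RegUnipPR2

set_option autoImplicit false

namespace Cfsg.Agent.Lib.Helper8.RegUnipPR

open Matrix Cfsg.Agent.Lib.Helper65.RegUnip

section three1

variable {F : Type*} [Field F]

/-- The Gram matrix in the transvection case. -/
def W0 (al ga : F) : Matrix (Fin 3) (Fin 3) F := !![0, 0, 0; al, 0, 0; ga, al, 0]

/-- The circle operation `M ∘ M' = M + M' + M W M'`. -/
def op3 (W M M' : Matrix (Fin 3) (Fin 3) F) : Matrix (Fin 3) (Fin 3) F := M + M' + M * W * M'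

def MP : Matrix (Fin 3) (Fin 3) F := !![1, 0, 0; 0, -1, 0; 0, 0, 0]

def MPi (al : F) : Matrix (Fin 3) (Fin 3) F := !![-1, 0, 0; -al, 1, 0; 0, 0, 0]

def MQ : Matrix (Fin 3) (Fin 3) F := !![0, 0, 0; 0, 1, 0; 0, 0, -1]

def MQi (al : F) : Matrix (Fin 3) (Fin 3) F := !![0, 0, 0; 0, -1, 0; 0, -al, 1]

def MY (al ga : F) : Matrix (Fin 3) (Fin 3) F := !![0, 0, 0; -al, 0, 0; ga + al ^ 2, -al, 0]

theorem op_P_Pi (al ga : F) : op3 (W0 al ga) MP (MPi al) = 0 := by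
  ext i j
  fin_cases i <;> fin_cases j <;>
    simp [op3, W0, MP, MPi, Matrix.mul_apply, Fin.sum_univ_three]

theorem op_Q_Qi (al ga : F) : op3 (W0 al ga) MQ (MQi al) = 0 := by
  ext i j
  fin_cases i <;> fin_cases j <;>
    simp [op3, W0, MQ, MQi, Matrix.mul_apply, Fin.sum_univ_three]

theorem op_P_Q (al ga : F) : op3 (W0 al ga) MP MQ = !![1, 0, 0; 0, 0, 0; 0, 0, -1] := by
  ext i j
  fin_cases i <;> fin_cases j <;>
    simp [op3, W0, MP, MQ, Matrix.mul_apply, Fin.sum_univ_three]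

theorem op_PQ_Pi (al ga : F) :
    op3 (W0 al ga) !![1, 0, 0; 0, 0, 0; 0, 0, -1] (MPi al) =
      !![0, 0, 0; -al, 1, 0; ga + al ^ 2, -al, -1] := by
  ext i j
  fin_cases i <;> fin_cases j <;>
    simp [op3, W0, MPi, Matrix.mul_apply, Fin.sum_univ_three] <;> ring

theorem op_PQPi_Qi (al ga : F) :
    op3 (W0 al ga) !![0, 0, 0; -al, 1, 0; ga + al ^ 2, -al, -1] (MQi al) = MY al ga := by
  ext i j
  fin_cases i <;> fin_cases j <;>
    simp [op3, W0, MQi, MY, Matrix.mul_apply, Fin.sum_univ_three]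

theorem op_Y_neg (al ga : F) : op3 (W0 al ga) (MY al ga) (-MY al ga) = 0 := by
  ext i j
  fin_cases i <;> fin_cases j <;>
    simp [op3, W0, MY, Matrix.mul_apply, Fin.sum_univ_three]

theorem op_Y_P (al ga : F) :
    op3 (W0 al ga) (MY al ga) MP = !![1, 0, 0; -al, -1, 0; ga, -al, 0] := by
  ext i j
  fin_cases i <;> fin_cases j <;>
    simp [op3, W0, MY, MP, Matrix.mul_apply, Fin.sum_univ_three] <;> ring

theorem op_YP_Yi (al ga : F) :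
    op3 (W0 al ga) !![1, 0, 0; -al, -1, 0; ga, -al, 0] (-MY al ga) =
      !![1, 0, 0; 0, -1, 0; -al ^ 2, 0, 0] := by
  ext i j
  fin_cases i <;> fin_cases j <;>
    simp [op3, W0, MY, Matrix.mul_apply, Fin.sum_univ_three]

theorem op_YPYi_Pi (al ga : F) :
    op3 (W0 al ga) !![1, 0, 0; 0, -1, 0; -al ^ 2, 0, 0] (MPi al) =
      Matrix.single (2 : Fin 3) (0 : Fin 3) (-al ^ 2) := by
  ext i j
  fin_cases i <;> fin_cases j <;>
    simp [op3, W0, MPi, Matrix.mul_apply, Fin.sum_univ_three, Matrix.single_apply]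

theorem MP_eq : (MP : Matrix (Fin 3) (Fin 3) F) =
    Matrix.single (0 : Fin 3) (0 : Fin 3) 1 + Matrix.single (1 : Fin 3) (1 : Fin 3) (-1) := by
  ext i j
  fin_cases i <;> fin_cases j <;> simp [MP, Matrix.single_apply]

theorem MQ_eq : (MQ : Matrix (Fin 3) (Fin 3) F) =
    Matrix.single (1 : Fin 3) (1 : Fin 3) 1 + Matrix.single (2 : Fin 3) (2 : Fin 3) (-1) := by
  ext i j
  fin_cases i <;> fin_cases j <;> simp [MQ, Matrix.single_apply]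

end three1

section inm

variable {ι : Type*} [Fintype ι] [DecidableEq ι] {F : Type*} [Field F]

/-- `1 + Z M W` lies in `G`. -/
def InM (G : Subgroup (Matrix.SpecialLinearGroup ι F)) (Z : Matrix ι (Fin 3) F)
    (W : Matrix (Fin 3) ι F) (M : Matrix (Fin 3) (Fin 3) F) : Prop :=
  ∃ t ∈ G, (↑t : Matrix ι ι F) = 1 + Z * M * W

theorem one_add_mul_one_add (Z : Matrix ι (Fin 3) F) (W : Matrix (Fin 3) ι F)
    (M M' : Matrix (Fin 3) (Fin 3) F) :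
    (1 + Z * M * W) * (1 + Z * M' * W) = 1 + Z * op3 (W * Z) M M' * W := by
  simp only [op3, Matrix.mul_add, Matrix.add_mul, Matrix.mul_one, Matrix.one_mul, Matrix.mul_assoc]
  abel

theorem InM.mul {G : Subgroup (Matrix.SpecialLinearGroup ι F)} {Z : Matrix ι (Fin 3) F}
    {W : Matrix (Fin 3) ι F} {W₃ M M' : Matrix (Fin 3) (Fin 3) F} (h : W * Z = W₃)
    (hM : InM G Z W M) (hM' : InM G Z W M') : InM G Z W (op3 W₃ M M') := by
  obtain ⟨t, ht, e⟩ := hM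
  obtain ⟨t', ht', e'⟩ := hM'
  exact ⟨t * t', mul_mem ht ht', by
    rw [Matrix.SpecialLinearGroup.coe_mul, e, e', one_add_mul_one_add, h]⟩

theorem InM.inv {G : Subgroup (Matrix.SpecialLinearGroup ι F)} {Z : Matrix ι (Fin 3) F}
    {W : Matrix (Fin 3) ι F} {W₃ M M' : Matrix (Fin 3) (Fin 3) F} (h : W * Z = W₃)
    (hop : op3 W₃ M M' = 0) (hM : InM G Z W M) : InM G Z W M' := by
  obtain ⟨t, ht, e⟩ := hM
  refine ⟨t⁻¹, inv_mem ht, ?_⟩
  have h1 : (↑t : Matrix ι ι F) * (1 + Z * M' * W) = 1 := by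
    rw [e, one_add_mul_one_add, h, hop, Matrix.mul_zero, Matrix.zero_mul, add_zero]
  calc (↑(t⁻¹) : Matrix ι ι F) = ↑(t⁻¹) * (↑t * (1 + Z * M' * W)) := by rw [h1, Matrix.mul_one]
    _ = 1 + Z * M' * W := by rw [← Matrix.mul_assoc, sl_inv_mul', Matrix.one_mul]

theorem tv_mul_tv (x y x' y' : ι → F) (h : y ⬝ᵥ x' = 0) :
    (1 + vecMulVec x y) * (1 + vecMulVec x' y') = 1 + (vecMulVec x y + vecMulVec x' y') := by
  rw [Matrix.mul_add, Matrix.mul_one, Matrix.add_mul, Matrix.one_mul, vecMulVec_mul_vecMulVec, h,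
    zero_smul, vecMulVec_zero, add_zero, add_assoc]

end inm

section main1

variable {ι : Type*} [Fintype ι] [DecidableEq ι] {F : Type*} [Field F]

/-- The data of the generation argument in the transvection case:
`v = g a g⁻¹` with `g = 1 + ζ ψᵀ`, `ψ(ζ) = 0`, over a prime field. -/
structure Setup1 (G : Subgroup (Matrix.SpecialLinearGroup ι F))
    (a v : Matrix.SpecialLinearGroup ι F) (ζ ψ : ι → F) (N : ℕ) : Prop where
  ha : a ∈ G
  hv : v ∈ G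
  hv_coe : (↑v : Matrix ι ι F) =
    (1 + vecMulVec ζ ψ) * (↑a : Matrix ι ι F) * (1 + vecMulVec ζ (-ψ))
  hN : 2 ≤ N
  c0 : ψ ⬝ᵥ ζ = 0
  cm : ∀ m, 1 ≤ m → m ≤ N → ψ ⬝ᵥ zk (↑a : Matrix ι ι F) ζ m = 0
  hν : ψ ⬝ᵥ zk (↑a : Matrix ι ι F) ζ (N + 1) ≠ 0
  hα : al a ζ ψ ≠ 0
  hprime : ∀ s x : F, s ≠ 0 → ∃ k : ℕ, (k : F) * s = x

namespace Setup1

variable {G : Subgroup (Matrix.SpecialLinearGroup ι F)}
  {a v : Matrix.SpecialLinearGroup ι F} {ζ ψ : ι → F} {N : ℕ}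

theorem pair (_S : Setup1 G a v ζ ψ N) (j k : ℕ) :
    pk (↑(a⁻¹) : Matrix ι ι F) ψ j ⬝ᵥ zk (↑a : Matrix ι ι F) ζ (j + k) = ψ ⬝ᵥ zk (↑a : Matrix ι ι F) ζ k :=
  pk_dot_zk_add (sl_inv_mul' a) ψ ζ j k

theorem pair_self (S : Setup1 G a v ζ ψ N) (j : ℕ) :
    pk (↑(a⁻¹) : Matrix ι ι F) ψ j ⬝ᵥ zk (↑a : Matrix ι ι F) ζ j = 0 := by
  have h := S.pair j 0
  rw [add_zero, zk_zero, S.c0] at h
  exact h

theorem pair_zero (S : Setup1 G a v ζ ψ N) (j m : ℕ) (h1 : 1 ≤ m) (h2 : m ≤ N) :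
    pk (↑(a⁻¹) : Matrix ι ι F) ψ j ⬝ᵥ zk (↑a : Matrix ι ι F) ζ (j + m) = 0 := by
  rw [S.pair, S.cm m h1 h2]

theorem gram (S : Setup1 G a v ζ ψ N) :
    WM (↑(a⁻¹) : Matrix ι ι F) ψ * ZM (↑a : Matrix ι ι F) ζ = W0 (al a ζ ψ) (ga a ζ ψ) := by
  have hN := S.hN
  have h00 : pk (↑(a⁻¹) : Matrix ι ι F) ψ 0 ⬝ᵥ zk (↑a : Matrix ι ι F) ζ 0 = 0 := S.pair_self 0
  have h11 : pk (↑(a⁻¹) : Matrix ι ι F) ψ 1 ⬝ᵥ zk (↑a : Matrix ι ι F) ζ 1 = 0 := S.pair_self 1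
  have h22 : pk (↑(a⁻¹) : Matrix ι ι F) ψ 2 ⬝ᵥ zk (↑a : Matrix ι ι F) ζ 2 = 0 := S.pair_self 2
  have h01 : pk (↑(a⁻¹) : Matrix ι ι F) ψ 0 ⬝ᵥ zk (↑a : Matrix ι ι F) ζ 1 = 0 := S.pair_zero 0 1 le_rfl (by omega)
  have h02 : pk (↑(a⁻¹) : Matrix ι ι F) ψ 0 ⬝ᵥ zk (↑a : Matrix ι ι F) ζ 2 = 0 := S.pair_zero 0 2 (by omega) (by omega)
  have h12 : pk (↑(a⁻¹) : Matrix ι ι F) ψ 1 ⬝ᵥ zk (↑a : Matrix ι ι F) ζ 2 = 0 := S.pair_zero 1 1 le_rfl (by omega)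
  have h10 : pk (↑(a⁻¹) : Matrix ι ι F) ψ 1 ⬝ᵥ zk (↑a : Matrix ι ι F) ζ 0 = al a ζ ψ := by rw [zk_zero]; rfl
  have h20 : pk (↑(a⁻¹) : Matrix ι ι F) ψ 2 ⬝ᵥ zk (↑a : Matrix ι ι F) ζ 0 = ga a ζ ψ := by rw [zk_zero]; rfl
  have h21 : pk (↑(a⁻¹) : Matrix ι ι F) ψ 2 ⬝ᵥ zk (↑a : Matrix ι ι F) ζ 1 = al a ζ ψ := by
    rw [pk_dot_zk (sl_inv_mul' a), zk_zero]; rfl
  ext j k
  fin_cases j <;> fin_cases k <;>
    simp [-Matrix.SpecialLinearGroup.coe_inv, WM_mul_ZM, W0, h00, h01, h02, h10, h11, h12, h20,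
      h21, h22]

theorem P_coe (S : Setup1 G a v ζ ψ N) :
    (↑(v * a⁻¹) : Matrix ι ι F) =
      (1 + vecMulVec ζ ψ) * (1 + vecMulVec (zk (↑a : Matrix ι ι F) ζ 1) (-pk (↑(a⁻¹) : Matrix ι ι F) ψ 1)) := by
  rw [Matrix.SpecialLinearGroup.coe_mul, S.hv_coe, Matrix.mul_assoc, Matrix.mul_assoc,
    ← Matrix.mul_assoc (↑a : Matrix ι ι F), conj_tv (sl_mul_inv' a), neg_vecMul, ← zk_one, ← pk_one]

theorem Q_coe (S : Setup1 G a v ζ ψ N) :
    (↑(a * (v * a⁻¹) * a⁻¹) : Matrix ι ι F) =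
      (1 + vecMulVec (zk (↑a : Matrix ι ι F) ζ 1) (pk (↑(a⁻¹) : Matrix ι ι F) ψ 1)) *
        (1 + vecMulVec (zk (↑a : Matrix ι ι F) ζ 2) (-pk (↑(a⁻¹) : Matrix ι ι F) ψ 2)) := by
  rw [Matrix.SpecialLinearGroup.coe_mul, Matrix.SpecialLinearGroup.coe_mul, S.P_coe,
    conj_mul (sl_inv_mul' a), conj_tv (sl_mul_inv' a), conj_tv (sl_mul_inv' a), mulVec_zk,
    neg_vecMul, pk_vecMul_inv, ← zk_one, ← pk_one]

theorem InM_P (S : Setup1 G a v ζ ψ N) :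
    InM G (ZM (↑a : Matrix ι ι F) ζ) (WM (↑(a⁻¹) : Matrix ι ι F) ψ) MP := by
  refine ⟨v * a⁻¹, mul_mem S.hv (inv_mem S.ha), ?_⟩
  have e1 : ψ ⬝ᵥ zk (↑a : Matrix ι ι F) ζ 1 = 0 := S.cm 1 le_rfl (by have := S.hN; omega)
  rw [S.P_coe, tv_mul_tv _ _ _ _ e1, MP_eq, Matrix.mul_add, Matrix.add_mul, ZM_single_WM,
    ZM_single_WM]
  simp [-Matrix.SpecialLinearGroup.coe_inv, zk_zero, pk_zero]

theorem InM_Q (S : Setup1 G a v ζ ψ N) :
    InM G (ZM (↑a : Matrix ι ι F) ζ) (WM (↑(a⁻¹) : Matrix ι ι F) ψ) MQ := by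
  refine ⟨a * (v * a⁻¹) * a⁻¹,
    mul_mem (mul_mem S.ha (mul_mem S.hv (inv_mem S.ha))) (inv_mem S.ha), ?_⟩
  have e1 : pk (↑(a⁻¹) : Matrix ι ι F) ψ 1 ⬝ᵥ zk (↑a : Matrix ι ι F) ζ 2 = 0 := S.pair_zero 1 1 le_rfl (by have := S.hN; omega)
  rw [S.Q_coe, tv_mul_tv _ _ _ _ e1, MQ_eq, Matrix.mul_add, Matrix.add_mul, ZM_single_WM,
    ZM_single_WM]
  simp [-Matrix.SpecialLinearGroup.coe_inv]

theorem exists_tv (S : Setup1 G a v ζ ψ N) :
    TvIn G (zk (↑a : Matrix ι ι F) ζ 2) ((-al a ζ ψ ^ 2) • ψ) := by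
  have hg := S.gram
  have hP := S.InM_P
  have hQ := S.InM_Q
  have hPi := InM.inv hg (op_P_Pi _ _) hP
  have hQi := InM.inv hg (op_Q_Qi _ _) hQ
  have hy := InM.mul hg (InM.mul hg (InM.mul hg hP hQ) hPi) hQi
  rw [op_P_Q, op_PQ_Pi, op_PQPi_Qi] at hy
  have hyi := InM.inv hg (op_Y_neg _ _) hy
  have ht := InM.mul hg (InM.mul hg (InM.mul hg hy hP) hyi) hPi
  rw [op_Y_P, op_YP_Yi, op_YPYi_Pi] at ht
  obtain ⟨t, htG, e⟩ := ht
  refine ⟨t, htG, ?_⟩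
  rw [e, ZM_single_WM]
  simp [-Matrix.SpecialLinearGroup.coe_inv, pk_zero]

theorem P_mem (S : Setup1 G a v ζ ψ N) : v * a⁻¹ ∈ G := mul_mem S.hv (inv_mem S.ha)

theorem P_mulVec (S : Setup1 G a v ζ ψ N) (m : ℕ) (h1 : 2 ≤ m) (h2 : m ≤ N) :
    (↑(v * a⁻¹) : Matrix ι ι F) *ᵥ zk (↑a : Matrix ι ι F) ζ m = zk (↑a : Matrix ι ι F) ζ m := by
  have e1 : pk (↑(a⁻¹) : Matrix ι ι F) ψ 1 ⬝ᵥ zk (↑a : Matrix ι ι F) ζ m = 0 := by
    have h := S.pair_zero 1 (m - 1) (by omega) (by omega)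
    rwa [show 1 + (m - 1) = m by omega] at h
  have e2 : ψ ⬝ᵥ zk (↑a : Matrix ι ι F) ζ m = 0 := S.cm m (by omega) h2
  rw [S.P_coe, ← mulVec_mulVec, tvM_mulVec, tvM_mulVec, neg_dotProduct, e1, neg_zero, zero_smul,
    add_zero, e2, zero_smul, add_zero]

theorem pk1_vecMul_P (S : Setup1 G a v ζ ψ N) :
    pk (↑(a⁻¹) : Matrix ι ι F) ψ 1 ᵥ* (↑(v * a⁻¹) : Matrix ι ι F) =
      pk (↑(a⁻¹) : Matrix ι ι F) ψ 1 + (al a ζ ψ) • ψ := by
  have e1 : ψ ⬝ᵥ zk (↑a : Matrix ι ι F) ζ 1 = 0 := S.cm 1 le_rfl (by have := S.hN; omega)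
  have e2 : pk (↑(a⁻¹) : Matrix ι ι F) ψ 1 ⬝ᵥ zk (↑a : Matrix ι ι F) ζ 1 = 0 := S.pair_self 1
  have e3 : pk (↑(a⁻¹) : Matrix ι ι F) ψ 1 ⬝ᵥ ζ = al a ζ ψ := rfl
  rw [S.P_coe, ← vecMul_vecMul, vecMul_tvM, vecMul_tvM, e3, add_dotProduct, smul_dotProduct,
    e1, e2, smul_zero, add_zero, zero_smul, add_zero]

theorem R02 (S : Setup1 G a v ζ ψ N) (s : F) : TvIn G (zk (↑a : Matrix ι ι F) ζ 2) (s • ψ) := by
  have h₁ := S.exists_tv
  have hs₁ : -al a ζ ψ ^ 2 ≠ 0 := neg_ne_zero.mpr (pow_ne_zero 2 S.hα)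
  generalize -al a ζ ψ ^ 2 = s₁ at h₁ hs₁
  have hmul : ∀ k : ℕ, TvIn G (zk (↑a : Matrix ι ι F) ζ 2) (((k : F) * s₁) • ψ) := by
    intro k
    induction k with
    | zero =>
      rw [Nat.cast_zero, zero_mul, zero_smul]
      exact tvIn_zero_right G _
    | succ k ih =>
      have h2 := ih.add_axis h₁
      rw [← add_smul] at h2
      have e : ((k : F) * s₁ + s₁) = ((k + 1 : ℕ) : F) * s₁ := by
        push_cast
        ring
      rwa [e] at h2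
  obtain ⟨k, hk⟩ := S.hprime s₁ s hs₁
  rw [← hk]
  exact hmul k

theorem shift_up (S : Setup1 G a v ζ ψ N) (j k : ℕ) (s : F)
    (h : TvIn G (zk (↑a : Matrix ι ι F) ζ k) (s • pk (↑(a⁻¹) : Matrix ι ι F) ψ j)) :
    TvIn G (zk (↑a : Matrix ι ι F) ζ (k + 1)) (s • pk (↑(a⁻¹) : Matrix ι ι F) ψ (j + 1)) := by
  rw [← mulVec_zk]
  apply TvIn.conj S.ha
  rw [smul_vecMul, pk_vecMul (sl_inv_mul' a)]
  exact h

theorem shift_down (S : Setup1 G a v ζ ψ N) (j k : ℕ) (s : F)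
    (h : TvIn G (zk (↑a : Matrix ι ι F) ζ (k + 1)) (s • pk (↑(a⁻¹) : Matrix ι ι F) ψ (j + 1))) :
    TvIn G (zk (↑a : Matrix ι ι F) ζ k) (s • pk (↑(a⁻¹) : Matrix ι ι F) ψ j) := by
  rw [← mulVec_zk] at h
  have h2 := TvIn.conj_inv S.ha h
  rwa [smul_vecMul, pk_vecMul (sl_inv_mul' a)] at h2

theorem R0_ge2 (S : Setup1 G a v ζ ψ N) :
    ∀ m, 2 ≤ m → m ≤ N → ∀ s : F, TvIn G (zk (↑a : Matrix ι ι F) ζ m) (s • ψ) := by
  intro m h1
  induction m, h1 using Nat.le_induction with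
  | base =>
    intro _ s
    exact S.R02 s
  | succ m hm ih =>
    intro hmN s
    have ih' := ih (by omega)
    have h1 : ∀ s : F, TvIn G (zk (↑a : Matrix ι ι F) ζ (m + 1)) (s • pk (↑(a⁻¹) : Matrix ι ι F) ψ 1) := by
      intro s
      exact S.shift_up 0 m s (by rw [pk_zero]; exact ih' s)
    have h2 : TvIn G ((↑(v * a⁻¹) : Matrix ι ι F) *ᵥ zk (↑a : Matrix ι ι F) ζ (m + 1))
        ((s / al a ζ ψ) • pk (↑(a⁻¹) : Matrix ι ι F) ψ 1) := by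
      rw [S.P_mulVec (m + 1) (by omega) hmN]
      exact h1 _
    have h3 := TvIn.conj_inv S.P_mem h2
    rw [smul_vecMul, S.pk1_vecMul_P, smul_add, smul_smul] at h3
    have h4 := h3.sub_axis (h1 (s / al a ζ ψ))
    rw [add_sub_cancel_left, div_mul_cancel₀ _ S.hα] at h4
    exact h4

theorem R01 (S : Setup1 G a v ζ ψ N) (s : F) : TvIn G (zk (↑a : Matrix ι ι F) ζ 1) (s • ψ) := by
  have hN := S.hN
  have h1 : ∀ s : F, TvIn G (zk (↑a : Matrix ι ι F) ζ (N + 1)) (s • pk (↑(a⁻¹) : Matrix ι ι F) ψ 1) := fun s =>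
    S.shift_up 0 N s (by rw [pk_zero]; exact S.R0_ge2 N hN le_rfl s)
  have h2 : TvIn G (zk (↑a : Matrix ι ι F) ζ 2) ((1 : F) • ψ) := S.R02 1
  have e0 : pk (↑(a⁻¹) : Matrix ι ι F) ψ 1 ⬝ᵥ zk (↑a : Matrix ι ι F) ζ 2 = 0 := S.pair_zero 1 1 le_rfl (by omega)
  have h3 := TvIn.comm (h1 (-s / (ψ ⬝ᵥ zk (↑a : Matrix ι ι F) ζ (N + 1)))) h2
    (by rw [smul_dotProduct, e0, smul_zero])
  rw [one_smul, smul_smul] at h3
  have hν := S.hν
  have e : -(ψ ⬝ᵥ zk (↑a : Matrix ι ι F) ζ (N + 1)) * (-s / (ψ ⬝ᵥ zk (↑a : Matrix ι ι F) ζ (N + 1))) = s := by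
    field_simp
  rw [e] at h3
  have h4 := S.shift_down 0 1 s h3
  rwa [pk_zero] at h4

theorem R00 (S : Setup1 G a v ζ ψ N) (s : F) : TvIn G ζ (s • ψ) := by
  have hN := S.hN
  have h1 : ∀ s : F, TvIn G (zk (↑a : Matrix ι ι F) ζ (N + 1)) (s • pk (↑(a⁻¹) : Matrix ι ι F) ψ 1) := fun s =>
    S.shift_up 0 N s (by rw [pk_zero]; exact S.R0_ge2 N hN le_rfl s)
  have h2 : TvIn G (zk (↑a : Matrix ι ι F) ζ 1) ((1 : F) • ψ) := S.R01 1
  have e0 : pk (↑(a⁻¹) : Matrix ι ι F) ψ 1 ⬝ᵥ zk (↑a : Matrix ι ι F) ζ 1 = 0 := S.pair_self 1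
  have h3 := TvIn.comm (h1 (-s / (ψ ⬝ᵥ zk (↑a : Matrix ι ι F) ζ (N + 1)))) h2
    (by rw [smul_dotProduct, e0, smul_zero])
  rw [one_smul, smul_smul] at h3
  have hν := S.hν
  have e : -(ψ ⬝ᵥ zk (↑a : Matrix ι ι F) ζ (N + 1)) * (-s / (ψ ⬝ᵥ zk (↑a : Matrix ι ι F) ζ (N + 1))) = s := by
    field_simp
  rw [e] at h3
  have h4 := S.shift_down 0 0 s h3
  rwa [pk_zero, zk_zero] at h4

/-- All transvections `T(ζ_m, s ψ)`, `0 ≤ m ≤ N`, lie in `G`. -/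
theorem R (S : Setup1 G a v ζ ψ N) (m : ℕ) (h2 : m ≤ N) (s : F) :
    TvIn G (zk (↑a : Matrix ι ι F) ζ m) (s • ψ) := by
  rcases Nat.lt_or_ge m 2 with h | h
  · rcases Nat.eq_zero_or_pos m with h0 | h0
    · subst h0
      rw [zk_zero]
      exact S.R00 s
    · have hm : m = 1 := by omega
      subst hm
      exact S.R01 s
  · exact S.R0_ge2 m h h2 s

end Setup1

end main1

section conc1

variable {F : Type*} [Field F] {N : ℕ}

theorem bv0_dot_zeta : (bv 0 : Fin (N + 2) → F) ⬝ᵥ bv (N + 1) = 0 := bv_dot_ne _ _ (by omega)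

/-- `g = x_{n1}(1)`. -/
def gT (N : ℕ) (F : Type*) [Field F] : Matrix.SpecialLinearGroup (Fin (N + 2)) F :=
  tvSL (bv (N + 1)) (bv 0) bv0_dot_zeta

theorem al_bv0 :
    al (US (N + 2) F) (bv (N + 1)) (bv 0 : Fin (N + 2) → F) = (-1) ^ (N + 1) := by
  have e : (bv 0 : Fin (N + 2) → F) ᵥ*
      (↑((US (N + 2) F)⁻¹) : Matrix (Fin (N + 2)) (Fin (N + 2)) F) = alt := by
    rw [← alt_vecMul_Um, vecMul_vecMul, ← US_coe, sl_mul_inv', vecMul_one]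
  unfold al
  rw [pk_one, e, dot_bv (N + 1) (by omega)]
  rfl

theorem closure_conj_eq_top (hN : 2 ≤ N)
    (hprime : ∀ s x : F, s ≠ 0 → ∃ k : ℕ, (k : F) * s = x) :
    Subgroup.closure ({US (N + 2) F, gT N F * US (N + 2) F * (gT N F)⁻¹} :
      Set (Matrix.SpecialLinearGroup (Fin (N + 2)) F)) = ⊤ := by
  generalize hG : Subgroup.closure ({US (N + 2) F, gT N F * US (N + 2) F * (gT N F)⁻¹} :
      Set (Matrix.SpecialLinearGroup (Fin (N + 2)) F)) = G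
  have S : Setup1 G (US (N + 2) F) (gT N F * US (N + 2) F * (gT N F)⁻¹) (bv (N + 1)) (bv 0) N :=
    { ha := by
        rw [← hG]
        exact Subgroup.subset_closure (by simp)
      hv := by
        rw [← hG]
        exact Subgroup.subset_closure (by simp)
      hv_coe := by
        rw [Matrix.SpecialLinearGroup.coe_mul, Matrix.SpecialLinearGroup.coe_mul, gT, tvSL_inv,
          tvSL_coe, tvSL_coe]
      hN := hN
      c0 := bv0_dot_zeta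
      cm := by
        intro m h1 h2
        rw [US_coe, bv_dot 0 (by omega), zkU_low m _ (by simp; omega)]
      hν := by
        rw [US_coe, bv_dot 0 (by omega), zkU_diag (N + 1) _ (by simp)]
        exact one_ne_zero
      hα := by
        rw [al_bv0]
        exact pow_ne_zero _ (neg_ne_zero.mpr one_ne_zero)
      hprime := hprime }
  have hψAx : (bv 0 : Fin (N + 2) → F) ∈ Ax G := by
    apply mem_Ax_of_CenSub (ζ := zk (Um (N + 2) F) (bv (N + 1)) (N + 1))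
    · rw [bv_dot 0 (by omega), zkU_diag (N + 1) _ (by simp)]
      exact one_ne_zero
    · apply tri_top
      intro k hk
      rcases Nat.eq_zero_or_pos k with h0 | h0
      · subst h0
        refine ⟨_, Submodule.mem_sup_right (Submodule.mem_span_singleton_self _), ?_,
          fun i hi => absurd hi (Nat.not_lt_zero _)⟩
        rw [zkU_diag (N + 1) _ (by simp)]
        exact one_ne_zero
      · refine ⟨zk (↑(US (N + 2) F) : Matrix (Fin (N + 2)) (Fin (N + 2)) F) (bv (N + 1))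
          (N + 1 - k),
          Submodule.mem_sup_left (mem_CenSub.mpr (S.R (N + 1 - k) (by omega))), ?_, ?_⟩
        · rw [US_coe, zkU_diag _ _ (by simp; omega)]
          exact one_ne_zero
        · intro i hi
          rw [US_coe, zkU_low _ _ (by omega)]
  have hNmAx : ∀ k : ℕ, (bv 0 : Fin (N + 2) → F) ᵥ* (Nm (N + 2) F) ^ k ∈ Ax G := by
    intro k
    induction k with
    | zero =>
      rw [pow_zero, vecMul_one]
      exact hψAx
    | succ k ih =>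
      have h1 := Ax_vecMul S.ha ih
      rw [US_coe, vecMul_Um] at h1
      have h2 := (Ax G).sub_mem h1 ih
      rw [add_sub_cancel_left, vecMul_vecMul, ← pow_succ] at h2
      exact h2
  apply eq_top_of_Ax
  apply tri_top
  intro k hk
  refine ⟨_, hNmAx k, ?_, ?_⟩
  · rw [vecMul_Nm_pow_diag, bv_apply, if_pos rfl]
    exact one_ne_zero
  · intro i hi
    exact vecMul_Nm_pow_low _ _ _ hi

end conc1

theorem prime_card_gen {F : Type*} [Field F] [Fintype F] (hp : (Fintype.card F).Prime)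
    (s x : F) (hs : s ≠ 0) : ∃ k : ℕ, (k : F) * s = x := by
  haveI : Fact (Fintype.card F).Prime := ⟨hp⟩
  have h1 : x ∈ AddSubmonoid.multiples s :=
    mem_multiples_of_prime_card Nat.card_eq_fintype_card hs
  obtain ⟨k, hk⟩ := (AddSubmonoid.mem_multiples_iff _ _).mp h1
  exact ⟨k, by rw [← hk, nsmul_eq_mul]⟩

/-- Over a prime field, `SL_n` (`n ≥ 4`) is generated by two conjugate regular unipotents. -/
theorem conj_regular_unipotents {F : Type*} [Field F] [Fintype F] (n : ℕ) (hn : 4 ≤ n)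
    (hp : (Fintype.card F).Prime) :
    ∃ u g : Matrix.SpecialLinearGroup (Fin n) F,
      (IsNilpotent ((u : Matrix (Fin n) (Fin n) F) - 1) ∧
        ((u : Matrix (Fin n) (Fin n) F) - 1) ^ (n - 1) ≠ 0) ∧
      Subgroup.closure ({u, g * u * g⁻¹} : Set (Matrix.SpecialLinearGroup (Fin n) F)) = ⊤ := by
  obtain ⟨N, rfl⟩ : ∃ N, n = N + 2 := ⟨n - 2, by omega⟩
  refine ⟨US (N + 2) F, gT N F, ⟨?_, ?_⟩, closure_conj_eq_top (by omega) (prime_card_gen hp)⟩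
  · rw [US_coe]
    exact isNilpotent_Um_sub_one
  · rw [US_coe]
    exact Um_sub_one_pow_ne_zero (by omega)

/-- `SL_n(F)`, `n ≥ 4`, `F` finite, is generated by two regular unipotent elements, which can be
taken conjugate when `|F|` is prime. -/
theorem sl_two_regular_unipotents {F : Type*} [Field F] [Fintype F] (n : ℕ) (hn : 4 ≤ n) :
    (∃ u v : Matrix.SpecialLinearGroup (Fin n) F,
      (IsNilpotent ((u : Matrix (Fin n) (Fin n) F) - 1) ∧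
        ((u : Matrix (Fin n) (Fin n) F) - 1) ^ (n - 1) ≠ 0) ∧
      (IsNilpotent ((v : Matrix (Fin n) (Fin n) F) - 1) ∧
        ((v : Matrix (Fin n) (Fin n) F) - 1) ^ (n - 1) ≠ 0) ∧
      Subgroup.closure ({u, v} : Set (Matrix.SpecialLinearGroup (Fin n) F)) = ⊤) ∧
    ((Fintype.card F).Prime → ∃ u g : Matrix.SpecialLinearGroup (Fin n) F,
      (IsNilpotent ((u : Matrix (Fin n) (Fin n) F) - 1) ∧
        ((u : Matrix (Fin n) (Fin n) F) - 1) ^ (n - 1) ≠ 0) ∧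
      Subgroup.closure ({u, g * u * g⁻¹} : Set (Matrix.SpecialLinearGroup (Fin n) F)) = ⊤) := by
  refine ⟨?_, conj_regular_unipotents n hn⟩
  by_cases hq : 4 ≤ Fintype.card F
  · exact two_regular_unipotents n hn hq
  · have h1 : 1 < Fintype.card F := Fintype.one_lt_card
    have hp : (Fintype.card F).Prime := by
      have h2 : Fintype.card F = 2 ∨ Fintype.card F = 3 := by omega
      rcases h2 with h | h <;> rw [h] <;> norm_num
    obtain ⟨u, g, hu, hgen⟩ := conj_regular_unipotents n hn hp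
    refine ⟨u, g * u * g⁻¹, hu, ?_, hgen⟩
    rw [Matrix.SpecialLinearGroup.coe_mul, Matrix.SpecialLinearGroup.coe_mul]
    exact conj_regular (sl_mul_inv' g) (sl_inv_mul' g) hu.1 hu.2

end Cfsg.Agent.Lib.Helper8.RegUnipPR
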