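import Cfsg.Agent.Lib.Helper8.Sz40
import Cfsg.Agent.Lib.Helper84.Core
import Cfsg.Agent.Lib.Helper79.FSCount
import Cfsg.Agent.Lib.Helper35.Ind
import Cfsg.Agent.Lib.Helper4.CharLinear

set_option autoImplicit false

namespace Cfsg.Agent.Lib.Helper8.Sz

open Cfsg
open scoped ComplexConjugate

/-! ### general character lemmas -/

section General

variable {K : Type*} [Group K] [Finite K]

theorem root_four_cases {μ : ℂ} (h : μ ^ 4 = 1) :
    μ = 1 ∨ μ = Complex.I ∨ μ = -1 ∨ μ = -Complex.I := by
  have h1 : (μ - 1) * ((μ - Complex.I) * ((μ + 1) * (μ + Complex.I))) = 0 := by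
    have hI : Complex.I ^ 2 = -1 := Complex.I_sq
    linear_combination h + (-(μ ^ 2) + 1) * hI
  rcases mul_eq_zero.1 h1 with h | h
  · left; linear_combination h
  rcases mul_eq_zero.1 h with h | h
  · right; left; linear_combination h
  rcases mul_eq_zero.1 h with h | h
  · right; right; left; linear_combination h
  · right; right; right; linear_combination h

/-- the values of a character at an element of order dividing four -/
theorem char_order_four {φ : K → ℂ} (hφ : IsCharacter K φ) (g : K) (hg : g ^ 4 = 1) :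
    ∃ n₀ n₁ n₂ n₃ : ℕ, φ 1 = (n₀ : ℂ) + n₁ + n₂ + n₃ ∧
      φ g = ((n₀ : ℂ) - n₂) + ((n₁ : ℂ) - n₃) * Complex.I ∧
      φ (g * g) = (n₀ : ℂ) - n₁ + n₂ - n₃ := by
  classical
  obtain ⟨n, ρ, rfl⟩ := hφ
  obtain ⟨ι, hι, hd, v, μ, h1, h2, -, -⟩ := Cfsg.Agent.Lib.Helper4.exists_eigenbasis_rep ρ g
  have hμ4 : ∀ i, μ i ^ 4 = 1 := by
    intro i
    obtain ⟨k, hk⟩ := orderOf_dvd_of_pow_eq_one hg
    rw [hk, pow_mul, h2 i, one_pow]
  have hI1 : Complex.I ≠ 1 := by
    intro h
    have := congrArg Complex.re h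
    simp at this
  have hI2 : Complex.I ≠ -1 := by
    intro h
    have := congrArg Complex.im h
    simp at this
  have hI3 : Complex.I ≠ -Complex.I := by
    intro h
    have := congrArg Complex.im h
    simp at this
    norm_num at this
  have h11 : (1 : ℂ) ≠ -1 := by norm_num
  have hg1 : ∀ i, ρ 1 (v i) = (fun _ => (1 : ℂ)) i • v i := by
    intro i
    simp
  have h1I : (1 : ℂ) ≠ -Complex.I := by
    intro h
    exact hI2 (by linear_combination h)
  have hmI : (-1 : ℂ) ≠ -Complex.I := by
    intro h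
    exact hI1 (by linear_combination h)
  have hg2 : ∀ i, ρ (g * g) (v i) = (fun i => μ i * μ i) i • v i := by
    intro i
    rw [map_mul, Module.End.mul_apply, h1, map_smul, h1, smul_smul]
  refine ⟨(Finset.univ.filter (fun i => μ i = 1)).card,
    (Finset.univ.filter (fun i => μ i = Complex.I)).card,
    (Finset.univ.filter (fun i => μ i = -1)).card,
    (Finset.univ.filter (fun i => μ i = -Complex.I)).card, ?_, ?_, ?_⟩
  · rw [Representation.character, Cfsg.Agent.Lib.Helper4.trace_eq_sum_of_eigenbasis v (ρ 1) _ hg1]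
    simp only [Finset.card_filter]
    push_cast
    simp only [← Finset.sum_add_distrib]
    refine Finset.sum_congr rfl fun i _ => ?_
    rcases root_four_cases (hμ4 i) with h | h | h | h <;> rw [h] <;>
      simp [hI1, hI2, hI3, h11, h1I, hmI, hI1.symm, hI2.symm, hI3.symm, h11.symm, h1I.symm, hmI.symm]
  · rw [Representation.character, Cfsg.Agent.Lib.Helper4.trace_eq_sum_of_eigenbasis v (ρ g) _ h1]
    simp only [Finset.card_filter]
    push_cast
    simp only [Finset.sum_mul, ← Finset.sum_sub_distrib, ← Finset.sum_add_distrib]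
    refine Finset.sum_congr rfl fun i _ => ?_
    rcases root_four_cases (hμ4 i) with h | h | h | h <;> rw [h] <;>
      simp [hI1, hI2, hI3, h11, h1I, hmI, hI1.symm, hI2.symm, hI3.symm, h11.symm, h1I.symm, hmI.symm]
  · rw [Representation.character,
      Cfsg.Agent.Lib.Helper4.trace_eq_sum_of_eigenbasis v (ρ (g * g)) _ hg2]
    simp only [Finset.card_filter]
    push_cast
    simp only [← Finset.sum_sub_distrib, ← Finset.sum_add_distrib]
    refine Finset.sum_congr rfl fun i _ => ?_
    rcases root_four_cases (hμ4 i) with h | h | h | h <;> rw [h] <;>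
      simp [hI1, hI2, hI3, h11, h1I, hmI, hI1.symm, hI2.symm, hI3.symm, h11.symm, h1I.symm, hmI.symm]

/-- an irreducible character is multiplicative along central elements -/
theorem irr_central_mul [Fintype K] (χ : IrrCharacter K) (z : K) (hz : ∀ g : K, g * z = z * g)
    (h : K) : χ.1 (z * h) = χ.1 z * χ.1 h / χ.1 1 := by
  classical
  have key := Cfsg.Agent.Lib.Helper84.irr_schur χ (fun g => if g = z then (1 : ℂ) else 0)
    (by
      intro g k
      have : k * g * k⁻¹ = z ↔ g = z := by
        constructor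
        · intro e
          have : g = k⁻¹ * z * k := by rw [← e]; group
          rw [this, mul_assoc, ← hz k, ← mul_assoc, inv_mul_cancel, one_mul]
        · rintro rfl
          rw [hz k, mul_assoc, mul_inv_cancel, mul_one]
      simp only [this]) h
  simpa using key

end General

/-! ### the Frobenius-Schur indicator of a real character of odd degree -/

section FS

variable {G : Type*} [Group G] [Fintype G]

open Cfsg.Agent.Lib.Helper79 in
theorem fsSign_eq_one_of_odd (χ : IrrCharacter G) (hreal : ∀ g : G, ((χ : G → ℂ) g).im = 0)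
    (hodd : Odd (charDegree (χ : G → ℂ))) : fsSign χ = 1 := by
  obtain ⟨n, ρ, hρ, hχ⟩ := χ.2
  haveI := hρ
  have hreal' : ∀ g : G, (ρ.character g).im = 0 := by
    intro g
    rw [hχ]
    exact hreal g
  obtain ⟨hcases, hT⟩ := transpose_eq_fsInd_smul ρ hreal'
  obtain ⟨M, hM0, hM⟩ := exists_invariant_of_real ρ hreal'
  have hu := isUnit_det_of_invariant ρ M hM hM0
  have hn : charDegree (χ : G → ℂ) = n := by
    rw [charDegree, ← hχ, Representation.char_one]
    simp
  rw [hn] at hodd
  have hspec := fsSign_spec χ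
  rw [← hχ] at hspec
  rcases hcases with h | h
  · rw [h] at hspec
    exact_mod_cast hspec.symm
  · exfalso
    have h1 := hT M hM
    rw [h] at h1
    have h2 : M.det = (-1 : ℂ) ^ n * M.det := by
      conv_lhs => rw [← Matrix.det_transpose, h1]
      rw [Matrix.det_smul, Fintype.card_fin]
    rw [hodd.neg_one_pow] at h2
    have h3 : M.det = 0 := by linear_combination h2 / 2
    rw [h3] at hu
    exact not_isUnit_zero hu

end FS

/-! ### arithmetic -/

theorem sq_add_sq_eq_four_pow (k : ℕ) (a b : ℕ) (h : a ^ 2 + b ^ 2 = 4 ^ k) :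
    (a = 2 ^ k ∧ b = 0) ∨ (a = 0 ∧ b = 2 ^ k) := by
  induction k generalizing a b with
  | zero =>
    simp only [pow_zero] at h ⊢
    have ha : a ≤ 1 := by nlinarith
    have hb : b ≤ 1 := by nlinarith
    interval_cases a <;> interval_cases b <;> simp_all
  | succ k ih =>
    have h4 : (a ^ 2 + b ^ 2) % 4 = 0 := by rw [h, pow_succ]; omega
    have ha2 : a % 2 = 0 := by
      rcases Nat.even_or_odd a with ⟨c, rfl⟩ | ⟨c, rfl⟩
      · omega
      · exfalso
        rcases Nat.even_or_odd b with ⟨d, rfl⟩ | ⟨d, rfl⟩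
        · ring_nf at h4; omega
        · ring_nf at h4; omega
    have hb2 : b % 2 = 0 := by
      rcases Nat.even_or_odd b with ⟨d, rfl⟩ | ⟨d, rfl⟩
      · omega
      · exfalso
        obtain ⟨c, rfl⟩ : ∃ c, a = 2 * c := ⟨a / 2, by omega⟩
        ring_nf at h4; omega
    obtain ⟨c, rfl⟩ : ∃ c, a = 2 * c := ⟨a / 2, by omega⟩
    obtain ⟨d, rfl⟩ : ∃ d, b = 2 * d := ⟨b / 2, by omega⟩
    have h' : c ^ 2 + d ^ 2 = 4 ^ k := by
      have e1 : (2 * c) ^ 2 + (2 * d) ^ 2 = 4 * (c ^ 2 + d ^ 2) := by ring
      have e2 : (4 : ℕ) ^ (k + 1) = 4 * 4 ^ k := by ring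
      rw [e1, e2] at h
      exact Nat.eq_of_mul_eq_mul_left (by norm_num) h
    rcases ih c d h' with ⟨h1, h2⟩ | ⟨h1, h2⟩
    · left; exact ⟨by rw [h1, pow_succ]; ring, by rw [h2]⟩
    · right; exact ⟨by rw [h1], by rw [h2, pow_succ]; ring⟩

end Cfsg.Agent.Lib.Helper8.Sz
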