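import Mathlib

set_option autoImplicit false

namespace Cfsg.Agent.Lib.Helper8.Sz

theorem int_sq_eq_one {a : ℤ} (h : a ^ 2 = 1) : a = 1 ∨ a = -1 := by
  have h2 : (a - 1) * (a + 1) = 0 := by linear_combination h
  rcases mul_eq_zero.1 h2 with h | h
  · left; linarith
  · right; linarith

set_option maxHeartbeats 1600000 in
/-- the arithmetic heart of the determination of the character degrees of the Suzuki groups -/
theorem suzuki_arith {ι : Type*} (R : Finset ι) (M : ℤ) (hM : 2 ≤ M) (x s u v δ c ν e t : ι → ℤ)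
    (hx : ∀ i ∈ R, 0 < x i)
    (hdvd : ∀ i ∈ R, x i ∣ (2 * M ^ 2) ^ 2 * ((2 * M ^ 2) ^ 2 + 1) * (2 * M ^ 2 - 1))
    (he : ∀ i ∈ R, 0 ≤ e i) (ht : ∀ i ∈ R, 0 ≤ t i)
    (h1 : ∀ i ∈ R, x i + (2 * M ^ 2 - 1) * s i + (2 * M ^ 2 - 1) * (2 * M ^ 2) * u i = 0)
    (h2 : ∀ i ∈ R, x i + (2 * M ^ 2 - 1) * s i = t i)
    (h3 : ∀ i ∈ R, x i - s i = 2 * M ^ 2 * M * e i)
    (h4 : ∀ i ∈ R, v i = M * δ i)
    (h5 : ∀ i ∈ R, δ i - e i = 2 * c i)
    (hν : ∀ i ∈ R, ν i = 0 ∨ ν i = 1 ∨ ν i = -1)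
    (hνv : ∀ i ∈ R, ν i ≠ 0 → v i = 0)
    (O1 : ∑ i ∈ R, (u i ^ 2 + v i ^ 2) = 3 * M ^ 2)
    (O2 : ∑ i ∈ R, (u i ^ 2 - v i ^ 2) = -M ^ 2)
    (O3 : ∑ i ∈ R, s i * u i = -M ^ 2)
    (O4 : ∑ i ∈ R, s i ^ 2 = (2 * M ^ 2) ^ 2 - M ^ 2)
    (O5 : ∑ i ∈ R, ν i * u i = -M ^ 2) :
    (∀ i ∈ R, x i = (2 * M ^ 2 - 1) * (2 * M ^ 2 + 2 * M + 1) ∨
      x i = (2 * M ^ 2 - 1) * (2 * M ^ 2 - 2 * M + 1) ∨ x i = (2 * M ^ 2 - 1) * M) ∧
    (∃ i ∈ R, x i = (2 * M ^ 2 - 1) * (2 * M ^ 2 + 2 * M + 1)) ∧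
    (∃ i ∈ R, x i = (2 * M ^ 2 - 1) * (2 * M ^ 2 - 2 * M + 1)) ∧
    (∃ i ∈ R, x i = (2 * M ^ 2 - 1) * M) := by
  classical
  have hM0 : 0 < M := by linarith
  have hM2 : 0 < M ^ 2 := by positivity
  have hQ1 : 0 < 2 * M ^ 2 - 1 := by nlinarith
  have Su : ∑ i ∈ R, u i ^ 2 = M ^ 2 := by
    have h : ∑ i ∈ R, (u i ^ 2 + v i ^ 2) + ∑ i ∈ R, (u i ^ 2 - v i ^ 2) =
        2 * ∑ i ∈ R, u i ^ 2 := by
      rw [← Finset.sum_add_distrib, Finset.mul_sum]
      exact Finset.sum_congr rfl (fun i _ => by ring)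
    linarith
  have Sv : ∑ i ∈ R, v i ^ 2 = 2 * M ^ 2 := by
    have h : ∑ i ∈ R, (u i ^ 2 + v i ^ 2) - ∑ i ∈ R, (u i ^ 2 - v i ^ 2) =
        2 * ∑ i ∈ R, v i ^ 2 := by
      rw [← Finset.sum_sub_distrib, Finset.mul_sum]
      exact Finset.sum_congr rfl (fun i _ => by ring)
    linarith
  have hu : ∀ i ∈ R, u i ≤ 0 := by
    intro i hi
    have e1 := h1 i hi
    have e2 := h2 i hi
    have e3 := ht i hi
    by_contra hcon
    push_neg at hcon
    have : 0 < (2 * M ^ 2 - 1) * (2 * M ^ 2) * u i := mul_pos (mul_pos hQ1 (by positivity)) hcon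
    linarith
  have hle : ∀ i ∈ R, -(u i ^ 2) ≤ ν i * u i := by
    intro i hi
    have hu' := hu i hi
    rcases hν i hi with h | h | h <;> rw [h]
    · nlinarith [sq_nonneg (u i)]
    · rcases le_or_gt (u i) (-1) with h' | h'
      · nlinarith
      · have : u i = 0 := by omega
        rw [this]; norm_num
    · nlinarith [sq_nonneg (u i)]
  have hkey : ∀ i ∈ R, -(u i ^ 2) = ν i * u i := by
    have hs : ∑ i ∈ R, -(u i ^ 2) = ∑ i ∈ R, ν i * u i := by
      rw [Finset.sum_neg_distrib, Su, O5]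
    exact (Finset.sum_eq_sum_iff_of_le hle).1 hs
  have hu01 : ∀ i ∈ R, u i = 0 ∨ (u i = -1 ∧ ν i = 1) := by
    intro i hi
    have hk := hkey i hi
    have hu' := hu i hi
    rcases hν i hi with h | h | h <;> rw [h] at hk
    · left
      have : u i ^ 2 = 0 := by linarith
      exact pow_eq_zero_iff (by norm_num) |>.1 this
    · have : u i * (u i + 1) = 0 := by linear_combination -hk
      rcases mul_eq_zero.1 this with h0 | h0
      · left; exact h0
      · right; exact ⟨by linarith, h⟩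
    · have : u i * (u i - 1) = 0 := by linear_combination -hk
      rcases mul_eq_zero.1 this with h0 | h0
      · left; exact h0
      · exfalso; linarith
  have hsf : ∀ i ∈ R, s i = -M * e i - (2 * M ^ 2 - 1) * u i := by
    intro i hi
    have e1 := h1 i hi
    have e3 := h3 i hi
    have : 2 * M ^ 2 * (s i + M * e i + (2 * M ^ 2 - 1) * u i) = 0 := by
      linear_combination e1 - e3
    rcases mul_eq_zero.1 this with h0 | h0
    · exfalso; linarith
    · linarith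
  have hxf : ∀ i ∈ R, x i = (2 * M ^ 2 - 1) * (M * e i - u i) := by
    intro i hi
    have e3 := h3 i hi
    have e4 := hsf i hi
    linear_combination e3 + e4
  obtain ⟨Y, hYdef⟩ : ∃ Y : Finset ι, Y = R.filter (fun i => u i = -1) := ⟨_, rfl⟩
  obtain ⟨W, hWdef⟩ : ∃ W : Finset ι, W = R.filter (fun i => ¬ u i = -1) := ⟨_, rfl⟩
  have hsplit : ∀ f : ι → ℤ, ∑ i ∈ R, f i = ∑ i ∈ Y, f i + ∑ i ∈ W, f i := by
    intro f
    rw [hYdef, hWdef]
    exact (Finset.sum_filter_add_sum_filter_not R _ f).symm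
  have hYmem : ∀ i ∈ Y, i ∈ R ∧ u i = -1 := by
    intro i hi
    rw [hYdef] at hi
    exact Finset.mem_filter.1 hi
  have hWmem : ∀ i ∈ W, i ∈ R ∧ u i = 0 := by
    intro i hi
    rw [hWdef] at hi
    obtain ⟨h1', h2'⟩ := Finset.mem_filter.1 hi
    rcases hu01 i h1' with h | h
    · exact ⟨h1', h⟩
    · exact absurd h.1 h2'
  have hcardY : (Y.card : ℤ) = M ^ 2 := by
    have h := hsplit (fun i => u i ^ 2)
    rw [Su] at h
    have e1 : ∑ i ∈ Y, u i ^ 2 = Y.card := by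
      rw [Finset.sum_congr rfl (fun i hi => by rw [(hYmem i hi).2]; norm_num :
        ∀ i ∈ Y, u i ^ 2 = 1)]
      simp
    have e2 : ∑ i ∈ W, u i ^ 2 = 0 :=
      Finset.sum_eq_zero (fun i hi => by rw [(hWmem i hi).2]; norm_num)
    linarith
  have hYδ : ∀ i ∈ Y, δ i = 0 := by
    intro i hi
    obtain ⟨hiR, hui⟩ := hYmem i hi
    have hν1 : ν i = 1 := by
      rcases hu01 i hiR with h | h
      · rw [h] at hui; norm_num at hui
      · exact h.2
    have hv := hνv i hiR (by rw [hν1]; norm_num)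
    have h4' := h4 i hiR
    rw [hv] at h4'
    rcases mul_eq_zero.1 h4'.symm with h | h
    · exfalso; linarith
    · exact h
  obtain ⟨d, hd⟩ : ∃ d : ι → ℤ, ∀ i, d i = -c i - M := ⟨fun i => -c i - M, fun _ => rfl⟩
  have hYe : ∀ i ∈ Y, e i = 2 * M + 2 * d i := by
    intro i hi
    have h5' := h5 i (hYmem i hi).1
    rw [hYδ i hi] at h5'
    rw [hd i]
    linarith
  have hYs : ∀ i ∈ Y, s i = -1 - 2 * M * d i := by
    intro i hi
    rw [hsf i (hYmem i hi).1, hYe i hi, (hYmem i hi).2]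
    ring
  have hYx : ∀ i ∈ Y, x i = (2 * M ^ 2 - 1) * (2 * M ^ 2 + 2 * M * d i + 1) := by
    intro i hi
    rw [hxf i (hYmem i hi).1, hYe i hi, (hYmem i hi).2]
    ring
  have hWs : ∀ i ∈ W, s i = -M * e i := by
    intro i hi
    rw [hsf i (hWmem i hi).1, (hWmem i hi).2]
    ring
  have hWx : ∀ i ∈ W, x i = (2 * M ^ 2 - 1) * (M * e i) := by
    intro i hi
    rw [hxf i (hWmem i hi).1, (hWmem i hi).2]
    ring
  have SYd : ∑ i ∈ Y, d i = -M := by
    have h := hsplit (fun i => s i * u i)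
    rw [O3] at h
    have e1 : ∑ i ∈ Y, s i * u i = ∑ i ∈ Y, (1 + 2 * M * d i) :=
      Finset.sum_congr rfl (fun i hi => by rw [hYs i hi, (hYmem i hi).2]; ring)
    have e2 : ∑ i ∈ W, s i * u i = 0 :=
      Finset.sum_eq_zero (fun i hi => by rw [(hWmem i hi).2]; ring)
    rw [e1, e2, Finset.sum_add_distrib, ← Finset.mul_sum] at h
    simp only [Finset.sum_const, nsmul_eq_mul, mul_one, add_zero] at h
    rw [hcardY] at h
    have : 2 * M * (∑ i ∈ Y, d i + M) = 0 := by linear_combination -h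
    rcases mul_eq_zero.1 this with h0 | h0
    · exfalso; linarith
    · linarith
  have S4 : 4 * ∑ i ∈ Y, d i ^ 2 + ∑ i ∈ W, e i ^ 2 = 4 * M ^ 2 + 2 := by
    have h := hsplit (fun i => s i ^ 2)
    rw [O4] at h
    have e1 : ∑ i ∈ Y, s i ^ 2 = ∑ i ∈ Y, (1 + 4 * M * d i + 4 * M ^ 2 * d i ^ 2) :=
      Finset.sum_congr rfl (fun i hi => by rw [hYs i hi]; ring)
    have e2 : ∑ i ∈ W, s i ^ 2 = M ^ 2 * ∑ i ∈ W, e i ^ 2 := by
      rw [Finset.mul_sum]
      exact Finset.sum_congr rfl (fun i hi => by rw [hWs i hi]; ring)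
    rw [e1, e2, Finset.sum_add_distrib, Finset.sum_add_distrib, ← Finset.mul_sum,
      ← Finset.mul_sum, SYd] at h
    simp only [Finset.sum_const, nsmul_eq_mul, mul_one] at h
    rw [hcardY] at h
    have : M ^ 2 * (4 * ∑ i ∈ Y, d i ^ 2 + ∑ i ∈ W, e i ^ 2 - (4 * M ^ 2 + 2)) = 0 := by
      linear_combination -h
    rcases mul_eq_zero.1 this with h0 | h0
    · exfalso; linarith
    · linarith
  have SWδ : ∑ i ∈ W, δ i ^ 2 = 2 := by
    have h := hsplit (fun i => v i ^ 2)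
    rw [Sv] at h
    have e1 : ∑ i ∈ Y, v i ^ 2 = 0 :=
      Finset.sum_eq_zero (fun i hi => by rw [h4 i (hYmem i hi).1, hYδ i hi]; ring)
    have e2 : ∑ i ∈ W, v i ^ 2 = M ^ 2 * ∑ i ∈ W, δ i ^ 2 := by
      rw [Finset.mul_sum]
      exact Finset.sum_congr rfl (fun i hi => by rw [h4 i (hWmem i hi).1]; ring)
    rw [e1, e2, zero_add] at h
    have : M ^ 2 * (∑ i ∈ W, δ i ^ 2 - 2) = 0 := by linear_combination -h
    rcases mul_eq_zero.1 this with h0 | h0
    · exfalso; linarith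
    · linarith
  have hd0 : ∀ i ∈ Y, d i ≠ 0 := by
    intro i hi h0
    have hxi := hYx i hi
    rw [h0] at hxi
    have hdv := hdvd i (hYmem i hi).1
    rw [hxi] at hdv
    have e1 : (2 * M ^ 2 - 1) * (2 * M ^ 2 + 2 * M * 0 + 1) =
        (2 * M ^ 2 - 1) * (2 * M ^ 2 + 1) := by ring
    have e2 : (2 * M ^ 2) ^ 2 * ((2 * M ^ 2) ^ 2 + 1) * (2 * M ^ 2 - 1) =
        (2 * M ^ 2 - 1) * ((2 * M ^ 2 + 1) *
          ((2 * M ^ 2) ^ 3 - (2 * M ^ 2) ^ 2 + 2 * (2 * M ^ 2) - 2) + 2) := by ring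
    rw [e1, e2] at hdv
    have h3' := (mul_dvd_mul_iff_left hQ1.ne').1 hdv
    have h4' : (2 * M ^ 2 + 1) ∣ 2 := (dvd_add_right (dvd_mul_right _ _)).1 h3'
    have := Int.le_of_dvd (by norm_num) h4'
    nlinarith
  have hYd2 : ∀ i ∈ Y, (1 : ℤ) ≤ d i ^ 2 := by
    intro i hi
    have := hd0 i hi
    have h' : 0 < d i ^ 2 := by positivity
    linarith
  have SYd2 : M ^ 2 ≤ ∑ i ∈ Y, d i ^ 2 := by
    have h := Finset.sum_le_sum hYd2
    simp only [Finset.sum_const, nsmul_eq_mul, mul_one] at h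
    rw [hcardY] at h
    exact h
  have hWδ : ∀ i ∈ W, δ i = 0 ∨ δ i = 1 ∨ δ i = -1 := by
    intro i hi
    have h1' : δ i ^ 2 ≤ ∑ j ∈ W, δ j ^ 2 :=
      Finset.single_le_sum (f := fun j => δ j ^ 2) (fun j _ => sq_nonneg _) hi
    rw [SWδ] at h1'
    have h2' : δ i ≤ 1 := by nlinarith
    have h3' : -1 ≤ δ i := by nlinarith
    omega
  have hWe : ∀ i ∈ W, δ i ^ 2 ≤ e i ^ 2 := by
    intro i hi
    have h5' := h5 i (hWmem i hi).1
    have he' := he i (hWmem i hi).1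
    rcases hWδ i hi with h | h | h
    · rw [h]; positivity
    · rw [h] at h5' ⊢
      have : 1 ≤ e i := by omega
      nlinarith
    · rw [h] at h5' ⊢
      have : 1 ≤ e i := by omega
      nlinarith
  have SWe : 2 ≤ ∑ i ∈ W, e i ^ 2 := by
    have h := Finset.sum_le_sum hWe
    rw [SWδ] at h
    exact h
  have SYd2' : ∑ i ∈ Y, d i ^ 2 = M ^ 2 := by linarith
  have SWe' : ∑ i ∈ W, e i ^ 2 = 2 := by linarith
  have hYd1 : ∀ i ∈ Y, d i ^ 2 = 1 := by
    have hs : ∑ i ∈ Y, (1 : ℤ) = ∑ i ∈ Y, d i ^ 2 := by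
      rw [SYd2']
      simp [hcardY]
    intro i hi
    exact ((Finset.sum_eq_sum_iff_of_le hYd2).1 hs i hi).symm
  have hWe1 : ∀ i ∈ W, e i ^ 2 = δ i ^ 2 := by
    have hs : ∑ i ∈ W, δ i ^ 2 = ∑ i ∈ W, e i ^ 2 := by rw [SWδ, SWe']
    intro i hi
    exact ((Finset.sum_eq_sum_iff_of_le hWe).1 hs i hi).symm
  have hWe2 : ∀ i ∈ W, e i = 1 := by
    intro i hi
    have hiR := (hWmem i hi).1
    have h1' := hWe1 i hi
    have he' := he i hiR
    have hx' := hx i hiR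
    rw [hWx i hi] at hx'
    have hne : e i ≠ 0 := by
      intro h0
      rw [h0] at hx'
      simp at hx'
    have h2' : e i ^ 2 = 1 := by
      rcases hWδ i hi with h | h | h <;> rw [h] at h1'
      · exfalso
        have h0 : e i = 0 := by simpa using h1'
        exact hne h0
      · simpa using h1'
      · simpa using h1'
    rcases int_sq_eq_one h2' with h | h
    · exact h
    · exfalso; linarith
  refine ⟨?_, ?_, ?_, ?_⟩
  · intro i hi
    by_cases hui : u i = -1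
    · have hiY : i ∈ Y := by
        rw [hYdef]
        exact Finset.mem_filter.2 ⟨hi, hui⟩
      rcases int_sq_eq_one (hYd1 i hiY) with h | h
      · left; rw [hYx i hiY, h]; ring
      · right; left; rw [hYx i hiY, h]; ring
    · have hiW : i ∈ W := by
        rw [hWdef]
        exact Finset.mem_filter.2 ⟨hi, hui⟩
      right; right
      rw [hWx i hiW, hWe2 i hiW]
      ring
  · by_contra hcon
    push_neg at hcon
    have hall : ∀ i ∈ Y, d i = -1 := by
      intro i hi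
      rcases int_sq_eq_one (hYd1 i hi) with h | h
      · exfalso
        exact hcon i (hYmem i hi).1 (by rw [hYx i hi, h]; ring)
      · exact h
    rw [Finset.sum_congr rfl hall] at SYd
    simp only [Finset.sum_const, nsmul_eq_mul] at SYd
    rw [hcardY] at SYd
    nlinarith
  · by_contra hcon
    push_neg at hcon
    have hall : ∀ i ∈ Y, d i = 1 := by
      intro i hi
      rcases int_sq_eq_one (hYd1 i hi) with h | h
      · exact h
      · exfalso
        exact hcon i (hYmem i hi).1 (by rw [hYx i hi, h]; ring)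
    rw [Finset.sum_congr rfl hall] at SYd
    simp only [Finset.sum_const, nsmul_eq_mul] at SYd
    rw [hcardY] at SYd
    nlinarith
  · have hne : W.Nonempty := by
      by_contra hne
      rw [Finset.not_nonempty_iff_eq_empty] at hne
      rw [hne, Finset.sum_empty] at SWδ
      norm_num at SWδ
    obtain ⟨i, hi⟩ := hne
    exact ⟨i, (hWmem i hi).1, by rw [hWx i hi, hWe2 i hi]; ring⟩

end Cfsg.Agent.Lib.Helper8.Sz
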