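import Mathlib

set_option autoImplicit false

namespace Cfsg.Agent.Lib.Helper8.Sz

/-- the arithmetic of the degree graph of a Suzuki group -/
theorem graph_arith (q Q A B T : ℕ) (hAB : A * B = q ^ 2 + 1)
    (hq2 : ∀ p : ℕ, p.Prime → p ∣ q ^ 2 → p = 2) (h2q : 2 ∣ q ^ 2)
    (hT : ∀ p : ℕ, p.Prime → p ∣ T → p = 2) (h2T : 2 ∣ T)
    (D : Set ℕ) (hD : D = {1, q ^ 2, q ^ 2 + 1, Q * A, Q * B, Q * T}) :
    {p : ℕ | p.Prime ∧ ∃ d ∈ D, p ∣ d} = {r : ℕ | r.Prime ∧ (r = 2 ∨ r ∣ Q * (q ^ 2 + 1))} ∧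
    ∀ r s : ℕ, (r ≠ s ∧ r.Prime ∧ s.Prime ∧ ∃ d ∈ D, r * s ∣ d) ↔
      (r ≠ s ∧ r.Prime ∧ s.Prime ∧ ((r ∣ Q * (q ^ 2 + 1) ∧ s ∣ Q * (q ^ 2 + 1)) ∨
        (r = 2 ∧ s ∣ Q) ∨ (s = 2 ∧ r ∣ Q))) := by
  have hA : A ∣ q ^ 2 + 1 := ⟨B, hAB.symm⟩
  have hB : B ∣ q ^ 2 + 1 := ⟨A, by rw [mul_comm]; exact hAB.symm⟩
  have hmem : ∀ d : ℕ, d ∈ D ↔ d = 1 ∨ d = q ^ 2 ∨ d = q ^ 2 + 1 ∨ d = Q * A ∨ d = Q * B ∨
      d = Q * T := by
    intro d
    rw [hD]
    simp only [Set.mem_insert_iff, Set.mem_singleton_iff]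
  have hsplit : ∀ p : ℕ, p.Prime → p ∣ Q * (q ^ 2 + 1) → p ∣ Q ∨ p ∣ A ∨ p ∣ B := by
    intro p hp h
    rcases (Nat.Prime.dvd_mul hp).1 h with h | h
    · exact Or.inl h
    · rw [← hAB] at h
      rcases (Nat.Prime.dvd_mul hp).1 h with h | h
      · exact Or.inr (Or.inl h)
      · exact Or.inr (Or.inr h)
  constructor
  · ext p
    simp only [Set.mem_setOf_eq]
    constructor
    · rintro ⟨hp, d, hd, hpd⟩
      refine ⟨hp, ?_⟩
      rcases (hmem d).1 hd with rfl | rfl | rfl | rfl | rfl | rfl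
      · exact absurd (Nat.dvd_one.1 hpd) hp.ne_one
      · exact Or.inl (hq2 p hp hpd)
      · exact Or.inr (dvd_mul_of_dvd_right hpd _)
      · exact Or.inr (hpd.trans (mul_dvd_mul_left _ hA))
      · exact Or.inr (hpd.trans (mul_dvd_mul_left _ hB))
      · rcases (Nat.Prime.dvd_mul hp).1 hpd with h | h
        · exact Or.inr (dvd_mul_of_dvd_left h _)
        · exact Or.inl (hT p hp h)
    · rintro ⟨hp, h | h⟩
      · refine ⟨hp, q ^ 2, (hmem _).2 (Or.inr (Or.inl rfl)), ?_⟩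
        rw [h]
        exact h2q
      · rcases (Nat.Prime.dvd_mul hp).1 h with h | h
        · exact ⟨hp, Q * T, (hmem _).2 (by simp), dvd_mul_of_dvd_left h _⟩
        · exact ⟨hp, q ^ 2 + 1, (hmem _).2 (by simp), h⟩
  · intro r s
    constructor
    · rintro ⟨hne, hr, hs, d, hd, hrs⟩
      refine ⟨hne, hr, hs, ?_⟩
      have hrd : r ∣ d := (dvd_mul_right r s).trans hrs
      have hsd : s ∣ d := (dvd_mul_left s r).trans hrs
      rcases (hmem d).1 hd with rfl | rfl | rfl | rfl | rfl | rfl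
      · exact absurd (Nat.dvd_one.1 hrd) hr.ne_one
      · exact absurd ((hq2 r hr hrd).trans (hq2 s hs hsd).symm) hne
      · exact Or.inl ⟨dvd_mul_of_dvd_right hrd _, dvd_mul_of_dvd_right hsd _⟩
      · exact Or.inl ⟨hrd.trans (mul_dvd_mul_left _ hA), hsd.trans (mul_dvd_mul_left _ hA)⟩
      · exact Or.inl ⟨hrd.trans (mul_dvd_mul_left _ hB), hsd.trans (mul_dvd_mul_left _ hB)⟩
      · by_cases hr2 : r = 2
        · right; left
          refine ⟨hr2, ?_⟩
          rcases (Nat.Prime.dvd_mul hs).1 hsd with h | h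
          · exact h
          · exact absurd (hr2.trans (hT s hs h).symm) hne
        · by_cases hs2 : s = 2
          · right; right
            refine ⟨hs2, ?_⟩
            rcases (Nat.Prime.dvd_mul hr).1 hrd with h | h
            · exact h
            · exact absurd (hT r hr h) hr2
          · left
            constructor
            · rcases (Nat.Prime.dvd_mul hr).1 hrd with h | h
              · exact dvd_mul_of_dvd_left h _
              · exact absurd (hT r hr h) hr2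
            · rcases (Nat.Prime.dvd_mul hs).1 hsd with h | h
              · exact dvd_mul_of_dvd_left h _
              · exact absurd (hT s hs h) hs2
    · rintro ⟨hne, hr, hs, h⟩
      refine ⟨hne, hr, hs, ?_⟩
      have hcop : Nat.Coprime r s := (Nat.coprime_primes hr hs).2 hne
      rcases h with ⟨h1, h2⟩ | ⟨h1, h2⟩ | ⟨h1, h2⟩
      · rcases hsplit r hr h1 with a | a | a <;> rcases hsplit s hs h2 with b | b | b
        · exact ⟨Q * T, (hmem _).2 (by simp),
            dvd_mul_of_dvd_left (Nat.Coprime.mul_dvd_of_dvd_of_dvd hcop a b) _⟩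
        · exact ⟨Q * A, (hmem _).2 (by simp), mul_dvd_mul a b⟩
        · exact ⟨Q * B, (hmem _).2 (by simp), mul_dvd_mul a b⟩
        · exact ⟨Q * A, (hmem _).2 (by simp), by rw [mul_comm r s]; exact mul_dvd_mul b a⟩
        · exact ⟨q ^ 2 + 1, (hmem _).2 (by simp),
            (Nat.Coprime.mul_dvd_of_dvd_of_dvd hcop a b).trans hA⟩
        · exact ⟨q ^ 2 + 1, (hmem _).2 (by simp), by rw [← hAB]; exact mul_dvd_mul a b⟩
        · exact ⟨Q * B, (hmem _).2 (by simp), by rw [mul_comm r s]; exact mul_dvd_mul b a⟩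
        · exact ⟨q ^ 2 + 1, (hmem _).2 (by simp), by
            rw [← hAB, mul_comm r s]; exact mul_dvd_mul b a⟩
        · exact ⟨q ^ 2 + 1, (hmem _).2 (by simp),
            (Nat.Coprime.mul_dvd_of_dvd_of_dvd hcop a b).trans hB⟩
      · refine ⟨Q * T, (hmem _).2 (by simp), ?_⟩
        rw [h1, mul_comm 2 s]
        exact mul_dvd_mul h2 h2T
      · refine ⟨Q * T, (hmem _).2 (by simp), ?_⟩
        rw [h1]
        exact mul_dvd_mul h2 h2T

end Cfsg.Agent.Lib.Helper8.Sz
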