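import Mathlib

set_option autoImplicit false

/-! S1074 project T2 (helper99), piece T2-INJ: injectivity from a sorted table. -/

namespace Cfsg.Agent.Lib.Helper99.T2

open scoped commutatorElement

theorem t2inj_strict (N : ℕ) (SV : ℕ → ℕ) (h2 : ∀ r, r + 1 < N → SV r < SV (r + 1))
    (r r' : ℕ) (hrr : r < r') (hr' : r' < N) : SV r < SV r' := by
  induction r' with
  | zero => omega
  | succ k ih =>
    rcases Nat.lt_succ_iff_lt_or_eq.mp hrr with h | h
    · exact (ih h (by omega)).trans (h2 k hr')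
    · subst h
      exact h2 r hr'

theorem t2_inj_of_sorted (N : ℕ) (val SV RK SIG : ℕ → ℕ)
    (h1 : ∀ e < N, RK e < N ∧ val e = SV (RK e) ∧ SIG (RK e) = e)
    (h2 : ∀ r, r + 1 < N → SV r < SV (r + 1)) :
    ∀ e < N, ∀ e' < N, val e = val e' → e = e' := by
  intro e he e' he' hv
  obtain ⟨hr, hve, hs⟩ := h1 e he
  obtain ⟨hr', hve', hs'⟩ := h1 e' he'
  have hSV : SV (RK e) = SV (RK e') := by rw [← hve, ← hve', hv]
  have hRK : RK e = RK e' := by
    rcases Nat.lt_trichotomy (RK e) (RK e') with h | h | h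
    · exact absurd hSV (t2inj_strict N SV h2 _ _ h hr').ne
    · exact h
    · exact absurd hSV.symm (t2inj_strict N SV h2 _ _ h hr).ne
  rw [← hs, ← hs', hRK]

end Cfsg.Agent.Lib.Helper99.T2
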